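import Cfsg.Agent.H312.ReeSimple

/-!
# S3217, `q = 2`: the local analysis (helper312)

`Sit2` : the situation for `q = 2` (`C = C_G(τ)`, orders).

* `odd_trivial` : an element of odd order of `C` acting trivially on `Q / Q1` is trivial;
* `le_Q` : a normal subgroup of `C` acting trivially on `Q / Q1` lies in `Q`.
-/

set_option autoImplicit false

namespace Cfsg.Agent.H312.Ree

open Subgroup
open scoped commutatorElement

variable {G : Type*} [Group G]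

/-- an element of odd order acting trivially on sections of exponent two -/
theorem odd_step {a x : G} {n : ℕ} (hn : Odd n) (ha : a ^ n = 1) {R T : Subgroup G} (hTR : T ≤ R)
    (hRT : ∀ r ∈ R, ∀ t ∈ T, r * t * r⁻¹ ∈ T) (haR : ∀ r ∈ R, r⁻¹ * (a * r * a⁻¹) ∈ T)
    (hsq : ∀ r ∈ R, r * r ∈ T) (hx : x⁻¹ * (a * x * a⁻¹) ∈ R) : x⁻¹ * (a * x * a⁻¹) ∈ T := by
  set r := x⁻¹ * (a * x * a⁻¹) with hr
  have key : ∀ k : ℕ, ∃ t ∈ T, a ^ k * x * (a ^ k)⁻¹ = x * (r ^ k * t) := by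
    intro k
    induction k with
    | zero => exact ⟨1, T.one_mem, by simp⟩
    | succ k ih =>
      obtain ⟨t, ht, h1⟩ := ih
      have h2 : r ^ k * t ∈ R := R.mul_mem (R.pow_mem hx k) (hTR ht)
      have h3 := haR _ h2
      set s := (r ^ k * t)⁻¹ * (a * (r ^ k * t) * a⁻¹) with hs
      have hxr : a * x * a⁻¹ = x * r := by rw [hr]; group
      have hsr : a * (r ^ k * t) * a⁻¹ = (r ^ k * t) * s := by rw [hs, mul_inv_cancel_left]
      refine ⟨t * s, T.mul_mem ht h3, ?_⟩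
      calc a ^ (k + 1) * x * (a ^ (k + 1))⁻¹ = a * (a ^ k * x * (a ^ k)⁻¹) * a⁻¹ := by
            rw [pow_succ']; group
        _ = (a * x * a⁻¹) * (a * (r ^ k * t) * a⁻¹) := by rw [h1]; group
        _ = x * r * ((r ^ k * t) * s) := by rw [hxr, hsr]
        _ = x * (r ^ (k + 1) * (t * s)) := by rw [pow_succ']; group
  obtain ⟨t, ht, h1⟩ := key n
  rw [ha, one_mul, inv_one, mul_one] at h1
  have h2 : r ^ n * t = 1 := by
    have h3 : x * (r ^ n * t) = x * 1 := by rw [mul_one]; exact h1.symm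
    exact mul_left_cancel h3
  have h3 : r ^ n ∈ T := by
    rw [eq_inv_of_mul_eq_one_left h2]
    exact T.inv_mem ht
  obtain ⟨j, hj⟩ := hn
  rw [hj, pow_succ, pow_mul, pow_two] at h3
  have h4 : (r * r) ^ j ∈ T := T.pow_mem (hsq r hx) j
  have h5 := T.mul_mem (T.inv_mem h4) h3
  rwa [inv_mul_cancel_left] at h5

/-- the situation for `q = 2` -/
structure Loc2 (C Z Q2 Q1 Q : Subgroup G) : Prop extends Loc C Z Q2 Q1 Q where
  cardZ : Nat.card Z = 2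
  cardQ2 : Nat.card Q2 = 2 ^ 5
  cardQ1 : Nat.card Q1 = 2 ^ 6
  cardQ : Nat.card Q = 2 ^ 10
  cardC : Nat.card C = 2 ^ 12 * 5

namespace Loc2

variable {C Z Q2 Q1 Q : Subgroup G} (h : Loc2 C Z Q2 Q1 Q)
include h

theorem comm_eq : ⁅Q, Q⁆ = Q2 := by
  apply le_antisymm h.commQ
  have hn : NB C ⁅Q, Q⁆ := by
    intro c hc x hx
    have key : ⁅Q, Q⁆ ≤ (⁅Q, Q⁆).comap (MulAut.conj c).toMonoidHom := by
      rw [commutator_le]
      intro x hx y hy
      change (MulAut.conj c) ⁅x, y⁆ ∈ ⁅Q, Q⁆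
      rw [map_commutatorElement]
      exact commutator_mem_commutator (h.nQ c hc x hx) (h.nQ c hc y hy)
    exact key hx
  refine h.dich2 h.commQ hn fun h1 => ?_
  have h2 : Q ≤ Q2 := h.second le_rfl h.nQ fun x hx y hy => h1 (commutator_mem_commutator hx hy)
  exact h.ne1 (h.Q1_le.trans h2)

theorem Z_cases [Finite G] {x y : G} (hx : x ∈ Z) (hy : y ∈ Z) (hx1 : x ≠ 1) (hy1 : y ≠ 1) : x = y :=
  Cfsg.Agent.H316.Red.eq_of_card_le_two h.cardZ.le hx hy hx1 hy1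

/-- two elements of `Q1 ∖ Q2` -/
theorem mod_Q2 {x y : G} (hx : x ∈ Q1) (hy : y ∈ Q1) (hx2 : x ∉ Q2) (hy2 : y ∉ Q2) : x⁻¹ * y ∈ Q2 := by
  have h1 : Q2.relIndex Q1 = 2 := by
    have h2 := relIndex_mul_relIndex ⊥ Q2 Q1 bot_le h.Q2_le
    rw [relIndex_bot_left, relIndex_bot_left, h.cardQ2, h.cardQ1] at h2
    omega
  have h2 : (Q2.subgroupOf Q1).index = 2 := h1
  have h3 := (mul_mem_iff_of_index_two h2 (a := (⟨x, hx⟩ : Q1)⁻¹) (b := ⟨y, hy⟩)).2 (by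
    rw [inv_mem_iff]
    exact ⟨fun h4 => absurd h4 hx2, fun h4 => absurd h4 hy2⟩)
  exact h3

/-- **an element of odd order of `C` acting trivially on `Q / Q1` is trivial** -/
theorem odd_trivial {a : G} (haC : a ∈ C) {n : ℕ} (hn : Odd n) (ha : a ^ n = 1)
    (hQ : ∀ x ∈ Q, x⁻¹ * (a * x * a⁻¹) ∈ Q1) : a = 1 := by
  -- `Q / Q2`
  have h1 : ∀ x ∈ Q, x⁻¹ * (a * x * a⁻¹) ∈ Q2 := by
    intro x hx
    refine odd_step hn ha h.Q2_le (fun r hr t ht => h.nQ2 r (h.Q1_le_C hr) t ht) (fun r hr => ?_)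
      (fun r hr => h.Z_le (h.sq1 r hr)) (hQ x hx)
    have har : a * r * a⁻¹ ∈ Q1 := h.nQ1 a haC r hr
    by_cases hr2 : r ∈ Q2
    · exact mul_mem (inv_mem hr2) (h.nQ2 a haC r hr2)
    · refine h.mod_Q2 hr har hr2 fun h3 => hr2 ?_
      have h4 := h.nQ2 a⁻¹ (inv_mem haC) _ h3
      have e : a⁻¹ * (a * r * a⁻¹) * a⁻¹⁻¹ = r := by group
      rwa [e] at h4
  -- `Q2 / Z`
  have h2 : ∀ t ∈ Q2, t⁻¹ * (a * t * a⁻¹) ∈ Z := by
    let W : Subgroup G :=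
      { carrier := {t | t ∈ C ∧ t⁻¹ * (a * t * a⁻¹) ∈ Z}
        one_mem' := ⟨C.one_mem, by simp [Z.one_mem]⟩
        mul_mem' := by
          rintro s t ⟨hs, hs'⟩ ⟨ht, ht'⟩
          refine ⟨C.mul_mem hs ht, ?_⟩
          have e : (s * t)⁻¹ * (a * (s * t) * a⁻¹) = t⁻¹ * (s⁻¹ * (a * s * a⁻¹)) * t * (t⁻¹ * (a * t * a⁻¹)) := by
            group
          rw [e]
          refine Z.mul_mem ?_ ht'
          have h3 := h.nZ t⁻¹ (C.inv_mem ht) _ hs'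
          rwa [inv_inv] at h3
        inv_mem' := by
          rintro s ⟨hs, hs'⟩
          refine ⟨C.inv_mem hs, ?_⟩
          have e : s⁻¹⁻¹ * (a * s⁻¹ * a⁻¹) = (a * s * a⁻¹) * (s⁻¹ * (a * s * a⁻¹))⁻¹ * (a * s * a⁻¹)⁻¹ := by
            group
          rw [e]
          exact h.nZ _ (C.mul_mem (C.mul_mem haC hs) (C.inv_mem haC)) _ (Z.inv_mem hs') }
    have hW : ⁅Q, Q⁆ ≤ W := by
      rw [commutator_le]
      intro x hx y hy
      have hxC := h.Q_le hx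
      have hyC := h.Q_le hy
      refine ⟨?_, ?_⟩
      · rw [commutatorElement_def]
        exact C.mul_mem (C.mul_mem (C.mul_mem hxC hyC) (C.inv_mem hxC)) (C.inv_mem hyC)
      · have ex : a * x * a⁻¹ = x * (x⁻¹ * (a * x * a⁻¹)) := by group
        have ey : a * y * a⁻¹ = y * (y⁻¹ * (a * y * a⁻¹)) := by group
        have e : a * ⁅x, y⁆ * a⁻¹ = ⁅a * x * a⁻¹, a * y * a⁻¹⁆ := by simp only [commutatorElement_def]; group
        rw [e, ex, ey]
        set q := x⁻¹ * (a * x * a⁻¹) with hq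
        set q' := y⁻¹ * (a * y * a⁻¹) with hq'
        have hqQ : q ∈ Q2 := h1 x hx
        have hqQ' : q' ∈ Q2 := h1 y hy
        have e1 : ⁅x * q, y * q'⁆ = x * ⁅q, y * q'⁆ * x⁻¹ * ⁅x, y⁆ * (y * ⁅x, q'⁆ * y⁻¹) := by
          simp only [commutatorElement_def]; group
        rw [e1]
        have z1 : ⁅q, y * q'⁆ ∈ Z := h.comm2 q hqQ _ (Q.mul_mem hy (h.Q2_le_Q hqQ'))
        have z2 : ⁅x, q'⁆ ∈ Z := by
          rw [← commutatorElement_inv]; exact Z.inv_mem (h.comm2 q' hqQ' x hx)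
        have z1' := h.nZ x hxC _ z1
        have z2' := h.nZ y hyC _ z2
        have hcC : ⁅x, y⁆ ∈ C := by
          rw [commutatorElement_def]
          exact C.mul_mem (C.mul_mem (C.mul_mem hxC hyC) (C.inv_mem hxC)) (C.inv_mem hyC)
        have e2 : ⁅x, y⁆⁻¹ * (x * ⁅q, y * q'⁆ * x⁻¹ * ⁅x, y⁆ * (y * ⁅x, q'⁆ * y⁻¹)) =
            (⁅x, y⁆⁻¹ * (x * ⁅q, y * q'⁆ * x⁻¹) * ⁅x, y⁆) * (y * ⁅x, q'⁆ * y⁻¹) := by group
        rw [e2]
        refine Z.mul_mem ?_ z2'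
        have h3 := h.nZ ⁅x, y⁆⁻¹ (C.inv_mem hcC) _ z1'
        rwa [inv_inv] at h3
    intro t ht
    rw [← h.comm_eq] at ht
    exact (hW ht).2
  -- `Q2`
  have h3 : ∀ t ∈ Q2, t⁻¹ * (a * t * a⁻¹) ∈ (⊥ : Subgroup G) := by
    intro t ht
    refine odd_step hn ha bot_le (fun r _ t ht => ?_) (fun r hr => ?_) (fun r hr => ?_) (h2 t ht)
    · rw [mem_bot] at ht ⊢
      rw [ht]; group
    · rw [mem_bot, h.cZ a haC r hr]; group
    · rw [mem_bot]; exact h.sqZ hr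
  have h4 : ∀ x ∈ Q, x⁻¹ * (a * x * a⁻¹) ∈ (⊥ : Subgroup G) := by
    intro x hx
    refine odd_step hn ha bot_le (fun r _ t ht => ?_) (fun r hr => h3 r hr) (fun r hr => ?_) (h1 x hx)
    · rw [mem_bot] at ht ⊢
      rw [ht]; group
    · rw [mem_bot]; exact h.sq2 r hr
  have h5 : a ∈ Z := by
    refine h.cent a haC fun y hy => ?_
    have h6 := h4 y hy
    rw [mem_bot, inv_mul_eq_one] at h6
    rw [eq_mul_inv_iff_mul_eq] at h6
    exact h6.symm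
  obtain ⟨j, hj⟩ := hn
  rw [hj, pow_succ, pow_mul, pow_two, h.sqZ h5, one_pow, one_mul] at ha
  exact ha

/-- **a normal subgroup of `C` acting trivially on `Q / Q1` lies in `Q`** -/
theorem le_Q [Finite G] {N : Subgroup G} (hN : N ≤ C) (hn : NB C N) (hQ : ∀ a ∈ N, ∀ x ∈ Q, x⁻¹ * (a * x * a⁻¹) ∈ Q1) :
    N ≤ Q := by
  refine h.O2 N hN hn fun a => ?_
  obtain ⟨e, m, hm, he⟩ := Nat.exists_eq_two_pow_mul_odd (orderOf_pos (a : G)).ne'
  refine ⟨e, Subtype.ext ?_⟩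
  have h1 : ((a : G) ^ 2 ^ e) ^ m = 1 := by rw [← pow_mul, ← he, pow_orderOf_eq_one]
  exact h.odd_trivial (hN (N.pow_mem a.2 _)) hm h1 (hQ _ (N.pow_mem a.2 _))

/-- `Q1` is abelian -/
theorem abel {x y : G} (hx : x ∈ Q1) (hy : y ∈ Q1) : x * y = y * x := by
  by_cases hx2 : x ∈ Q2
  · exact (h.comm1 y hy x hx2).symm
  by_cases hy2 : y ∈ Q2
  · exact h.comm1 x hx y hy2
  have h1 := h.comm1 x hx _ (h.mod_Q2 hx hy hx2 hy2)
  calc x * y = x * (x * (x⁻¹ * y)) := by group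
    _ = x * ((x⁻¹ * y) * x) := by rw [h1]
    _ = y * x := by group

end Loc2

end Cfsg.Agent.H312.Ree
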