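import Cfsg.Agent.H312.ReeSit
import Cfsg.Agent.H312.ReeTwo

/-!
# S3217, `q = 2`: automorphisms of `C_2` and orders (helper312)

* `two_fixed` : an automorphism of odd order of `PL` fixing two Sylow 2-subgroups is trivial;
* `aut_odd` : an automorphism of odd order fixing a Sylow 2-subgroup is trivial;
* `loc2_of` : `Loc2`.
-/

set_option autoImplicit false

namespace Cfsg.Agent.H312.Ree

open Cfsg.Agent.SplitTwo Cfsg.Agent.SplitTwo.ZS Cfsg.Agent.TitsThree.RankTwoZ Cfsg.Agent.SplitTwo.RootSysZ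
open Cfsg.Agent.KFacts.TwF4 Cfsg.Agent.KFacts.TwF4.Arc Cfsg.Agent.KFacts.TwF4.Irr
open Cfsg.Agent.KFacts.TwF4.Inv Cfsg.Agent.KFacts.TwF4.Layers Cfsg.Agent.CpAutTwF Cfsg.Agent.H762.AutPL
  Cfsg.Agent.H762.AutPLB Cfsg.Agent.H762
open Subgroup
open scoped Pointwise commutatorElement

universe u

variable {F : Type*} [Field F] {σ : F →+* F} {G : Type u} [Group G] {S : Full σ G}

section two

variable [Finite F] [Finite G] (h01 : ∀ x : F, x = 0 ∨ x = 1) (hR : S.R.p = 2)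
include h01 hR

theorem exists_P : ∃ P : Sylow 2 ↥S.PL, (P : Subgroup ↥S.PL) = (J S.XZ 1 8).subgroupOf S.PL := by
  have hfact : Fact (Nat.Prime 2) := ⟨Nat.prime_two⟩
  have hUle := PL.U_le S
  have hUp : IsPGroup 2 (J S.XZ 1 8) := isPGroup_J S.zsys8 (two_X S hR) 8 1 8 (by norm_num) (by norm_num)
  have hcU : Nat.card ((J S.XZ 1 8).subgroupOf S.PL) = Nat.card (J S.XZ 1 8) :=
    Nat.card_congr (Subgroup.subgroupOfEquivOfLe hUle).toEquiv
  have hUi : ((J S.XZ 1 8).subgroupOf S.PL).index = 5 := by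
    have h1 := ((J S.XZ 1 8).subgroupOf S.PL).card_mul_index
    rw [card_five h01, hcU] at h1
    exact Nat.eq_of_mul_eq_mul_left Nat.card_pos h1
  have hUp' : IsPGroup 2 ((J S.XZ 1 8).subgroupOf S.PL) := hUp.comap_subtype
  exact ⟨hUp'.toSylow (by rw [hUi]; norm_num), rfl⟩

/-- the number of Sylow subgroups -/
theorem card_syl : Nat.card (Sylow 2 ↥S.PL) = 5 := by
  have hfact : Fact (Nat.Prime 2) := ⟨Nat.prime_two⟩
  obtain ⟨P, hPU⟩ := exists_P h01 hR
  have hUle := PL.U_le S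
  have hcU : Nat.card ((J S.XZ 1 8).subgroupOf S.PL) = Nat.card (J S.XZ 1 8) :=
    Nat.card_congr (Subgroup.subgroupOfEquivOfLe hUle).toEquiv
  have hUi : ((J S.XZ 1 8).subgroupOf S.PL).index = 5 := by
    have h1 := ((J S.XZ 1 8).subgroupOf S.PL).card_mul_index
    rw [card_five h01, hcU] at h1
    exact Nat.eq_of_mul_eq_mul_left Nat.card_pos h1
  have h1 : Nat.card (Sylow 2 ↥S.PL) ∣ 5 := by
    have h := P.card_dvd_index
    rwa [hPU, hUi] at h
  rcases (Nat.dvd_prime (by norm_num)).1 h1 with h2 | h2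
  · exfalso
    have hss : Subsingleton (Sylow 2 ↥S.PL) := (Nat.card_eq_one_iff_unique.1 h2).1
    have h0p : IsPGroup 2 (S.XZ 0) := two_X S hR 0
    obtain ⟨Q', hQ'⟩ := (h0p.comap_subtype (K := S.PL)).exists_le_sylow
    have h3 : Q' = P := Subsingleton.elim _ _
    have h7 : S.e 0 0 1 ∈ S.XZ 0 := (mem_X0 S).2 ⟨0, 1, rfl⟩
    have h8 : (⟨S.e 0 0 1, PL.X0_le S h7⟩ : ↥S.PL) ∈ (Q' : Subgroup ↥S.PL) := hQ' h7
    rw [h3, hPU] at h8
    have h9 : S.e 0 0 1 ∈ J S.XZ 1 8 := h8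
    exact PL.e0_ne S (PL.X0_inf_U S h7 h9)
  · exact h2

/-- an automorphism of odd order fixing two Sylow 2-subgroups -/
theorem two_fixed {δ : MulAut ↥S.PL} {n : ℕ} (hn : Odd n) (hδ : δ ^ n = 1) {A B : Sylow 2 ↥S.PL} (hAB : A ≠ B)
    (hA : δ • A = A) (hB : δ • B = B) : δ = 1 := by
  classical
  have hfact : Fact (Nat.Prime 2) := ⟨Nat.prime_two⟩
  obtain ⟨P, hPU⟩ := exists_P h01 hR
  obtain ⟨g1, hg1⟩ := MulAction.exists_smul_eq ↥S.PL P A
  obtain ⟨g2, hg2⟩ := MulAction.exists_smul_eq ↥S.PL P B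
  obtain ⟨m, hm, h1, h2⟩ := pair_PL S g1.2 g2.2
  rw [BT_eq h01] at h1 h2
  let μ : ↥S.PL := ⟨m, hm⟩
  let ν : ↥S.PL := ⟨S.n2, S.n2_mem⟩
  have hPm : ∀ g : ↥S.PL, g ∈ (P : Subgroup ↥S.PL) ↔ (g : G) ∈ J S.XZ 1 8 := fun g => by rw [hPU, mem_subgroupOf]
  have hself : ∀ {g : ↥S.PL}, (g : G) ∈ J S.XZ 1 8 → g • P = P := by
    intro g hg
    have h3 : g ∈ (P : Subgroup ↥S.PL) := (hPm g).2 hg
    exact Sylow.smul_eq_iff_mem_normalizer.2 (Subgroup.le_normalizer h3)
  have hmA : MulAut.conj μ • A = P := by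
    rw [← Sylow.smul_def, ← hg1, smul_smul]
    exact hself h1
  have hmB : MulAut.conj μ • B = ν • P := by
    rw [← Sylow.smul_def, ← hg2, smul_smul]
    rcases h2 with h2 | ⟨x, hx, h2⟩
    · exfalso
      apply hAB
      have h3 : (μ * g2) • P = P := hself h2
      have h4 : (μ * g1) • P = P := hself h1
      rw [mul_smul, hg2] at h3
      rw [mul_smul, hg1] at h4
      exact MulAction.injective μ (h4.trans h3.symm)
    · have hxP : x ∈ S.PL := X_le_J (by norm_num) (by norm_num) hx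
      have h3 : μ * g2 = ν * ⟨x, hxP⟩ := Subtype.ext h2
      rw [h3, mul_smul, hself (g := ⟨x, hxP⟩) (X_le_J (by norm_num) (by norm_num) hx)]
  let δ' : MulAut ↥S.PL := MulAut.conj μ * δ * (MulAut.conj μ)⁻¹
  have hP : δ' • P = P := by
    show (MulAut.conj μ * δ * (MulAut.conj μ)⁻¹) • P = P
    rw [mul_smul, mul_smul]
    nth_rewrite 1 [← hmA]
    rw [inv_smul_smul, hA, hmA]
  have hνP : δ' • (ν • P) = ν • P := by
    show (MulAut.conj μ * δ * (MulAut.conj μ)⁻¹) • (ν • P) = ν • P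
    rw [mul_smul, mul_smul]
    nth_rewrite 1 [← hmB]
    rw [inv_smul_smul, hB, hmB]
  have hmem : ∀ {R : Sylow 2 ↥S.PL}, δ' • R = R → ∀ {x}, x ∈ (R : Subgroup ↥S.PL) → δ' x ∈ (R : Subgroup ↥S.PL) := by
    intro R hR x hx
    have h3 : δ' • x ∈ δ' • (R : Subgroup ↥S.PL) := Subgroup.smul_mem_pointwise_smul _ _ _ hx
    rw [← Sylow.pointwise_smul_def, hR] at h3
    exact h3
  have hν : ∀ x : ↥S.PL, x ∈ ((ν • P : Sylow 2 ↥S.PL) : Subgroup ↥S.PL) ↔ (x : G) ∈ J S.XZ 0 7 := by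
    intro x
    rw [Sylow.smul_def, Sylow.pointwise_smul_def, Subgroup.mem_pointwise_smul_iff_inv_smul_mem, ← map_inv]
    show (ν⁻¹ * x * ν⁻¹⁻¹ : ↥S.PL) ∈ (P : Subgroup ↥S.PL) ↔ _
    rw [inv_inv, hPm]
    show S.n2⁻¹ * (x : G) * S.n2 ∈ J S.XZ 1 8 ↔ _
    constructor
    · intro h3
      have h4 := S.n2_refl.mem_J h3 (a' := 0) (b' := 7) (by norm_num) (by norm_num)
      have e : S.n2 * (S.n2⁻¹ * (x : G) * S.n2) * S.n2⁻¹ = x := by group
      rwa [e] at h4
    · intro h3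
      exact S.n2_refl.mem_J_inv h3 (by norm_num) (by norm_num)
  have hδ' : δ' = 1 := by
    refine triv' h01 hR hn ?_ ?_ ?_
    · show (MulAut.conj μ * δ * (MulAut.conj μ)⁻¹) ^ n = 1
      rw [conj_pow, hδ, mul_one, mul_inv_cancel]
    · intro x hx
      exact (hPm _).1 (hmem hP ((hPm x).2 hx))
    · intro x hx
      exact (hν _).1 (hmem hνP ((hν x).2 hx))
  have h5 : MulAut.conj μ * δ * (MulAut.conj μ)⁻¹ = 1 := hδ'
  exact conj_eq_one_iff.1 h5

/-- **an automorphism of odd order fixing a Sylow 2-subgroup is trivial** -/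
theorem aut_odd {δ : MulAut ↥S.PL} {n : ℕ} (hn : Odd n) (hδ : δ ^ n = 1) {P : Sylow 2 ↥S.PL} (hP : δ • P = P) :
    δ = 1 := by
  classical
  by_contra hne
  have hpos : 0 < n := hn.pos
  have hfo : IsOfFinOrder δ := isOfFinOrder_iff_pow_eq_one.2 ⟨n, hpos, hδ⟩
  have hodd : Odd (orderOf δ) := hn.of_dvd_nat (orderOf_dvd_of_pow_eq_one hδ)
  have h1 : orderOf δ ≠ 1 := fun h1 => hne (orderOf_eq_one_iff.1 h1)
  obtain ⟨r, hr, hrd⟩ := Nat.exists_prime_and_dvd h1
  have hrodd : Odd r := hodd.of_dvd_nat hrd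
  obtain ⟨j, hj⟩ := hrd
  set ε := δ ^ j with hε
  have hεr : ε ^ r = 1 := by rw [hε, ← pow_mul, mul_comm, ← hj, pow_orderOf_eq_one]
  have hε1 : ε ≠ 1 := by
    intro h2
    have h3 := orderOf_dvd_of_pow_eq_one h2
    have h4 : 0 < orderOf δ := hfo.orderOf_pos
    rw [hj] at h3 h4
    have h5 : 0 < j := Nat.pos_of_ne_zero fun h6 => by rw [h6, mul_zero] at h4; exact lt_irrefl _ h4
    have h6 := Nat.le_of_dvd h5 h3
    have h7 := hr.two_le
    nlinarith
  have hεP : ε • P = P := by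
    have : ∀ k : ℕ, (δ ^ k) • P = P := by
      intro k
      induction k with
      | zero => rw [pow_zero, one_smul]
      | succ k ih => rw [pow_succ, mul_smul, hP, ih]
    exact this j
  have hfactr : Fact r.Prime := ⟨hr⟩
  have hit : ∀ (k : ℕ) (A : Sylow 2 ↥S.PL), (fun A : Sylow 2 ↥S.PL => ε • A)^[k] A = (ε ^ k) • A := by
    intro k
    induction k with
    | zero => intro A; simp
    | succ k ih =>
      intro A
      rw [Function.iterate_succ_apply, ih, pow_succ, mul_smul]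
  have h2 := Count.card_fix (X := Sylow 2 ↥S.PL) (p := r) (fun A => ε • A) (by
    intro A
    rw [hit, hεr, one_smul])
  rw [card_syl h01 hR] at h2
  set f := Nat.card {A : Sylow 2 ↥S.PL // ε • A = A} with hf
  have hf5 : f ≤ 5 := by
    rw [← card_syl h01 hR]
    exact Nat.card_le_card_of_injective Subtype.val Subtype.val_injective
  have hf1 : 1 ≤ f := Nat.card_pos_iff.2 ⟨⟨⟨P, hεP⟩⟩, inferInstance⟩
  have hf2 : 2 ≤ f := by
    by_contra hcon
    have hf0 : f = 1 := by omega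
    have h3 : (r : ℤ) ∣ 1 - 5 := by
      have := (Nat.modEq_iff_dvd.1 h2)
      rw [hf0] at this
      exact_mod_cast this
    have h4 : (r : ℤ) ∣ 4 := by
      have := (dvd_neg.2 h3)
      norm_num at this
      exact this
    have h5 : r ∣ 4 := by exact_mod_cast h4
    have h6 : r ∣ 2 ^ 2 := h5
    have h7 := hr.dvd_of_dvd_pow h6
    have h8 := (Nat.prime_dvd_prime_iff_eq hr Nat.prime_two).1 h7
    rw [h8] at hrodd
    exact absurd hrodd (by decide)
  obtain ⟨a, b, hab⟩ := (Finite.one_lt_card_iff_nontrivial.1 (show 1 < Nat.card {A : Sylow 2 ↥S.PL // ε • A = A} from hf2)).exists_pair_ne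
  exact hε1 (two_fixed h01 hR hrodd hεr (fun h => hab (Subtype.ext h)) a.2 b.2)

/-- the same for groups isomorphic to `PL` -/
theorem aut_odd_of {C : Type*} [Group C] (e : C ≃* ↥S.PL) {δ : MulAut C} {n : ℕ} (hn : Odd n) (hδ : δ ^ n = 1)
    {P : Sylow 2 C} (hP : ∀ x ∈ (P : Subgroup C), δ x ∈ (P : Subgroup C)) : δ = 1 := by
  have hfact : Fact (Nat.Prime 2) := ⟨Nat.prime_two⟩
  have hfin : Finite C := Finite.of_equiv _ e.symm.toEquiv
  have h1 : MulAut.congr e δ = 1 := by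
    refine aut_odd h01 hR hn (P := P.mapSurjective (f := e.toMonoidHom) e.surjective) ?_ ?_
    · rw [← map_pow, hδ, map_one]
    · apply Sylow.ext
      rw [Sylow.pointwise_smul_def]
      apply eq_of_le_of_card_ge
      · rintro _ ⟨_, ⟨x, hx, rfl⟩, rfl⟩
        refine ⟨δ x, hP x hx, ?_⟩
        change e (δ x) = e (δ (e.symm (e x)))
        rw [e.symm_apply_apply]
      · exact (card_map_of_injective (MulEquiv.injective (MulAut.congr e δ))).ge
  exact (MulEquiv.map_eq_one_iff _).1 h1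

end two

end Cfsg.Agent.H312.Ree
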