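import Mathlib
import Cfsg.Prelude.Def_CaseTheorems
import Cfsg.Agent.Lib.Cores
import Cfsg.Agent.Lib.SylowNormalInf

/-!
# Burnside's theorem for normal subgroups (helper312, S3217)

* `retract` : the retraction of a group on a central Sylow 2-subgroup of exponent two;
* `central_of_perfect` : `C` perfect, `N` normal, `T` a Sylow 2-subgroup of `N`, `T ≤ Z(C)` : the elements of `N`
  normalising `T` centralise `T`;
* `le_sylow` : `N` normal, `N_N(T) ≤ C(T)` for a Sylow 2-subgroup `T` of `N`, `O(G) = 1` : `N` is a 2-group.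
-/

set_option autoImplicit false

namespace Cfsg.Agent.H312.Ree

open Subgroup
open scoped commutatorElement

/-- the retraction on a central Sylow 2-subgroup -/
theorem retract {A : Type*} [Group A] [Finite A] (P : Sylow 2 A) (hP : ∀ x ∈ (P : Subgroup A), ∀ a, a * x = x * a)
    (h2 : ∀ x ∈ (P : Subgroup A), x * x = 1) :
    ∃ r : A →* A, (∀ a, r a ∈ (P : Subgroup A)) ∧ (∀ x ∈ (P : Subgroup A), r x = x) ∧
      ∀ φ : A ≃* A, (∀ x ∈ (P : Subgroup A), φ x = x) → ∀ a, r (φ a) = r a := by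
  have hfact : Fact (Nat.Prime 2) := ⟨Nat.prime_two⟩
  have hn : normalizer ((P : Subgroup A) : Set A) ≤ centralizer ((P : Subgroup A) : Set A) := by
    intro a _
    rw [mem_centralizer_iff]
    intro x hx
    exact (hP x hx a).symm
  have hmem : ∀ a, ∀ x ∈ (P : Subgroup A), a * x * a⁻¹ = x := fun a x hx => by
    rw [hP x hx a, mul_inv_cancel_right]
  have hodd : Odd (P : Subgroup A).index := by
    rw [← Nat.not_even_iff_odd, even_iff_two_dvd]
    exact P.not_dvd_index
  let r : A →* A := (P : Subgroup A).subtype.comp (MonoidHom.transferSylow P hn)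
  have hr1 : ∀ a, r a ∈ (P : Subgroup A) := fun a => (MonoidHom.transferSylow P hn a).2
  have hr2 : ∀ x ∈ (P : Subgroup A), r x = x := by
    intro x hx
    have h1 : r x = x ^ (P : Subgroup A).index := by
      change ((MonoidHom.transferSylow P hn x : (P : Subgroup A)) : A) = _
      rw [MonoidHom.transferSylow_eq_pow P hn x hx]
    obtain ⟨k, hk⟩ := hodd
    rw [h1, hk, pow_succ, pow_mul, pow_two, h2 x hx, one_pow, one_mul]
  refine ⟨r, hr1, hr2, fun φ hφ a => ?_⟩
  -- the kernel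
  have hker : ∀ k, r k = 1 → r (φ k) = 1 := by
    intro k hk
    obtain ⟨e, m, hm, he⟩ := Nat.exists_eq_two_pow_mul_odd (orderOf_pos k).ne'
    have h3 : (k ^ m) ^ 2 ^ e = 1 := by
      rw [← pow_mul, mul_comm, ← he, pow_orderOf_eq_one]
    have h4 : k ^ m ∈ (P : Subgroup A) := by
      have h5 : IsPGroup 2 (zpowers (k ^ m)) := by
        rw [IsPGroup.iff_orderOf]
        rintro ⟨y, hy⟩
        obtain ⟨n, rfl⟩ := mem_zpowers_iff.1 hy
        rw [Subgroup.orderOf_mk]
        have h6 : orderOf ((k ^ m) ^ n) ∣ 2 ^ e := by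
          apply orderOf_dvd_of_pow_eq_one
          rw [← zpow_natCast, ← zpow_mul, mul_comm, zpow_mul, zpow_natCast, h3, one_zpow]
        exact (Nat.dvd_prime_pow Nat.prime_two).1 h6 |>.imp fun a h => h.2
      obtain ⟨P', hP'⟩ := h5.exists_le_sylow
      obtain ⟨g, hg⟩ := MulAction.exists_smul_eq A P' P
      have h7 : (P' : Subgroup A) ≤ (P : Subgroup A) := by
        intro x hx
        have h8 : g * x * g⁻¹ ∈ (P : Subgroup A) := by
          rw [← hg]
          exact Subgroup.smul_mem_pointwise_smul x (MulAut.conj g) _ hx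
        have h9 := hmem g⁻¹ _ h8
        have h10 : g⁻¹ * (g * x * g⁻¹) * g⁻¹⁻¹ = x := by group
        rw [h10] at h9
        rw [h9]; exact h8
      exact h7 (hP' (mem_zpowers _))
    have h5 : k ^ m = 1 := by
      rw [← hr2 _ h4, map_pow, hk, one_pow]
    have h6 : r (φ k) ^ m = 1 := by rw [← map_pow, ← map_pow, h5, map_one, map_one]
    obtain ⟨n, hn'⟩ := hm
    rwa [hn', pow_succ, pow_mul, pow_two, h2 _ (hr1 _), one_pow, one_mul] at h6
  have h3 : r ((r a)⁻¹ * a) = 1 := by rw [map_mul, map_inv, hr2 _ (hr1 a), inv_mul_cancel]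
  have h4 := hker _ h3
  rw [map_mul, map_mul, map_inv, map_inv, hφ _ (hr1 a), hr2 _ (hr1 a), inv_mul_eq_one] at h4
  exact h4.symm

variable {G : Type*} [Group G] [Finite G]

omit [Finite G] in
/-- a 2-subgroup `T` of `A` of odd index -/
theorem exists_sylow_of [Finite G] {A T : Subgroup G} (h2 : IsPGroup 2 T) (hi : ¬ 2 ∣ T.relIndex A) :
    ∃ P : Sylow 2 A, (P : Subgroup A) = T.subgroupOf A := by
  have hfact : Fact (Nat.Prime 2) := ⟨Nat.prime_two⟩
  exact ⟨(h2.comap_subtype (K := A)).toSylow hi, rfl⟩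

/-- **the elements of `N` normalising a Sylow 2-subgroup `T ≤ Z(C)` of the normal subgroup `N` centralise it if `C` is
perfect** -/
theorem central_of_perfect {C N T : Subgroup G} (hC : ⁅C, C⁆ = C) (hN : N.Normal) (hTN : T ≤ N) (hTC : T ≤ C)
    (hcT : ∀ c ∈ C, ∀ t ∈ T, c * t = t * c) (h2 : ∀ t ∈ T, t * t = 1) (hi : ¬ 2 ∣ T.relIndex N) {x : G} (hx : x ∈ N)
    (hxT : ∀ t ∈ T, x * t * x⁻¹ ∈ T) : ∀ t ∈ T, x * t = t * x := by
  have hfact : Fact (Nat.Prime 2) := ⟨Nat.prime_two⟩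
  set A : Subgroup G := N ⊓ centralizer (T : Set G) with hA
  have hTA : T ≤ A := le_inf hTN fun t ht => by
    rw [mem_centralizer_iff]
    intro s hs
    exact hcT s (hTC hs) t ht
  have hpT : IsPGroup 2 T := by
    intro t
    refine ⟨1, Subtype.ext ?_⟩
    change (t : G) ^ 2 ^ 1 = 1
    rw [pow_one, pow_two]; exact h2 t t.2
  have hiA : ¬ 2 ∣ T.relIndex A := by
    intro h
    apply hi
    rw [← relIndex_mul_relIndex T A N hTA inf_le_left]
    exact h.mul_right _
  obtain ⟨P, hP⟩ := exists_sylow_of hpT hiA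
  have hPm : ∀ y : A, y ∈ (P : Subgroup A) ↔ (y : G) ∈ T := fun y => by rw [hP, mem_subgroupOf]
  obtain ⟨r, hr1, hr2, hr3⟩ := retract P
    (fun y hy a => Subtype.ext (((mem_centralizer_iff.1 a.2.2) y ((hPm y).1 hy)).symm))
    (fun y hy => Subtype.ext (h2 y ((hPm y).1 hy)))
  -- `x⁻¹` normalises `T` too
  have hmap : T.map (MulAut.conj x).toMonoidHom = T := by
    apply eq_of_le_of_card_ge
    · rintro _ ⟨t, ht, rfl⟩
      exact hxT t ht
    · rw [card_map_of_injective (MulAut.conj x).injective]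
  have hxT' : ∀ t ∈ T, x⁻¹ * t * x ∈ T := by
    intro t ht
    rw [← hmap] at ht
    obtain ⟨s, hs, rfl⟩ := ht
    have e : x⁻¹ * ((MulAut.conj x).toMonoidHom s) * x = s := by
      change x⁻¹ * (x * s * x⁻¹) * x = s
      group
    rw [e]; exact hs
  have hcA : ∀ c ∈ C, ⁅c, x⁆ ∈ A := by
    intro c hc
    refine mem_inf.2 ⟨?_, ?_⟩
    · rw [commutatorElement_def]
      exact N.mul_mem (hN.conj_mem x hx c) (N.inv_mem hx)
    · rw [mem_centralizer_iff]
      intro t ht
      have h1 := hcT c hc t ht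
      have h3 := hcT c hc _ (hxT' t ht)
      rw [commutatorElement_def]
      have e1 : t * (c * x * c⁻¹ * x⁻¹) = (t * c) * x * c⁻¹ * x⁻¹ := by group
      rw [e1, ← h1]
      have e2 : c * t * x * c⁻¹ * x⁻¹ = c * x * ((x⁻¹ * t * x) * c⁻¹) * x⁻¹ := by group
      have h4 : (x⁻¹ * t * x) * c⁻¹ = c⁻¹ * (x⁻¹ * t * x) := (show Commute c (x⁻¹ * t * x) from h3).inv_left.eq.symm
      rw [e2, h4]
      group
  -- conjugation by `c`
  have hcj : ∀ c ∈ C, ∀ y ∈ A, c * y * c⁻¹ ∈ A := by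
    intro c hc y hy
    refine mem_inf.2 ⟨hN.conj_mem y hy.1 c, ?_⟩
    rw [mem_centralizer_iff]
    intro t ht
    have h1 := hcT c hc t ht
    have h1' : c⁻¹ * t * c = t := by rw [mul_assoc, ← h1]; group
    have h3 := mem_centralizer_iff.1 hy.2 t ht
    calc t * (c * y * c⁻¹) = c * ((c⁻¹ * t * c) * y) * c⁻¹ := by group
      _ = c * (y * t) * c⁻¹ := by rw [h1', h3]
      _ = c * y * (t * c⁻¹) := by group
      _ = c * y * (c⁻¹ * t) := by rw [(show Commute c t from h1).inv_left.eq]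
      _ = c * y * c⁻¹ * t := by group
  have hr4 : ∀ c (hc : c ∈ C) (y : G) (hy : y ∈ A), r ⟨c * y * c⁻¹, hcj c hc y hy⟩ = r ⟨y, hy⟩ := by
    intro c hc y hy
    let φ : A ≃* A :=
      { toFun := fun a => ⟨c * a * c⁻¹, hcj c hc a a.2⟩
        invFun := fun a => ⟨c⁻¹ * a * c, by
          have := hcj c⁻¹ (C.inv_mem hc) a a.2
          rwa [inv_inv] at this⟩
        left_inv := fun a => Subtype.ext (by change c⁻¹ * (c * a * c⁻¹) * c = a; group)
        right_inv := fun a => Subtype.ext (by change c * (c⁻¹ * a * c) * c⁻¹ = a; group)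
        map_mul' := fun a b => Subtype.ext (by
          change c * (a * b : G) * c⁻¹ = c * a * c⁻¹ * (c * b * c⁻¹); group) }
    exact hr3 φ (fun t ht => Subtype.ext (by
      change c * (t : G) * c⁻¹ = t
      rw [hcT c hc t ((hPm t).1 ht), mul_inv_cancel_right])) ⟨y, hy⟩
  -- the homomorphism
  let θ : C →* A := MonoidHom.mk' (fun c => r ⟨⁅(c : G), x⁆, hcA c c.2⟩) (by
    intro c d
    have e : (⟨⁅((c * d : C) : G), x⁆, hcA _ (c * d).2⟩ : A) =
        ⟨c * ⁅(d : G), x⁆ * (c : G)⁻¹, hcj c c.2 _ (hcA d d.2)⟩ * ⟨⁅(c : G), x⁆, hcA c c.2⟩ := by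
      apply Subtype.ext
      change ⁅(c : G) * d, x⁆ = c * ⁅(d : G), x⁆ * (c : G)⁻¹ * ⁅(c : G), x⁆
      simp only [commutatorElement_def]; group
    rw [e, map_mul, hr4 c c.2]
    apply Subtype.ext
    exact hcT _ (hTC ((hPm _).1 (hr1 _))) _ ((hPm _).1 (hr1 _)))
  have hθ : ∀ c, θ c = 1 := by
    have h1 : commutator C ≤ θ.ker := by
      rw [_root_.commutator_def, commutator_le]
      intro a _ b _
      rw [MonoidHom.mem_ker, map_commutatorElement, commutatorElement_eq_one_iff_mul_comm]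
      apply Subtype.ext
      exact hcT _ (hTC ((hPm _).1 (hr1 _))) _ ((hPm _).1 (hr1 _))
    have h3 : commutator C = ⊤ := by
      apply Subgroup.map_injective C.subtype_injective
      rw [_root_.commutator_def, Subgroup.map_commutator, ← MonoidHom.range_eq_map, Subgroup.range_subtype, hC]
    intro c
    have h4 : c ∈ commutator C := by rw [h3]; trivial
    exact MonoidHom.mem_ker.1 (h1 h4)
  intro t ht
  have h1 := hθ ⟨t, hTC ht⟩
  have h3 : ⁅t, x⁆ ∈ T := by
    have e : ⁅t, x⁆ = t * (x * t⁻¹ * x⁻¹) := by rw [commutatorElement_def]; group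
    rw [e]
    exact T.mul_mem ht (hxT _ (T.inv_mem ht))
  have h4 : r ⟨⁅t, x⁆, hcA t (hTC ht)⟩ = ⟨⁅t, x⁆, hcA t (hTC ht)⟩ := hr2 _ ((hPm _).2 h3)
  have h5 : (⟨⁅t, x⁆, hcA t (hTC ht)⟩ : A) = 1 := by rw [← h4]; exact h1
  have h6 : ⁅t, x⁆ = 1 := congrArg Subtype.val h5
  rw [commutatorElement_eq_one_iff_mul_comm] at h6
  exact h6.symm

/-- **Burnside**: if `N_N(T) ≤ C(T)` for a Sylow 2-subgroup `T` of the normal subgroup `N` and `O(G) = 1` then `N = T` -/
theorem le_sylow (hO : Cfsg.oddCore G = ⊥) (S : Sylow 2 G) {N : Subgroup G} (hN : N.Normal)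
    (hc : ∀ x ∈ N, (∀ t ∈ (S : Subgroup G) ⊓ N, x * t * x⁻¹ ∈ (S : Subgroup G) ⊓ N) →
      ∀ t ∈ (S : Subgroup G) ⊓ N, x * t = t * x) : N ≤ (S : Subgroup G) := by
  have hfact : Fact (Nat.Prime 2) := ⟨Nat.prime_two⟩
  have hi : ¬ 2 ∣ ((S : Subgroup G) ⊓ N).relIndex N := by
    rw [inf_relIndex_right]
    exact Cfsg.Agent.Lib.SylowNormalInf.not_dvd_relIndex S N
  obtain ⟨P, hP⟩ := exists_sylow_of (A := N) (S.isPGroup'.to_le inf_le_left) hi
  have hPm : ∀ y : N, y ∈ (P : Subgroup N) ↔ (y : G) ∈ (S : Subgroup G) ⊓ N := fun y => by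
    rw [hP, mem_subgroupOf]
  have hn : normalizer ((P : Subgroup N) : Set N) ≤ centralizer ((P : Subgroup N) : Set N) := by
    intro x hx
    rw [mem_centralizer_iff]
    intro t ht
    have h1 := hc x x.2 (fun s hs => by
      have h2 := (mem_normalizer_iff.1 hx ⟨s, hs.2⟩).1 ((hPm _).2 hs)
      exact (hPm _).1 h2) t ((hPm _).1 ht)
    exact Subtype.ext h1.symm
  set K := (MonoidHom.transferSylow P hn).ker with hK
  have hcomp := MonoidHom.ker_transferSylow_isComplement' P hn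
  have hKodd : (Nat.card K).Coprime 2 := by
    rw [Nat.coprime_two_right, ← Nat.not_even_iff_odd, even_iff_two_dvd]
    exact MonoidHom.not_dvd_card_ker_transferSylow P hn
  have hKn : K.Normal := inferInstance
  have hK1 : K ≤ Cfsg.pPrimeCore 2 N := Cfsg.Agent.Lib.Cores.le_pPrimeCore hKn hKodd
  have hchar : (Cfsg.pPrimeCore 2 N).Characteristic := Cfsg.Agent.Lib.Cores.pPrimeCore_characteristic 2
  have h3 : (Cfsg.pPrimeCore 2 N).map N.subtype ≤ Cfsg.oddCore G := by
    apply Cfsg.Agent.Lib.Cores.le_pPrimeCore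
    · exact ConjAct.normal_of_characteristic_of_normal
    · rw [card_map_of_injective N.subtype_injective]
      exact Cfsg.Agent.Lib.Cores.pPrimeCore_coprime 2
  rw [hO, le_bot_iff, map_eq_bot_iff_of_injective _ N.subtype_injective] at h3
  rw [h3, le_bot_iff] at hK1
  have h4 : (P : Subgroup N) = ⊤ := by
    rw [← hK, hK1] at hcomp
    exact isComplement'_bot_left.1 hcomp
  intro x hx
  have h5 : (⟨x, hx⟩ : N) ∈ (P : Subgroup N) := by rw [h4]; trivial
  exact ((hPm _).1 h5).1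

end Cfsg.Agent.H312.Ree
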