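import Cfsg.Agent.H312.ReeCount
import Cfsg.Agent.H762.Main
import Cfsg.Agent.NotCT.Orders

/-!
# S3217, `q = 2`: the almost simple case (helper312)

* `rough'` : known simple groups without root datum of characteristic two (`HasThree`) and without `ThreePair`;
* `Sit.center_T`, `Sit.card_T` : the Sylow 2-subgroup of `M`;
* `Sit.tits` : `M` is the Tits group.
-/

set_option autoImplicit false

namespace Cfsg.Agent.H312.Ree

open Subgroup
open scoped commutatorElement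

/-- **the possibilities** -/
theorem rough' {M : Type*} [Group M] [Finite M] (hna : ¬ IsMulCommutative M) (hk : IsKnownSimple' M)
    {τ : M} (hτ : orderOf τ = 2) (hpair : ¬ H762.ThreePair τ) (hthree : ¬ H762.HasThree M) :
    (∃ n, n ≤ 8 ∧ Nonempty (M ≃* alternatingGroup (Fin n))) ∨
      (¬ IsAlternating M ∧ ∃ p : ℕ, p.Prime ∧ p ≠ 2 ∧ IsLieTypeChar p M) ∨
      Lie.IsoSuzuki M ∨ Lie.Iso2F4 M ∨ Lie.IsoTits M ∨ IsSporadicGroup M := by
  by_cases halt : IsAlternating M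
  · left
    obtain ⟨n, hn, ⟨e⟩⟩ := halt
    refine ⟨n, ?_, ⟨e⟩⟩
    by_contra hcon
    obtain ⟨a, b, h1, h2, h3, h4, h5, h6⟩ := H479.AltThree.alt_three (n := n) (by omega) (e τ) (by
      rw [MulEquiv.orderOf_eq, hτ])
    exact hpair (H762.ThreePair.of_equiv e ⟨a, b, h1, h2, h3, h4, h5, h6⟩)
  right
  rcases OddHalf.Known.classify hna hk with h | ⟨p, hp, h2, h⟩ | (h | h) | h
  · exact absurd h halt
  · exact Or.inl ⟨halt, p, hp, h2, h⟩
  · right
    rcases h with h | h | h | h | h | h | h | h | ⟨-, h⟩ | ⟨-, h⟩ | ⟨h, -⟩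
    · exact (hthree (H685.Three.hasThree_psl h)).elim
    · exact (hthree (H685.Three.hasThree_witt (Or.inl h))).elim
    · exact (hthree (H685.Three.hasThree_witt (Or.inr (Or.inl h)))).elim
    · obtain ⟨F, _, _, _, m, -, h, -⟩ := h
      exact (H762.not_odd_char_two h).elim
    · exact (hthree (H685.Three.hasThree_witt (Or.inr (Or.inr (Or.inl h))))).elim
    · exact (hthree (H685.Three.hasThree_witt (Or.inr (Or.inr (Or.inr h))))).elim
    · exact (hthree (H685.Three.hasThree_exc h)).elim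
    · exact (hthree (H685.Three.hasThree_tw h)).elim
    · exact Or.inl h
    · exact Or.inr (Or.inl h)
    · omega
  · exact Or.inr (Or.inr (Or.inr (Or.inl h)))
  · exact Or.inr (Or.inr (Or.inr (Or.inr h)))

namespace Sit

variable {G : Type*} [Group G] [Finite G] {τ : G} {S : Sylow 2 G} {C Z Q2 Q1 Q : Subgroup G}
  (h : Sit τ S C Z Q2 Q1 Q) (k : Loc2 C Z Q2 Q1 Q)
include h

omit [Finite G] in
theorem sup_eq {M : Subgroup G} (hM : M.Normal) (hns : ¬ M ⊓ Q ≤ Q1) : (M ⊓ Q) ⊔ Q1 = Q :=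
  h.irr2 _ le_sup_right (sup_le inf_le_right h.Q1_le) (((NB.of_normal hM).inf h.nQ).sup h.nQ1)
    fun h1 => hns (le_sup_left.trans h1)

/-- **the centre of the Sylow 2-subgroup `S ∩ M` of `M`** -/
theorem center_T {M : Subgroup G} (hM : M.Normal) (hQM : Q2 ≤ M) (hns : ¬ M ⊓ Q ≤ Q1) {x : G} (hxS : x ∈ (S : Subgroup G))
    (hx : ∀ s ∈ (S : Subgroup G), s ∈ M → s * x = x * s) : x ∈ Z := by
  have hQS := h.Q_le_S
  have hxC : x ∈ C := h.S_le hxS
  have hx1 : x ∈ Q1 := h.cent2 x hxC fun y hy => (hx y (hQS (h.Q2_le_Q hy)) (hQM hy)).symm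
  have hxQ : x ∈ Q := h.Q1_le hx1
  have hsup := h.sup_eq hM hns
  have hx2 : x ∈ Q2 := by
    refine h.sec x hx1 fun y hy => ?_
    let W : Subgroup G :=
      { carrier := {y | y ∈ C ∧ ⁅x, y⁆ ∈ Z}
        one_mem' := ⟨C.one_mem, by rw [commutatorElement_one_right]; exact Z.one_mem⟩
        mul_mem' := by
          rintro a b ⟨ha, ha'⟩ ⟨hb, hb'⟩
          refine ⟨C.mul_mem ha hb, ?_⟩
          have e : ⁅x, a * b⁆ = ⁅x, a⁆ * (a * ⁅x, b⁆ * a⁻¹) := by simp only [commutatorElement_def]; group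
          rw [e]
          exact Z.mul_mem ha' (h.nZ a ha _ hb')
        inv_mem' := by
          rintro a ⟨ha, ha'⟩
          refine ⟨C.inv_mem ha, ?_⟩
          have e : ⁅x, a⁻¹⁆ = a⁻¹ * ⁅x, a⁆⁻¹ * a⁻¹⁻¹ := by simp only [commutatorElement_def]; group
          rw [e]
          exact h.nZ _ (C.inv_mem ha) _ (Z.inv_mem ha') }
    have hW : (M ⊓ Q) ⊔ Q1 ≤ W := by
      refine sup_le (fun d hd => ⟨h.Q_le hd.2, ?_⟩) (fun d hd => ⟨h.Q1_le_C hd, h.comm11 x hx1 d hd⟩)
      have e : ⁅x, d⁆ = 1 := commutatorElement_eq_one_iff_mul_comm.2 (hx d (hQS hd.2) hd.1).symm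
      rw [e]; exact Z.one_mem
    rw [hsup] at hW
    exact (hW hy).2
  refine h.cent x hxC fun y hy => ?_
  have hW : (M ⊓ Q) ⊔ Q1 ≤ centralizer ({x} : Set G) := by
    refine sup_le (fun d hd => mem_centralizer_singleton_iff.2 (hx d (hQS hd.2) hd.1))
      (fun d hd => mem_centralizer_singleton_iff.2 (h.comm1 d hd x hx2))
  rw [hsup] at hW
  exact (mem_centralizer_singleton_iff.1 (hW hy)).symm

omit [Finite G] in
include k in
theorem card_MQ {M : Subgroup G} (hM : M.Normal) (hQM : Q2 ≤ M) (hns : ¬ M ⊓ Q ≤ Q1) :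
    2 ^ 9 ∣ Nat.card (M ⊓ Q : Subgroup G) := by
  have hfQ : Finite Q := Nat.finite_of_card_ne_zero (by rw [k.cardQ]; norm_num)
  have hn : (Q1.subgroupOf Q).Normal := ⟨fun x hx g => h.nQ1 g (h.Q_le g.2) x hx⟩
  have hsup := h.sup_eq hM hns
  have h1 : M.subgroupOf Q ⊔ Q1.subgroupOf Q = ⊤ := by
    apply Subgroup.map_injective Q.subtype_injective
    rw [Subgroup.map_sup, subgroupOf_map_subtype, subgroupOf_map_subtype, inf_eq_left.2 h.Q1_le,
      ← MonoidHom.range_eq_map, range_subtype, hsup]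
  have h2 : (Q1.subgroupOf Q).index = 2 ^ 4 := by
    have h3 := (Q1.subgroupOf Q).card_mul_index
    rw [Nat.card_congr (subgroupOfEquivOfLe h.Q1_le).toEquiv, k.cardQ1, k.cardQ] at h3
    exact Nat.eq_of_mul_eq_mul_left (by norm_num) (h3.trans (by norm_num))
  have h3 : (Q1.subgroupOf Q).relIndex (M.subgroupOf Q) = 2 ^ 4 := by
    rw [← h2, ← relIndex_top_right, ← h1, relIndex_sup_right]
  have h4 := relIndex_mul_relIndex ⊥ (Q1.subgroupOf Q ⊓ M.subgroupOf Q) (M.subgroupOf Q) bot_le inf_le_right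
  rw [relIndex_bot_left, relIndex_bot_left, inf_relIndex_right, h3] at h4
  have h5 : Nat.card (M.subgroupOf Q) = Nat.card (M ⊓ Q : Subgroup G) := by
    rw [← card_map_of_injective Q.subtype_injective, subgroupOf_map_subtype]
  have h6 : 2 ^ 5 ∣ Nat.card (Q1.subgroupOf Q ⊓ M.subgroupOf Q : Subgroup Q) := by
    have h7 : Q2.subgroupOf Q ≤ Q1.subgroupOf Q ⊓ M.subgroupOf Q :=
      le_inf (comap_mono h.Q2_le) (comap_mono hQM)
    have h8 := card_dvd_of_le h7
    rwa [Nat.card_congr (subgroupOfEquivOfLe h.Q2_le_Q).toEquiv, k.cardQ2] at h8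
  rw [← h5, ← h4, show (2 : ℕ) ^ 9 = 2 ^ 5 * 2 ^ 4 by norm_num]
  exact Nat.mul_dvd_mul h6 dvd_rfl

omit [Finite G] h in
theorem dvd_G (k : Loc2 C Z Q2 Q1 Q) : 2 ^ 12 ∣ Nat.card G := by
  have h1 := C.card_subgroup_dvd_card
  rw [k.cardC] at h1
  exact (Dvd.intro _ rfl).trans h1

include k in
theorem not_dvd_G : ¬ 2 ^ 13 ∣ Nat.card G := by
  have hfact : Fact (Nat.Prime 2) := ⟨Nat.prime_two⟩
  intro h1
  rw [← (S : Subgroup G).card_mul_index] at h1
  have h2 : Nat.Coprime (2 ^ 13) (S : Subgroup G).index := by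
    refine Nat.Coprime.pow_left _ ((Nat.Prime.coprime_iff_not_dvd Nat.prime_two).2 ?_)
    exact S.not_dvd_index
  have h3 := (h2.dvd_of_dvd_mul_right h1).trans (card_dvd_of_le h.S_le)
  rw [k.cardC] at h3
  norm_num at h3

/-- **`M` is the Tits group** -/
theorem tits (k : Loc2 C Z Q2 Q1 Q) (hτ : orderOf τ = 2) (hC : ∀ g, g * τ = τ * g → g ∈ C) {M : Subgroup G}
    (hM : M.Normal) (hMs : IsSimpleGroup M) (hna : ¬ IsMulCommutative M) (hk : IsKnownSimple' M) (hQM : Q2 ≤ M)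
    (hns : ¬ M ⊓ Q ≤ Q1)
    (hclosed : ∀ (P : Sylow 2 M) (t : M), t ≠ 1 → t ∈ (P : Subgroup M) → (∀ s ∈ (P : Subgroup M), s * t = t * s) →
      (∀ x ∈ (P : Subgroup M), (∀ s ∈ (P : Subgroup M), s * x = x * s) → x = 1 ∨ x = t) →
      (∀ g, g * t = t * g → ∀ s ∈ (P : Subgroup M), g * s * g⁻¹ ∈ (P : Subgroup M)) →
      (∃ u ∈ (P : Subgroup M), u * u = 1 ∧ u ≠ 1 ∧ u ≠ t) → H762.HasThree M → Nat.card (P : Subgroup M) ≤ 8)
    (hspor : IsSporadicGroup M → 2 ^ 9 ∣ Nat.card M → ¬ 2 ^ 13 ∣ Nat.card M → 2 ^ 12 ∣ Nat.card G → False)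
    (hsz : Lie.IsoSuzuki M → ∀ (P : Sylow 2 M) (t : M), t ∈ (P : Subgroup M) → t * t = 1 →
      ∀ s ∈ (P : Subgroup M), s * t = t * s) : Lie.IsoTits M ∧ 2 ∣ M.index := by
  have hfact : Fact (Nat.Prime 2) := ⟨Nat.prime_two⟩
  have hQS := h.Q_le_S
  have hτM : τ ∈ M := hQM (h.Z_le h.τZ)
  set τ' : M := ⟨τ, hτM⟩ with hτ'
  have hτ2 : orderOf τ' = 2 := by rw [hτ', Subgroup.orderOf_mk]; exact hτ
  have hi : ¬ 2 ∣ ((S : Subgroup G) ⊓ M).relIndex M := by
    rw [inf_relIndex_right]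
    exact Cfsg.Agent.Lib.SylowNormalInf.not_dvd_relIndex S M
  obtain ⟨P, hP⟩ := exists_sylow_of (A := M) (S.isPGroup'.to_le inf_le_left) hi
  have hPm : ∀ y : M, y ∈ (P : Subgroup M) ↔ (y : G) ∈ (S : Subgroup G) := fun y => by
    rw [hP, mem_subgroupOf, mem_inf]
    exact ⟨fun h1 => h1.1, fun h1 => ⟨h1, y.2⟩⟩
  have hPc : ∀ s ∈ (P : Subgroup M), s * τ' = τ' * s := fun s hs => Subtype.ext (h.cS s ((hPm s).1 hs))
  have hPZ : ∀ x ∈ (P : Subgroup M), (∀ s ∈ (P : Subgroup M), s * x = x * s) → (x : G) ∈ Z := by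
    intro x hx hxc
    refine h.center_T hM hQM hns ((hPm x).1 hx) fun s hs hsM => ?_
    exact congrArg Subtype.val (hxc ⟨s, hsM⟩ ((hPm ⟨s, hsM⟩).2 hs))
  have hP9 : 2 ^ 9 ∣ Nat.card (P : Subgroup M) := by
    refine (card_MQ h k hM hQM hns).trans ?_
    have h1 : (M ⊓ Q : Subgroup G).subgroupOf M ≤ (P : Subgroup M) := by
      intro x hx
      exact (hPm x).2 (hQS hx.2)
    have h2 := card_dvd_of_le h1
    rwa [Nat.card_congr (subgroupOfEquivOfLe (inf_le_left : M ⊓ Q ≤ M)).toEquiv] at h2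
  have hM9 : 2 ^ 9 ∣ Nat.card M := hP9.trans (P : Subgroup M).card_subgroup_dvd_card
  have hM13 : ¬ 2 ^ 13 ∣ Nat.card M := fun h1 => h.not_dvd_G k (h1.trans M.card_subgroup_dvd_card)
  have hthreeC : ∀ x ∈ C, x * x * x = 1 → x = 1 := by
    intro x hx hx3
    by_contra hne
    have h4 : orderOf (⟨x, hx⟩ : ↥C) = 3 := by
      apply orderOf_eq_prime
      · apply Subtype.ext
        show x ^ 3 = 1
        rw [pow_three', hx3]
      · intro h5
        exact hne (congrArg Subtype.val h5)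
    have h5 := orderOf_dvd_natCard (⟨x, hx⟩ : ↥C)
    rw [h4, k.cardC] at h5
    norm_num at h5
  have hcC : ∀ x : M, x * τ' = τ' * x → (x : G) ∈ C := fun x hx => hC x (congrArg Subtype.val hx)
  have hpair : ¬ H762.ThreePair τ' := by
    rintro ⟨a, b, ha, hb, -, -, hne, h3⟩
    apply hne
    have haC := hcC a ha
    have hbC := hcC b hb
    apply Subtype.ext
    exact hthreeC _ (C.mul_mem haC hbC) (congrArg Subtype.val h3)
  have hthree : ¬ H762.HasThree M := by
    intro hH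
    rcases H762.char_two hH P hPc with hnorm | h1
    swap
    · exact hpair h1
    have h8 := hclosed P τ' (fun h1 => h.t1 (congrArg Subtype.val h1)) ((hPm τ').2 h.mem) hPc (fun x hx hxc => by
        by_cases hx1 : x = 1
        · exact Or.inl hx1
        · right
          apply Subtype.ext
          exact k.Z_cases (hPZ x hx hxc) h.τZ (fun h1 => hx1 (Subtype.ext h1)) h.t1) hnorm (by
        obtain ⟨u, hu, hu1⟩ : ∃ u ∈ Q2, u ∉ Z := by
          by_contra hcon
          push Not at hcon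
          exact h.not_Q2_le hcon
        refine ⟨⟨u, hQM hu⟩, (hPm _).2 (hQS (h.Q2_le_Q hu)), Subtype.ext (h.sq2 u hu), fun h1 => hu1 ?_,
          fun h1 => hu1 ?_⟩
        · have h3 : u = 1 := congrArg Subtype.val h1
          rw [h3]; exact Z.one_mem
        · have h3 : u = τ := congrArg Subtype.val h1
          rw [h3]; exact h.τZ) hH
    have h9 := Nat.le_of_dvd Nat.card_pos hP9
    omega
  rcases rough' hna hk hτ2 hpair hthree with ⟨n, hn, ⟨e⟩⟩ | ⟨halt, p, hp, h2, hG⟩ | hG | hG | hG | hG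
  · exfalso
    rw [Nat.card_congr e.toEquiv] at hM9
    have h2 : Nat.card (alternatingGroup (Fin n)) ∣ Nat.card (Equiv.Perm (Fin n)) := card_subgroup_dvd_card _
    rw [Nat.card_eq_fintype_card (α := Equiv.Perm (Fin n)), Fintype.card_perm, Fintype.card_fin] at h2
    have h3 : 2 ^ 9 ∣ Nat.factorial 8 := (hM9.trans h2).trans (Nat.factorial_dvd_factorial hn)
    rw [show Nat.factorial 8 = 40320 by decide] at h3
    omega
  · exfalso
    have hrank : ¬ (OddHalf.LieOddFam.XL27 M ∨ OddHalf.LieOddFam.XL2Big M ∨ Lie.IsoRee M) := by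
      intro hx
      refine H126.ElemSixteen.no_elem16 hx (Q2.subgroupOf M) (fun x hx => Subtype.ext (h.sq2 x hx)) ?_
      rw [Nat.card_congr (subgroupOfEquivOfLe hQM).toEquiv, k.cardQ2]
      norm_num
    rcases OddHalf.LieOddFam.lieOdd_cases ⟨p, hp, h2, hG⟩ halt with h1 | h1 | h1 | ⟨q, hq, hrk⟩
    · exact hrank (Or.inl h1)
    · exact hrank (Or.inr (Or.inl h1))
    · exact hrank (Or.inr (Or.inr h1))
    · have hl := OddHalf.LongSL.hasLong_of_rk hq hrk
      rcases H753.three_of_hasLong hl hτ2 ((hPm τ').2 h.mem) hPc with ⟨F, _, _, J, -, -, hJ, ⟨e⟩⟩ | ⟨T, w, -, -, hw, hkw, t, ht, hwt⟩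
      · have h3 : 3 ∣ Nat.card (J.map M.subtype) := by
          rw [card_map_of_injective M.subtype_injective, Nat.card_congr e.toEquiv]
          exact H762.GHyp.three_dvd_sl F
        have h4 : J.map M.subtype ≤ C := by
          rintro _ ⟨x, hx, rfl⟩
          exact hcC x (mem_centralizer_singleton_iff.1 (hJ hx))
        have h5 := h3.trans (card_dvd_of_le h4)
        rw [k.cardC] at h5
        norm_num at h5
      · apply hwt
        obtain ⟨j, hj⟩ := hkw
        have hwC : (w : G) ∈ C := hcC w (mem_centralizer_singleton_iff.1 hw)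
        have h3 : orderOf (⟨w, hwC⟩ : ↥C) ∣ 3 ^ j := by
          apply orderOf_dvd_of_pow_eq_one
          apply Subtype.ext
          have h8 : ((w ^ 3 ^ j : M) : G) = ((1 : M) : G) := congrArg Subtype.val hj
          rw [SubgroupClass.coe_pow] at h8
          exact h8
        have h4 := orderOf_dvd_natCard (⟨w, hwC⟩ : ↥C)
        rw [k.cardC] at h4
        have h5 : Nat.Coprime (3 ^ j) (2 ^ 12 * 5) := Nat.Coprime.pow_left _ (by norm_num)
        have h6 : orderOf (⟨w, hwC⟩ : ↥C) = 1 := Nat.dvd_one.1 (h5.gcd_eq_one ▸ Nat.dvd_gcd h3 h4)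
        have h7 : w = 1 := by
          have h8 : (⟨w, hwC⟩ : ↥C) = 1 := orderOf_eq_one_iff.1 h6
          exact Subtype.ext (congrArg (fun x : ↥C => (x : G)) h8)
        rw [h7, one_mul, mul_one]
  · exfalso
    apply h.not_Q2_le
    intro t ht
    have htP : (⟨t, hQM ht⟩ : M) ∈ (P : Subgroup M) := (hPm _).2 (hQS (h.Q2_le_Q ht))
    exact hPZ ⟨t, hQM ht⟩ htP (hsz hG P _ htP (Subtype.ext (h.sq2 t ht)))
  · exfalso
    obtain ⟨F, _, _, j, hj, hF, ⟨e⟩⟩ := hG
    have h1 := S1068.result hF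
    rw [← Nat.card_congr e.toEquiv, mul_assoc, mul_assoc, mul_assoc] at h1
    apply hM13
    rw [h1, ← pow_mul]
    exact (pow_dvd_pow 2 (by omega)).trans (Dvd.intro _ rfl)
  · refine ⟨hG, ?_⟩
    have h1 := NotCT.Orders.tits hG
    have h3 := dvd_G k
    rw [← M.card_mul_index, h1] at h3
    have h4 : 2 ^ 11 * 2 ∣ 2 ^ 11 * (8775 * M.index) := by
      have e : 2 ^ 11 * (8775 * M.index) = 17971200 * M.index := by ring
      rw [e]; exact h3
    have h5 := Nat.dvd_of_mul_dvd_mul_left (by norm_num) h4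
    exact (Nat.Coprime.dvd_of_dvd_mul_left (by norm_num) h5)
  · exact (hspor hG hM9 hM13 (dvd_G k)).elim

end Sit

end Cfsg.Agent.H312.Ree
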