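import Cfsg.Agent.H312.ReeRed

/-!
# The minimal normal subgroup is simple (helper312, S3217)

`Sit.exists_simple` : if `O(G) = O_2(G) = 1`, `G` has a nonabelian simple normal subgroup `M ≥ Q2` with trivial
centralizer.
-/

set_option autoImplicit false

namespace Cfsg.Agent.H312.Ree

open Subgroup
open scoped commutatorElement
open Cfsg.Agent.Lib.MinNormalNonabelian (minSet map_conj_mem_minSet nonabelian_structure)

variable {G : Type*} [Group G] [Finite G]

/-- a minimal normal subgroup `M` which is a direct product of nonabelian simple groups -/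
structure Fac (M : Subgroup G) : Prop where
  n : M.Normal
  ind : sSupIndep (minSet M)
  sup : sSup (minSet M) = M
  simple : ∀ T ∈ minSet M, IsSimpleGroup T
  ctr : ∀ T ∈ minSet M, ∀ z ∈ T, (∀ t ∈ T, Commute z t) → z = 1

namespace Fac

variable {M : Subgroup G} (f : Fac M)
include f

omit [Finite G] in
theorem comm {L T : Subgroup G} (hL : L ∈ minSet M) (hT : T ∈ minSet M) (hne : T ≠ L) {a b : G} (ha : a ∈ L)
    (hb : b ∈ T) : a * b = b * a := by
  have hdis : Disjoint L T := f.ind.pairwiseDisjoint hL hT hne.symm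
  have h4 : ⁅a, b⁆ ∈ L ⊓ T := by
    refine mem_inf.2 ⟨?_, ?_⟩
    · rw [commutatorElement_def, mul_assoc, mul_assoc]
      refine L.mul_mem ha ?_
      rw [← mul_assoc]
      exact (mem_normalizer_iff.1 (hL.2.2.1 (hT.1 hb)) _).1 (L.inv_mem ha)
    · rw [commutatorElement_def]
      exact T.mul_mem ((mem_normalizer_iff.1 (hT.2.2.1 (hL.1 ha)) _).1 hb) (T.inv_mem hb)
  rw [hdis.eq_bot, mem_bot, commutatorElement_eq_one_iff_mul_comm] at h4
  exact h4

omit [Finite G] in
theorem inf_bot {L : Subgroup G} (hL : L ∈ minSet M) : L ⊓ (M ⊓ centralizer (L : Set G)) = ⊥ := by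
  rw [eq_bot_iff]
  rintro x ⟨hxL, -, hxc⟩
  rw [mem_bot]
  exact f.ctr L hL x hxL fun t ht => (mem_centralizer_iff.1 hxc t ht).symm

omit [Finite G] in
theorem le_B {L T : Subgroup G} (hL : L ∈ minSet M) (hT : T ∈ minSet M) (hTL : T ≠ L) :
    T ≤ M ⊓ centralizer (L : Set G) := by
  refine le_inf hT.1 fun b hb => ?_
  rw [mem_centralizer_iff]
  intro a ha
  exact f.comm hL hT hTL ha hb

omit [Finite G] in
theorem sup_eq {L : Subgroup G} (hL : L ∈ minSet M) : L ⊔ (M ⊓ centralizer (L : Set G)) = M := by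
  apply le_antisymm (sup_le hL.1 inf_le_left)
  conv_lhs => rw [← f.sup]
  refine sSup_le fun T hT => ?_
  by_cases hTL : T = L
  · rw [hTL]; exact le_sup_left
  · exact le_sup_of_le_right (f.le_B hL hT hTL)

omit [Finite G] in
theorem conj_mem {L : Subgroup G} (hL : L ∈ minSet M) (g : G) : L.map (MulAut.conj g).toMonoidHom ∈ minSet M := by
  have := f.n
  exact map_conj_mem_minSet hL g

omit [Finite G] in
theorem not_two (h2 : Cfsg.pCore 2 G = ⊥) {L : Subgroup G} (hL : L ∈ minSet M) : ¬ IsPGroup 2 L := by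
  intro hp
  have hn : (L.subgroupOf M).Normal := (normal_subgroupOf_iff_le_normalizer hL.1).2 hL.2.2.1
  have h1 := map_mono (f := M.subtype)
    (Cfsg.Agent.Lib.Cores.le_pCore hn (hp.comap_of_injective M.subtype M.subtype_injective))
  rw [subgroupOf_map_subtype, inf_eq_left.2 hL.1, Cfsg.Agent.Lib.Cores.map_subtype_pCore 2 f.n, h2, inf_bot_eq,
    le_bot_iff] at h1
  exact hL.2.1 h1

theorem not_odd (hO : Cfsg.oddCore G = ⊥) {L : Subgroup G} (hL : L ∈ minSet M) : ¬ Odd (Nat.card L) := by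
  intro hp
  have hn : (L.subgroupOf M).Normal := (normal_subgroupOf_iff_le_normalizer hL.1).2 hL.2.2.1
  have hc : (Nat.card (L.subgroupOf M)).Coprime 2 := by
    rw [Nat.card_congr (subgroupOfEquivOfLe hL.1).toEquiv, Nat.coprime_two_right]
    exact hp
  have h1 := map_mono (f := M.subtype) (Cfsg.Agent.Lib.Cores.le_pPrimeCore hn hc)
  have h3 : Cfsg.pPrimeCore 2 G = ⊥ := hO
  rw [subgroupOf_map_subtype, inf_eq_left.2 hL.1, Cfsg.Agent.Lib.Cores.map_subtype_pPrimeCore 2 f.n, h3, inf_bot_eq,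
    le_bot_iff] at h1
  exact hL.2.1 h1

end Fac

namespace Sit

variable {τ : G} {S : Sylow 2 G} {C Z Q2 Q1 Q : Subgroup G} (h : Sit τ S C Z Q2 Q1 Q)

include h

/-- **no factor centralises `τ`** -/
theorem not_cent (hO : Cfsg.oddCore G = ⊥) (h2 : Cfsg.pCore 2 G = ⊥) {M : Subgroup G} (f : Fac M) (hQM : Q2 ≤ M)
    {L : Subgroup G} (hL : L ∈ minSet M) : ¬ ∀ x ∈ L, x * τ = τ * x := by
  intro hLτ
  have hLn : ∀ x ∈ M, ∀ y ∈ L, x * y * x⁻¹ ∈ L := fun x hx y hy =>
    (mem_normalizer_iff.1 (hL.2.2.1 hx) y).1 hy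
  have hLD : L ≤ centralizer ({τ} : Set G) := fun x hx => mem_centralizer_singleton_iff.2 (hLτ x hx)
  have hsimple := f.simple L hL
  have hn : (C.subgroupOf L).Normal := by
    constructor
    intro c hc g
    exact mem_subgroupOf.2 (h.C_n g (hLτ g g.2) c (mem_subgroupOf.1 hc))
  have hLC : L ≤ C := by
    rcases hn.eq_bot_or_eq_top with h3 | h3
    · exfalso
      apply f.not_odd hO hL
      have h4 : C.relIndex L ∣ C.relIndex (centralizer ({τ} : Set G)) := by
        have hCD : (C.subgroupOf (centralizer ({τ} : Set G))).Normal := by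
          constructor
          intro c hc g
          exact mem_subgroupOf.2 (h.C_n g (mem_centralizer_singleton_iff.1 g.2) c (mem_subgroupOf.1 hc))
        rw [← relIndex_subgroupOf hLD]
        exact relIndex_dvd_index_of_normal _ _
      have h5 : C.relIndex L = Nat.card L := by
        rw [relIndex, h3, index_bot]
      rw [h5] at h4
      exact h.C_odd.of_dvd_nat h4
    · exact subgroupOf_eq_top.1 h3
  have hLQ : L ⊓ Q = ⊥ := by
    have hn' : (Q.subgroupOf L).Normal := by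
      constructor
      intro c hc g
      exact mem_subgroupOf.2 (h.nQ g (hLC g.2) c (mem_subgroupOf.1 hc))
    rcases hn'.eq_bot_or_eq_top with h3 | h3
    · rw [inf_comm]
      exact subgroupOf_eq_bot.1 h3 |>.eq_bot
    · exact absurd (h.two.to_le (subgroupOf_eq_top.1 h3)) (f.not_two h2 hL)
  have hL1 : L ≤ Q1 := by
    intro x hx
    refine h.cent2 x (hLC hx) fun y hy => ?_
    have h3 : ⁅x, y⁆ ∈ L ⊓ Q := by
      refine mem_inf.2 ⟨?_, ?_⟩
      · have e : ⁅x, y⁆ = x * (y * x⁻¹ * y⁻¹) := by rw [commutatorElement_def]; group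
        rw [e]
        exact L.mul_mem hx (hLn y (hQM hy) _ (L.inv_mem hx))
      · rw [commutatorElement_def]
        exact Q.mul_mem (h.nQ x (hLC hx) y (h.Q2_le_Q hy)) (Q.inv_mem (h.Q2_le_Q hy))
    rw [hLQ, mem_bot, commutatorElement_eq_one_iff_mul_comm] at h3
    exact h3
  exact f.not_two h2 hL (h.two.to_le (hL1.trans h.Q1_le))

/-- `τ` is not in a factor of a proper decomposition: the commuting conjugates -/
theorem exists_simple (hO : Cfsg.oddCore G = ⊥) (h2 : Cfsg.pCore 2 G = ⊥) :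
    ∃ M : Subgroup G, M.Normal ∧ IsSimpleGroup M ∧ Q2 ≤ M ∧ centralizer (M : Set G) = ⊥ ∧
      ¬ ∀ x ∈ M, ∀ y ∈ M, Commute x y := by
  set M : Subgroup G := normalClosure {τ} with hMdef
  have hM : M.Normal := normalClosure_normal
  have hτM : τ ∈ M := subset_normalClosure rfl
  have hτZ := h.τZ
  have hMne : M ≠ ⊥ := fun hb => by
    rw [hb, mem_bot] at hτM
    exact h.t1 hτM
  have hmem : ∀ {N : Subgroup G}, N.Normal → N ≠ ⊥ → M ≤ N := by
    intro N hN hne
    exact normalClosure_le_normal (Set.singleton_subset_iff.2 (h.Q2_le_normal hO h2 hN hne (h.Z_le hτZ)))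
  have hQM : Q2 ≤ M := h.Q2_le_normal hO h2 hM hMne
  have hmin : ∀ N : Subgroup G, N.Normal → N ≤ M → N = ⊥ ∨ N = M := by
    intro N hN hNM
    by_cases hne : N = ⊥
    · exact Or.inl hne
    · exact Or.inr (le_antisymm hNM (hmem hN hne))
  have hna : ¬ ∀ x ∈ M, ∀ y ∈ M, Commute x y := by
    intro hab
    let W : Subgroup G :=
      { carrier := {x | x ∈ M ∧ x * x = 1}
        one_mem' := ⟨M.one_mem, one_mul 1⟩
        mul_mem' := by
          rintro a b ⟨ha, ha2⟩ ⟨hb, hb2⟩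
          refine ⟨M.mul_mem ha hb, ?_⟩
          calc a * b * (a * b) = a * (b * a) * b := by group
            _ = a * (a * b) * b := by rw [(hab a ha b hb).eq]
            _ = (a * a) * (b * b) := by group
            _ = 1 := by rw [ha2, hb2, one_mul]
        inv_mem' := by
          rintro a ⟨ha, ha2⟩
          have e : a⁻¹ = a := inv_eq_of_mul_eq_one_left ha2
          rw [e]
          exact ⟨ha, ha2⟩ }
    have hWn : W.Normal := by
      constructor
      rintro x ⟨hx, hx2⟩ g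
      refine ⟨hM.conj_mem x hx g, ?_⟩
      calc g * x * g⁻¹ * (g * x * g⁻¹) = g * (x * x) * g⁻¹ := by group
        _ = 1 := by rw [hx2]; group
    have hW2 : IsPGroup 2 W := by
      intro x
      refine ⟨1, Subtype.ext ?_⟩
      change (x : G) ^ 2 ^ 1 = 1
      rw [pow_one, pow_two]
      exact x.2.2
    have h3 := Cfsg.Agent.Lib.Cores.le_pCore hWn hW2
    rw [h2, le_bot_iff] at h3
    have h4 : τ ∈ W := ⟨hτM, h.tt⟩
    rw [h3, mem_bot] at h4
    exact h.t1 h4
  have hcent : centralizer (M : Set G) = ⊥ := by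
    by_contra hne
    have h1 : (centralizer (M : Set G)).Normal := inferInstance
    have h3 := hmem h1 hne
    exact hna fun x hx y hy => (mem_centralizer_iff.1 (h3 hy) x hx)
  obtain ⟨hnonempty, hind, hsup, hsimp, hctr, -⟩ := nonabelian_structure M hmin hna
  have f : Fac M := ⟨hM, hind, hsup, hsimp, hctr⟩
  refine ⟨M, hM, ?_, hQM, hcent, hna⟩
  obtain ⟨L, hL⟩ := hnonempty
  set B : Subgroup G := M ⊓ centralizer (L : Set G) with hBdef
  have hLB1 : L ⊓ B = ⊥ := f.inf_bot hL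
  have hLB2 : L ⊔ B = M := f.sup_eq hL
  have hLBc : ∀ a ∈ L, ∀ b ∈ B, a * b = b * a := fun a ha b hb => mem_centralizer_iff.1 hb.2 a ha
  obtain ⟨p, hp⟩ := Cfsg.Agent.H316.Red.exists_proj hLBc hLB1 hLB2
  have huniq : ∀ {a a' b b' : G}, a ∈ L → a' ∈ L → b ∈ B → b' ∈ B → a * b = a' * b' → a = a' := by
    intro a a' b b' ha ha' hb hb' hab
    have h1 : a'⁻¹ * a ∈ L ⊓ B := by
      refine mem_inf.2 ⟨L.mul_mem (L.inv_mem ha') ha, ?_⟩
      have h3 : a'⁻¹ * a = b' * b⁻¹ := by
        rw [inv_mul_eq_iff_eq_mul, ← mul_assoc, ← hab, mul_inv_cancel_right]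
      rw [h3]
      exact B.mul_mem hb' (B.inv_mem hb)
    rw [hLB1, mem_bot, inv_mul_eq_one] at h1
    exact h1.symm
  set t₁ : G := p ⟨τ, hτM⟩ with ht₁
  set κ : G := t₁⁻¹ * τ with hκ
  have ht₁L : t₁ ∈ L := (hp _).1
  have hκB : κ ∈ B := (hp ⟨τ, hτM⟩).2
  have hτe : τ = t₁ * κ := by rw [hκ, mul_inv_cancel_left]
  have ht₁sq : t₁ * t₁ = 1 := by
    rw [ht₁, ← map_mul]
    have e : (⟨τ, hτM⟩ : M) * ⟨τ, hτM⟩ = 1 := Subtype.ext h.tt
    rw [e, map_one]
  have ht₁ne : t₁ ≠ 1 := by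
    intro h1
    have h3 : τ ∈ B := by rw [hτe, h1, one_mul]; exact hκB
    exact h.not_cent hO h2 f hQM hL fun x hx => hLBc x hx τ h3
  -- conjugation
  have hcd : ∀ g, ∀ T ∈ minSet M, ∀ x ∈ T, g * x * g⁻¹ ∈ T.map (MulAut.conj g).toMonoidHom :=
    fun g T _ x hx => ⟨x, hx, rfl⟩
  have hnB : ∀ g, L.map (MulAut.conj g).toMonoidHom = L → (∀ x ∈ L, g * x * g⁻¹ ∈ L) ∧ ∀ x ∈ B, g * x * g⁻¹ ∈ B := by
    intro g hg
    have h1 : ∀ x ∈ L, g * x * g⁻¹ ∈ L := fun x hx => by
      have := hcd g L hL x hx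
      rwa [hg] at this
    have h3 : ∀ x ∈ L, g⁻¹ * x * g ∈ L := by
      intro x hx
      rw [← hg] at hx
      obtain ⟨y, hy, rfl⟩ := hx
      have e : g⁻¹ * ((MulAut.conj g).toMonoidHom y) * g = y := by
        change g⁻¹ * (g * y * g⁻¹) * g = y
        group
      rw [e]; exact hy
    refine ⟨h1, fun x hx => mem_inf.2 ⟨hM.conj_mem x hx.1 g, ?_⟩⟩
    rw [mem_centralizer_iff]
    intro y hy
    have h4 := mem_centralizer_iff.1 hx.2 _ (h3 y hy)
    calc y * (g * x * g⁻¹) = g * ((g⁻¹ * y * g) * x) * g⁻¹ := by group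
      _ = g * (x * (g⁻¹ * y * g)) * g⁻¹ := by rw [h4]
      _ = g * x * g⁻¹ * y := by group
  -- (F3)
  have hF3 : ∀ g, g * τ = τ * g → L.map (MulAut.conj g).toMonoidHom = L → g * t₁ * g⁻¹ = t₁ := by
    intro g hg hgL
    obtain ⟨h1, h3⟩ := hnB g hgL
    refine huniq (h1 _ ht₁L) ht₁L (h3 _ hκB) hκB ?_
    have e : g * t₁ * g⁻¹ * (g * κ * g⁻¹) = g * (t₁ * κ) * g⁻¹ := by group
    rw [e, ← hτe, hg, mul_inv_cancel_right]
  -- the group generated by the conjugates of `t₁`
  set E : Subgroup G := closure {y | ∃ c ∈ C, y = c * t₁ * c⁻¹} with hE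
  have hgen : ∀ c ∈ C, c * t₁ * c⁻¹ ∈ E := fun c hc => subset_closure ⟨c, hc, rfl⟩
  have hcommgen : ∀ c ∈ C, ∀ d ∈ C, (c * t₁ * c⁻¹) * (d * t₁ * d⁻¹) = (d * t₁ * d⁻¹) * (c * t₁ * c⁻¹) := by
    intro c hc d hd
    by_cases hcdL : L.map (MulAut.conj d).toMonoidHom = L.map (MulAut.conj c).toMonoidHom
    · have h1 : L.map (MulAut.conj (d⁻¹ * c)).toMonoidHom = L := by
        have h3 := congrArg (fun T : Subgroup G => T.map (MulAut.conj d⁻¹).toMonoidHom) hcdL
        simp only [map_map] at h3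
        have e1 : (MulAut.conj d⁻¹).toMonoidHom.comp (MulAut.conj d).toMonoidHom = MonoidHom.id G := by
          ext x
          change d⁻¹ * (d * x * d⁻¹) * d⁻¹⁻¹ = x
          group
        have e2 : (MulAut.conj d⁻¹).toMonoidHom.comp (MulAut.conj c).toMonoidHom =
            (MulAut.conj (d⁻¹ * c)).toMonoidHom := by
          ext x
          change d⁻¹ * (c * x * c⁻¹) * d⁻¹⁻¹ = d⁻¹ * c * x * (d⁻¹ * c)⁻¹
          group
        rw [e1, e2, map_id] at h3
        exact h3.symm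
      have h3 := hF3 (d⁻¹ * c) (h.C_le _ (C.mul_mem (C.inv_mem hd) hc)) h1
      have h4 : c * t₁ * c⁻¹ = d * t₁ * d⁻¹ := by
        calc c * t₁ * c⁻¹ = d * ((d⁻¹ * c) * t₁ * (d⁻¹ * c)⁻¹) * d⁻¹ := by group
          _ = d * t₁ * d⁻¹ := by rw [h3]
      rw [h4]
    · exact f.comm (f.conj_mem hL c) (f.conj_mem hL d) hcdL (hcd c L hL _ ht₁L) (hcd d L hL _ ht₁L)
  have hEcomm : ∀ x ∈ E, ∀ y ∈ E, x * y = y * x := by
    intro x hx y hy
    refine closure_induction₂ (p := fun x y _ _ => x * y = y * x) ?_ (fun x _ => by rw [one_mul, mul_one])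
      (fun x _ => by rw [one_mul, mul_one]) ?_ ?_ ?_ ?_ hx hy
    · rintro _ _ ⟨c, hc, rfl⟩ ⟨d, hd, rfl⟩
      exact hcommgen c hc d hd
    · intro a b c _ _ _ h1 h3
      exact (Commute.mul_left (show Commute a c from h1) h3).eq
    · intro a b c _ _ _ h1 h3
      exact (Commute.mul_right (show Commute c a from h1) h3).eq
    · intro a b _ _ h1
      exact (show Commute a b from h1).inv_left.eq
    · intro a b _ _ h1
      exact (show Commute a b from h1).inv_right.eq
  have hEsq : ∀ x ∈ E, x * x = 1 := by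
    intro x hx
    refine closure_induction (p := fun x _ => x * x = 1) ?_ (one_mul 1) ?_ ?_ hx
    · rintro _ ⟨c, hc, rfl⟩
      calc c * t₁ * c⁻¹ * (c * t₁ * c⁻¹) = c * (t₁ * t₁) * c⁻¹ := by group
        _ = 1 := by rw [ht₁sq]; group
    · intro a b ha hb h1 h3
      calc a * b * (a * b) = a * (b * a) * b := by group
        _ = a * (a * b) * b := by rw [hEcomm b hb a ha]
        _ = (a * a) * (b * b) := by group
        _ = 1 := by rw [h1, h3, one_mul]
    · intro a _ h1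
      rw [← mul_inv_rev, h1, inv_one]
  have ht₁τ : t₁ * τ = τ * t₁ := by
    have h1 := hLBc t₁ ht₁L κ hκB
    rw [hτe, mul_assoc, h1]
  have hEτ : ∀ x ∈ E, x * τ = τ * x := by
    intro x hx
    refine closure_induction (p := fun x _ => x * τ = τ * x) ?_ (by rw [one_mul, mul_one]) ?_ ?_ hx
    · rintro _ ⟨c, hc, rfl⟩
      have h1 : c⁻¹ * τ * c = τ := by
        have h3 := h.C_le c hc
        rw [mul_assoc, ← h3]; group
      calc c * t₁ * c⁻¹ * τ = c * (t₁ * (c⁻¹ * τ * c)) * c⁻¹ := by group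
        _ = c * (t₁ * τ) * c⁻¹ := by rw [h1]
        _ = c * (τ * t₁) * c⁻¹ := by rw [ht₁τ]
        _ = (c * τ) * (t₁ * c⁻¹) := by group
        _ = (τ * c) * (t₁ * c⁻¹) := by rw [h.C_le c hc]
        _ = τ * (c * t₁ * c⁻¹) := by group
    · intro a b _ _ h1 h3
      exact (Commute.mul_left (show Commute a τ from h1) h3).eq
    · intro a _ h1
      exact (show Commute a τ from h1).inv_left.eq
  have hE2 : IsPGroup 2 E := by
    intro x
    refine ⟨1, Subtype.ext ?_⟩
    change (x : G) ^ 2 ^ 1 = 1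
    rw [pow_one, pow_two]
    exact hEsq x x.2
  have hEC : E ≤ C := h.le_C hEτ hE2
  have hEn : NB C E := by
    intro c hc x hx
    have key : E ≤ E.comap (MulAut.conj c).toMonoidHom := by
      rw [hE, closure_le]
      rintro _ ⟨d, hd, rfl⟩
      refine subset_closure ⟨c * d, C.mul_mem hc hd, ?_⟩
      change c * (d * t₁ * d⁻¹) * c⁻¹ = _
      group
    exact key hx
  have ht₁E : t₁ ∈ E := by
    have := hgen 1 C.one_mem
    rwa [one_mul, inv_one, mul_one] at this
  rcases h.elem hEC hEn hEsq with hEZ | hEQ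
  · -- `t₁ ∈ Z`
    have ht₁Z : t₁ ∈ Z := hEZ ht₁E
    by_cases hκ1 : κ = 1
    · have hτL : τ ∈ L := by rw [hτe, hκ1, mul_one]; exact ht₁L
      have honly : minSet M = {L} := by
        apply Set.Subset.antisymm
        · intro T hT
          rw [Set.mem_singleton_iff]
          by_contra hTL
          exact h.not_cent hO h2 f hQM hT fun x hx => (hLBc τ hτL x (f.le_B hL hT hTL hx)).symm
        · exact Set.singleton_subset_iff.2 hL
      have hML : M = L := by rw [← hsup, honly, sSup_singleton]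
      have h5 := hsimp L hL
      rw [hML]; exact h5
    · exfalso
      have hκZ : κ ∈ Z := Z.mul_mem (Z.inv_mem ht₁Z) hτZ
      have hCL : ∀ c ∈ C, L.map (MulAut.conj c).toMonoidHom = L := by
        intro c hc
        by_contra hne
        have h3 : Disjoint (L.map (MulAut.conj c).toMonoidHom) L := hind.pairwiseDisjoint (f.conj_mem hL c) hL hne
        have h4 : t₁ ∈ L.map (MulAut.conj c).toMonoidHom ⊓ L := by
          refine mem_inf.2 ⟨⟨t₁, ht₁L, ?_⟩, ht₁L⟩
          change c * t₁ * c⁻¹ = t₁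
          rw [h.cZ c hc t₁ ht₁Z, mul_inv_cancel_right]
        rw [h3.eq_bot, mem_bot] at h4
        exact ht₁ne h4
      have hLn : NB C L := fun c hc => (hnB c (hCL c hc)).1
      have hBn : NB C B := fun c hc => (hnB c (hCL c hc)).2
      have hCn : NB C C := fun c hc x hx => C.mul_mem (C.mul_mem hc hx) (C.inv_mem hc)
      have hLZ : L ⊓ C ≤ Z := by
        refine h.le_Z inf_le_right (hLn.inf hCn) ?_
        rcases h.dich (D := L ⊓ C ⊓ Q) inf_le_right ((hLn.inf hCn).inf h.nQ) with h3 | h3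
        · exact h3
        · exfalso
          apply hκ1
          have h4 : τ ∈ L := (h3 (h.Z_le hτZ)).1.1
          have h5 : κ ∈ L ⊓ B := mem_inf.2 ⟨L.mul_mem (L.inv_mem ht₁L) h4, hκB⟩
          rwa [hLB1, mem_bot] at h5
      have hBZ : B ⊓ C ≤ Z := by
        refine h.le_Z inf_le_right (hBn.inf hCn) ?_
        rcases h.dich (D := B ⊓ C ⊓ Q) inf_le_right ((hBn.inf hCn).inf h.nQ) with h3 | h3
        · exact h3
        · exfalso
          apply ht₁ne
          have h4 : τ ∈ B := (h3 (h.Z_le hτZ)).1.1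
          have h5 : t₁ ∈ L ⊓ B := by
            refine mem_inf.2 ⟨ht₁L, ?_⟩
            have e : t₁ = τ * κ⁻¹ := by rw [hτe, mul_inv_cancel_right]
            rw [e]
            exact B.mul_mem h4 (B.inv_mem hκB)
          rwa [hLB1, mem_bot] at h5
      apply h.not_Q2_le
      intro x hx
      have hxM : x ∈ M := hQM hx
      have hxτ : x * τ = τ * x := h.cZ x (h.Q2_le_C hx) τ hτZ
      set a : G := p ⟨x, hxM⟩ with ha
      have haL : a ∈ L := (hp _).1
      have hbB : a⁻¹ * x ∈ B := (hp ⟨x, hxM⟩).2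
      have hasq : a * a = 1 := by
        rw [ha, ← map_mul]
        have e : (⟨x, hxM⟩ : M) * ⟨x, hxM⟩ = 1 := Subtype.ext (h.sq2 x hx)
        rw [e, map_one]
      have hat : a * t₁ = t₁ * a := by
        rw [ha, ht₁, ← map_mul, ← map_mul]
        congr 1
        exact Subtype.ext hxτ
      have haτ : a * τ = τ * a := by
        calc a * τ = a * t₁ * κ := by rw [mul_assoc, ← hτe]
          _ = t₁ * (a * κ) := by rw [hat, mul_assoc]
          _ = t₁ * κ * a := by rw [hLBc a haL κ hκB]; exact (mul_assoc _ _ _).symm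
          _ = τ * a := by rw [← hτe]
      have haC : a ∈ C := h.mem_C haτ (k := 1) (by rw [pow_one, pow_two]; exact hasq)
      have haZ : a ∈ Z := hLZ ⟨haL, haC⟩
      have hbZ : a⁻¹ * x ∈ Z := hBZ ⟨hbB, C.mul_mem (C.inv_mem haC) (h.Q2_le_C hx)⟩
      have h6 := Z.mul_mem haZ hbZ
      rwa [mul_inv_cancel_left] at h6
  · -- `E = Q2`
    exfalso
    have ht₁Q2 : t₁ ∈ Q2 := hEQ ▸ ht₁E
    have ht₁Z : t₁ ∉ Z := by
      intro h1
      apply h.not_Q2_le
      rw [← hEQ, hE, closure_le]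
      rintro _ ⟨c, hc, rfl⟩
      exact h.nZ c hc t₁ h1
    have hg : ∃ g ∈ Q, g * t₁ ≠ t₁ * g := by
      by_contra hcon
      push Not at hcon
      exact ht₁Z (h.cent t₁ (h.Q2_le_C ht₁Q2) fun y hy => (hcon y hy).symm)
    obtain ⟨g, hgQ, hgt⟩ := hg
    have hgC : g ∈ C := h.Q_le hgQ
    have hwZ : ⁅t₁, g⁆ ∈ Z := h.comm2 t₁ ht₁Q2 g hgQ
    set L₂ : Subgroup G := L.map (MulAut.conj g).toMonoidHom with hL₂
    have hL₂m : L₂ ∈ minSet M := f.conj_mem hL g
    have hL₂ne : L₂ ≠ L := by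
      intro h1
      apply hgt
      have h3 := hF3 g (h.C_le g hgC) h1
      rwa [mul_inv_eq_iff_eq_mul] at h3
    -- `u`
    set u : G := g * t₁⁻¹ * g⁻¹ with hu
    have huL₂ : u ∈ L₂ := hcd g L hL _ (L.inv_mem ht₁L)
    have hw : ⁅t₁, g⁆ = t₁ * u := by rw [commutatorElement_def, hu]; group
    -- conjugates of `L` under `C`
    have hcases : ∀ c ∈ C, L.map (MulAut.conj c).toMonoidHom = L ∨ L₂.map (MulAut.conj c).toMonoidHom = L := by
      intro c hc
      by_contra hcon
      push Not at hcon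
      obtain ⟨h1, h3⟩ := hcon
      have h4 : c * ⁅t₁, g⁆ * c⁻¹ = ⁅t₁, g⁆ := by
        rw [h.cZ c hc _ hwZ, mul_inv_cancel_right]
      have h5 : c * t₁ * c⁻¹ ∈ B := f.le_B hL (f.conj_mem hL c) h1 (hcd c L hL _ ht₁L)
      have h6 : c * u * c⁻¹ ∈ B := f.le_B hL (f.conj_mem hL₂m c) h3 (hcd c L₂ hL₂m _ huL₂)
      have h7 : u ∈ B := f.le_B hL hL₂m hL₂ne huL₂
      apply ht₁ne
      refine huniq (b := u) (b' := (c * t₁ * c⁻¹) * (c * u * c⁻¹)) ht₁L L.one_mem h7 (B.mul_mem h5 h6) ?_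
      rw [one_mul, ← hw, ← h4, hw]
      group
    have hgens : ∀ c ∈ C, c * t₁ * c⁻¹ = t₁ ∨ c * t₁ * c⁻¹ = g * t₁ * g⁻¹ := by
      intro c hc
      rcases hcases c⁻¹ (C.inv_mem hc) with h1 | h1
      · left
        have h3 := hF3 c⁻¹ (h.C_le _ (C.inv_mem hc)) h1
        have h4 : c * t₁ * c⁻¹ = c * (c⁻¹ * t₁ * c⁻¹⁻¹) * c⁻¹ := by rw [h3]
        rw [h4]; group
      · right
        have e : L.map (MulAut.conj (c⁻¹ * g)).toMonoidHom = L := by
          rw [hL₂, map_map] at h1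
          have e2 : (MulAut.conj c⁻¹).toMonoidHom.comp (MulAut.conj g).toMonoidHom =
              (MulAut.conj (c⁻¹ * g)).toMonoidHom := by
            ext x
            change c⁻¹ * (g * x * g⁻¹) * c⁻¹⁻¹ = c⁻¹ * g * x * (c⁻¹ * g)⁻¹
            group
          rwa [e2] at h1
        have h3 := hF3 _ (h.C_le _ (C.mul_mem (C.inv_mem hc) hgC)) e
        calc c * t₁ * c⁻¹ = c * ((c⁻¹ * g) * t₁ * (c⁻¹ * g)⁻¹) * c⁻¹ := by rw [h3]
          _ = g * t₁ * g⁻¹ := by group
    set v : G := g * t₁ * g⁻¹ with hv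
    have hvt : v * t₁ = t₁ * v := by
      have h1 := hcommgen g hgC 1 C.one_mem
      rwa [one_mul, inv_one, mul_one] at h1
    have hvsq : v * v = 1 := hEsq v (hgen g hgC)
    have hfin : ∀ x ∈ E, x = 1 ∨ x = t₁ ∨ x = v ∨ x = t₁ * v := by
      intro x hx
      refine closure_induction (p := fun x _ => x = 1 ∨ x = t₁ ∨ x = v ∨ x = t₁ * v) ?_ (Or.inl rfl) ?_ ?_ hx
      · rintro _ ⟨c, hc, rfl⟩
        rcases hgens c hc with h1 | h1
        · exact Or.inr (Or.inl h1)
        · exact Or.inr (Or.inr (Or.inl h1))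
      · have e1 : t₁ * (t₁ * v) = v := by rw [← mul_assoc, ht₁sq, one_mul]
        have e2 : v * (t₁ * v) = t₁ := by rw [← mul_assoc, hvt, mul_assoc, hvsq, mul_one]
        have e3 : t₁ * v * t₁ = v := by rw [mul_assoc, hvt, e1]
        have e4 : t₁ * v * v = t₁ := by rw [mul_assoc, hvsq, mul_one]
        have e5 : t₁ * v * (t₁ * v) = 1 := by rw [← mul_assoc, e3, hvsq]
        rintro a b _ _ (rfl | rfl | rfl | rfl) (rfl | rfl | rfl | rfl)
        all_goals simp [ht₁sq, hvsq, hvt, e1, e2, e3, e4, e5]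
      · have e1 : t₁⁻¹ = t₁ := inv_eq_of_mul_eq_one_left ht₁sq
        have e2 : v⁻¹ = v := inv_eq_of_mul_eq_one_left hvsq
        rintro a _ (rfl | rfl | rfl | rfl)
        · left; rw [inv_one]
        · right; left; exact e1
        · right; right; left; exact e2
        · right; right; right
          rw [mul_inv_rev, e1, e2, hvt]
    have hcard : Nat.card Q2 ≤ 4 := by
      rw [← hEQ]
      classical
      have h1 : (E : Set G) ⊆ (({1, t₁, v, t₁ * v} : Finset G) : Set G) := by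
        intro x hx
        rcases hfin x hx with h3 | h3 | h3 | h3 <;> simp [h3]
      have h3 : Nat.card E ≤ ({1, t₁, v, t₁ * v} : Finset G).card := by
        have h4 := Nat.card_mono (Finset.finite_toSet _) h1
        rw [Nat.card_coe_set_eq (s := ((({1, t₁, v, t₁ * v} : Finset G)) : Set G)), Set.ncard_coe_finset] at h4
        exact h4
      exact h3.trans Finset.card_le_four
    exact absurd hcard (not_le.2 h.big)

end Sit

end Cfsg.Agent.H312.Ree
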