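import Cfsg.Agent.H312.ReeInst
import Cfsg.Agent.H312.ReeSimple
import Cfsg.Agent.H762.Main

/-!
# 2-central involutions of `²F₄(q)`; the situation of S3217 (helper312)

* `exists_conj` : two 2-central involutions of `²F₄(q)` are conjugate;
* `Dat` : the hypotheses of S3217, `Dat.exists_sit`.
-/

set_option autoImplicit false

namespace Cfsg.Agent.H312.Ree

open Cfsg.Agent.SplitTwo Cfsg.Agent.SplitTwo.ZS Cfsg.Agent.TitsThree.RankTwoZ Cfsg.Agent.SplitTwo.RootSysZ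
open Cfsg.Agent.KFacts.TwF4 Cfsg.Agent.KFacts.TwF4.Arc Cfsg.Agent.KFacts.TwF4.Irr
open Cfsg.Agent.KFacts.TwF4.Inv Cfsg.Agent.KFacts.TwF4.Layers Cfsg.Agent.CpAutTwF
open Subgroup
open scoped commutatorElement Pointwise

universe u

section

variable {F : Type*} [Field F] {σ : F →+* F} {G : Type u} [Group G] (S : Full σ G)

theorem to_Zc [Finite F] [Finite G] (hU : ∃ P : Sylow 2 G, (P : Subgroup G) = J S.XZ 1 8) {z : G} {P : Sylow 2 G}
    (hzP : z ∈ (P : Subgroup G)) (hzc : ∀ u ∈ (P : Subgroup G), u * z = z * u) : ∃ g, g * z * g⁻¹ ∈ S.Zc 2 := by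
  have hfact : Fact (Nat.Prime 2) := ⟨Nat.prime_two⟩
  obtain ⟨P0, hP0⟩ := hU
  obtain ⟨g, hg⟩ := MulAction.exists_smul_eq G P P0
  have hmem : ∀ x, x ∈ (P0 : Subgroup G) ↔ g⁻¹ * x * g ∈ (P : Subgroup G) := by
    intro x
    rw [← hg, Sylow.coe_subgroup_smul, Subgroup.mem_pointwise_smul_iff_inv_smul_mem]
    rw [← map_inv]
    show (MulAut.conj g⁻¹) x ∈ _ ↔ _
    rw [MulAut.conj_apply, inv_inv]
  refine ⟨g, ?_⟩
  rw [AutNorm.mem_Zc_iff]
  refine ⟨?_, fun u hu => ?_⟩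
  · rw [← hP0, hmem]
    have e : g⁻¹ * (g * z * g⁻¹) * g = z := by group
    rwa [e]
  · rw [← hP0, hmem] at hu
    have h1 := hzc _ hu
    calc g * z * g⁻¹ * u = g * (z * (g⁻¹ * u * g)) * g⁻¹ := by group
      _ = g * ((g⁻¹ * u * g) * z) * g⁻¹ := by rw [h1]
      _ = u * (g * z * g⁻¹) := by group

theorem conj_ne_one {G : Type*} [Group G] {g z : G} (hz : z ≠ 1) : g * z * g⁻¹ ≠ 1 := by
  intro h
  apply hz
  have e : z = g⁻¹ * (g * z * g⁻¹) * g := by group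
  rw [e, h]; group

/-- **two 2-central involutions are conjugate** -/
theorem exists_conj [Finite F] [Finite G] (hU : ∃ P : Sylow 2 G, (P : Subgroup G) = J S.XZ 1 8) {z z' : G}
    (hz : z ≠ 1) (hz' : z' ≠ 1) {P P' : Sylow 2 G} (hzP : z ∈ (P : Subgroup G))
    (hzc : ∀ u ∈ (P : Subgroup G), u * z = z * u) (hzP' : z' ∈ (P' : Subgroup G))
    (hzc' : ∀ u ∈ (P' : Subgroup G), u * z' = z' * u) : ∃ g, g * z * g⁻¹ = z' := by
  obtain ⟨g, hg⟩ := to_Zc S hU hzP hzc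
  obtain ⟨g', hg'⟩ := to_Zc S hU hzP' hzc'
  obtain ⟨u, hu⟩ := hg
  obtain ⟨v, hv⟩ := hg'
  have hu0 : u ≠ 0 := by
    rintro rfl
    rw [S.e_zero] at hu
    exact conj_ne_one hz hu.symm
  have hv0 : v ≠ 0 := by
    rintro rfl
    rw [S.e_zero] at hv
    exact conj_ne_one hz' hv.symm
  obtain ⟨t, -, ht⟩ := S.T_trans hu0 hv0
  refine ⟨g'⁻¹ * t * g, ?_⟩
  change S.e 2 0 u = _ at hu
  change S.e 2 0 v = _ at hv
  calc g'⁻¹ * t * g * z * (g'⁻¹ * t * g)⁻¹ = g'⁻¹ * (t * (g * z * g⁻¹) * t⁻¹) * g' := by group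
    _ = g'⁻¹ * (g' * z' * g'⁻¹) * g' := by rw [← hu, ht, hv]
    _ = z' := by group

end

/-! ### `²F₄(q)` -/

section inst

variable {K : Type*} [Field K] [Fintype K]

/-- `U = J 1 8` is a Sylow 2-subgroup of `²F₄(q)` -/
theorem sylow_U {m : ℕ} (hK : Fintype.card K = 2 ^ (2 * m + 1)) {σ : K →+* K}
    (S : Full σ ↥(Lie.twistedF4 K (2 ^ m))) (hR : S.R.p = 2) :
    ∃ P : Sylow 2 ↥(Lie.twistedF4 K (2 ^ m)), (P : Subgroup ↥(Lie.twistedF4 K (2 ^ m))) = J S.XZ 1 8 := by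
  have hfact : Fact (Nat.Prime 2) := ⟨Nat.prime_two⟩
  have hchar := ChevalleyStructure.TwF4.Twisted.charP_two hK
  have hq : Nat.card K = 2 ^ (2 * m + 1) := by rw [Nat.card_eq_fintype_card, hK]
  have hfin : Finite ↥(Lie.twistedF4 K (2 ^ m)) := inferInstance
  have hp : IsPGroup 2 (J S.XZ 1 8) := isPGroup_J S.zsys8 (two_X S hR) 8 1 8 (by norm_num) (by norm_num)
  refine ⟨hp.toSylow ?_, rfl⟩
  intro h2
  have h1 := (J S.XZ 1 8).card_mul_index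
  rw [H762.PL.card_U S, hq, S1068.result hK, mul_assoc, mul_assoc, mul_assoc] at h1
  have h3 := Nat.eq_of_mul_eq_mul_left (by positivity) h1
  rw [h3] at h2
  have hev : Even (2 ^ (2 * m + 1)) := (even_two).pow_of_ne_zero (by omega)
  have hpos : 1 ≤ 2 ^ (2 * m + 1) := Nat.one_le_two_pow
  have o1 : Odd (2 ^ (2 * m + 1) - 1) := Nat.Even.sub_odd hpos hev odd_one
  have o3 : Odd ((2 ^ (2 * m + 1)) ^ 3 + 1) := (hev.pow_of_ne_zero (by norm_num)).add_odd odd_one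
  have o4 : Odd ((2 ^ (2 * m + 1)) ^ 4 - 1) :=
    Nat.Even.sub_odd (Nat.one_le_pow _ _ (by omega)) (hev.pow_of_ne_zero (by norm_num)) odd_one
  have o6 : Odd ((2 ^ (2 * m + 1)) ^ 6 + 1) := (hev.pow_of_ne_zero (by norm_num)).add_odd odd_one
  have h4 := o1.mul (o3.mul (o4.mul o6))
  exact (Nat.not_even_iff_odd.2 h4) (even_iff_two_dvd.2 h2)

/-- a coordinate system of `²F₄(q)` -/
theorem exists_full {m : ℕ} (hK : Fintype.card K = 2 ^ (2 * m + 1)) :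
    ∃ (σ : K →+* K) (S : Full σ ↥(Lie.twistedF4 K (2 ^ m))), S.R.p = 2 := by
  have hchar := ChevalleyStructure.TwF4.Twisted.charP_two hK
  obtain ⟨φ, hφ⟩ := ChevalleyStructure.TwF4.TwistedFix.exists_rln hK
  exact ⟨φ, Inst.full hK hφ, rfl⟩

end inst

end Cfsg.Agent.H312.Ree
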