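import Cfsg.Agent.H312.ReeTwo

/-!
# S3217, `q = 2`: the Sylow 2-subgroup of `M` is not in `Q1` (helper312)

* `count` : the counting argument;
* `Sit.not_small` : `M ∩ Q` is not contained in `Q1`.
-/

set_option autoImplicit false

namespace Cfsg.Agent.H312.Ree

open Subgroup
open scoped commutatorElement

variable {G : Type*} [Group G] [Finite G]

/-- **the counting argument** -/
theorem count {N Q Q1 Q2 : Subgroup G} {τ : G} (hQ2N : Q2 ≤ N) (hodd : Odd (Q2.relIndex N))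
    (hcent : ∀ n ∈ N, n * τ = τ * n ↔ n ∈ Q2) (hNQ2 : ∀ n ∈ N, ∀ t ∈ Q2, n * t * n⁻¹ ∈ Q2)
    (hQN : ∀ x ∈ Q, ∀ n ∈ N, x * n * x⁻¹ ∈ N) (hQτ : ∀ x ∈ Q, x * τ = τ * x)
    (hQ2 : ∀ x ∈ Q, ∀ t ∈ Q2, x * t * x⁻¹ ∈ Q2)
    (hfix : ∀ x ∈ Q, (∀ n ∈ N, x * (n * τ * n⁻¹) = (n * τ * n⁻¹) * x) → x ∈ Q1)
    (hhalf : ∀ n ∈ N, n ∉ Q2 → 2 * Nat.card (Q ⊓ centralizer {n * τ * n⁻¹} : Subgroup G) = Nat.card Q)
    (hQ1 : 4 * Nat.card Q1 ≤ Nat.card Q) (hQ1Q : Q1 ≤ Q) : False := by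
  classical
  have hfQ : Fintype Q := Fintype.ofFinite _
  have hfN : Fintype N := Fintype.ofFinite _
  let r : Q → N → Prop := fun x n => (x : G) * (n * τ * (n : G)⁻¹) = (n * τ * (n : G)⁻¹) * x
  have hdc := Finset.sum_card_bipartiteAbove_eq_sum_card_bipartiteBelow (s := (Finset.univ : Finset Q))
    (t := (Finset.univ : Finset N)) r
  -- by `n`
  have hn1 : ∀ n : N, (n : G) ∈ Q2 → ((Finset.univ : Finset Q).bipartiteBelow r n).card = Nat.card Q := by
    intro n hn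
    have h1 : (Finset.univ : Finset Q).bipartiteBelow r n = Finset.univ := by
      ext x
      simp only [Finset.mem_bipartiteBelow, Finset.mem_univ, true_and, iff_true]
      have h2 : (n : G) * τ * (n : G)⁻¹ = τ := by
        rw [(hcent n n.2).2 hn, mul_inv_cancel_right]
      change (x : G) * (n * τ * (n : G)⁻¹) = (n * τ * (n : G)⁻¹) * x
      rw [h2]
      exact hQτ x x.2
    rw [h1, Finset.card_univ, Nat.card_eq_fintype_card]
  have hn2 : ∀ n : N, (n : G) ∉ Q2 → 2 * ((Finset.univ : Finset Q).bipartiteBelow r n).card = Nat.card Q := by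
    intro n hn
    rw [← hhalf n n.2 hn]
    congr 1
    rw [← Fintype.card_coe, ← Nat.card_eq_fintype_card]
    refine Nat.card_congr ⟨fun x => ⟨(x.1 : G), x.1.2, ?_⟩, fun x => ⟨⟨x.1, x.2.1⟩, ?_⟩, fun x => rfl, fun x => rfl⟩
    · have h1 := (Finset.mem_bipartiteBelow r).1 x.2
      exact mem_centralizer_singleton_iff.2 h1.2
    · rw [Finset.mem_bipartiteBelow]
      exact ⟨Finset.mem_univ _, mem_centralizer_singleton_iff.1 x.2.2⟩
  -- by `x`
  let Nx : Q → Subgroup G := fun x =>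
    { carrier := {n | n ∈ N ∧ n⁻¹ * ((x : G) * n * (x : G)⁻¹) ∈ Q2}
      one_mem' := ⟨N.one_mem, by simp [Q2.one_mem]⟩
      mul_mem' := by
        rintro a b ⟨ha, ha'⟩ ⟨hb, hb'⟩
        refine ⟨N.mul_mem ha hb, ?_⟩
        have e : (a * b)⁻¹ * ((x : G) * (a * b) * (x : G)⁻¹) =
            b⁻¹ * (a⁻¹ * ((x : G) * a * (x : G)⁻¹)) * b⁻¹⁻¹ * (b⁻¹ * ((x : G) * b * (x : G)⁻¹)) := by group
        rw [e]
        exact Q2.mul_mem (hNQ2 _ (N.inv_mem hb) _ ha') hb'
      inv_mem' := by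
        rintro a ⟨ha, ha'⟩
        refine ⟨N.inv_mem ha, ?_⟩
        have e : a⁻¹⁻¹ * ((x : G) * a⁻¹ * (x : G)⁻¹) = a * (a⁻¹ * ((x : G) * a * (x : G)⁻¹))⁻¹ * a⁻¹ := by group
        rw [e]
        exact hNQ2 a ha _ (Q2.inv_mem ha') }
  have hNx : ∀ (x : Q) (n : N), r x n ↔ (n : G) ∈ Nx x := by
    intro x n
    have hy : (n : G)⁻¹ * ((x : G) * n * (x : G)⁻¹) ∈ N := N.mul_mem (N.inv_mem n.2) (hQN x x.2 n n.2)
    have h1 := hcent _ hy
    have hx := hQτ x x.2
    have hx' : (x : G)⁻¹ * τ = τ * (x : G)⁻¹ := (show Commute (x : G) τ from hx).inv_left.eq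
    constructor
    · intro h2
      refine ⟨n.2, h1.1 ?_⟩
      change (x : G) * (n * τ * (n : G)⁻¹) = (n * τ * (n : G)⁻¹) * x at h2
      calc (n : G)⁻¹ * ((x : G) * n * (x : G)⁻¹) * τ = (n : G)⁻¹ * (x : G) * n * ((x : G)⁻¹ * τ) := by group
        _ = (n : G)⁻¹ * ((x : G) * (n * τ * (n : G)⁻¹)) * n * (x : G)⁻¹ := by rw [hx']; group
        _ = τ * ((n : G)⁻¹ * ((x : G) * n * (x : G)⁻¹)) := by rw [h2]; group
    · rintro ⟨-, h2⟩
      have h3 := h1.2 h2
      change (x : G) * (n * τ * (n : G)⁻¹) = (n * τ * (n : G)⁻¹) * x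
      calc (x : G) * (n * τ * (n : G)⁻¹) = n * ((n : G)⁻¹ * ((x : G) * n * (x : G)⁻¹)) * (x * τ) * (n : G)⁻¹ := by group
        _ = n * ((n : G)⁻¹ * ((x : G) * n * (x : G)⁻¹) * τ) * x * (n : G)⁻¹ := by rw [hx]; group
        _ = (n * τ * (n : G)⁻¹) * x := by rw [h3]; group
  have hcx : ∀ x : Q, ((Finset.univ : Finset N).bipartiteAbove r x).card = Nat.card (Nx x) := by
    intro x
    rw [← Fintype.card_coe, ← Nat.card_eq_fintype_card]
    refine Nat.card_congr ⟨fun n => ⟨(n.1 : G), (hNx x n.1).1 ((Finset.mem_bipartiteAbove r).1 n.2).2⟩,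
      fun n => ⟨⟨n.1, n.2.1⟩, ?_⟩, fun x => rfl, fun x => rfl⟩
    rw [Finset.mem_bipartiteAbove]
    exact ⟨Finset.mem_univ _, (hNx x ⟨n.1, n.2.1⟩).2 n.2⟩
  have hle : ∀ x : Q, Nx x ≤ N := fun x n hn => hn.1
  have hQ2x : ∀ x : Q, Q2 ≤ Nx x := by
    intro x t ht
    exact ⟨hQ2N ht, Q2.mul_mem (Q2.inv_mem ht) (hQ2 x x.2 t ht)⟩
  have hx2 : ∀ x : Q, (x : G) ∉ Q1 → 3 * Nat.card (Nx x) ≤ Nat.card N := by
    intro x hx
    have h1 := relIndex_mul_relIndex ⊥ (Nx x) N bot_le (hle x)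
    rw [relIndex_bot_left, relIndex_bot_left] at h1
    have h2 : Odd ((Nx x).relIndex N) := by
      have h3 := relIndex_mul_relIndex Q2 (Nx x) N (hQ2x x) (hle x)
      exact hodd.of_dvd_nat (Dvd.intro_left _ h3)
    have h3 : (Nx x).relIndex N ≠ 1 := by
      intro h4
      apply hx
      refine hfix x x.2 fun n hn => ?_
      exact (hNx x ⟨n, hn⟩).2 (relIndex_eq_one.1 h4 hn)
    have h4 : 3 ≤ (Nx x).relIndex N := by
      obtain ⟨k, hk⟩ := h2
      omega
    calc 3 * Nat.card (Nx x) = Nat.card (Nx x) * 3 := mul_comm _ _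
      _ ≤ Nat.card (Nx x) * (Nx x).relIndex N := Nat.mul_le_mul_left _ h4
      _ = Nat.card N := h1
  have hx1 : ∀ x : Q, Nat.card (Nx x) ≤ Nat.card N := fun x =>
    Nat.le_of_dvd Nat.card_pos (card_dvd_of_le (hle x))
  -- the sums
  set A := ∑ n : N, ((Finset.univ : Finset Q).bipartiteBelow r n).card with hA
  have hcardQ2 : (Finset.univ.filter fun n : N => (n : G) ∈ Q2).card = Nat.card Q2 := by
    rw [← Fintype.card_coe, ← Nat.card_eq_fintype_card]
    refine Nat.card_congr ⟨fun n => ⟨(n.1 : G), (Finset.mem_filter.1 n.2).2⟩, fun t => ⟨⟨t.1, hQ2N t.2⟩, ?_⟩,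
      fun x => rfl, fun x => rfl⟩
    rw [Finset.mem_filter]
    exact ⟨Finset.mem_univ _, t.2⟩
  have hcardQ1 : (Finset.univ.filter fun x : Q => (x : G) ∈ Q1).card = Nat.card Q1 := by
    rw [← Fintype.card_coe, ← Nat.card_eq_fintype_card]
    refine Nat.card_congr ⟨fun n => ⟨(n.1 : G), (Finset.mem_filter.1 n.2).2⟩, fun t => ⟨⟨t.1, hQ1Q t.2⟩, ?_⟩,
      fun x => rfl, fun x => rfl⟩
    rw [Finset.mem_filter]
    exact ⟨Finset.mem_univ _, t.2⟩
  have hN1 : (Finset.univ.filter fun n : N => (n : G) ∈ Q2).card +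
      (Finset.univ.filter fun n : N => ¬ (n : G) ∈ Q2).card = Nat.card N := by
    rw [Finset.card_filter_add_card_filter_not, Finset.card_univ, Nat.card_eq_fintype_card]
  have hQ1' : (Finset.univ.filter fun x : Q => (x : G) ∈ Q1).card +
      (Finset.univ.filter fun x : Q => ¬ (x : G) ∈ Q1).card = Nat.card Q := by
    rw [Finset.card_filter_add_card_filter_not, Finset.card_univ, Nat.card_eq_fintype_card]
  have e1 : 2 * A = 2 * (Nat.card Q2 * Nat.card Q) +
      (Finset.univ.filter fun n : N => ¬ (n : G) ∈ Q2).card * Nat.card Q := by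
    rw [hA, ← Finset.sum_filter_add_sum_filter_not Finset.univ (fun n : N => (n : G) ∈ Q2), mul_add]
    congr 1
    · rw [Finset.sum_congr rfl (fun n hn => hn1 n (Finset.mem_filter.1 hn).2), Finset.sum_const, hcardQ2, smul_eq_mul]
    · rw [Finset.mul_sum, Finset.sum_congr rfl (fun n hn => hn2 n (Finset.mem_filter.1 hn).2), Finset.sum_const,
        smul_eq_mul]
  have e2 : 3 * A ≤ 3 * (Nat.card Q1 * Nat.card N) +
      (Finset.univ.filter fun x : Q => ¬ (x : G) ∈ Q1).card * Nat.card N := by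
    rw [← hdc, ← Finset.sum_filter_add_sum_filter_not Finset.univ (fun x : Q => (x : G) ∈ Q1), mul_add]
    refine add_le_add ?_ ?_
    · refine Nat.mul_le_mul_left _ ?_
      rw [← hcardQ1, ← smul_eq_mul, ← Finset.sum_const]
      exact Finset.sum_le_sum fun x _ => by rw [hcx]; exact hx1 x
    · rw [Finset.mul_sum, ← smul_eq_mul, ← Finset.sum_const]
      exact Finset.sum_le_sum fun x hx => by rw [hcx]; exact hx2 x (Finset.mem_filter.1 hx).2
  rw [hcardQ2] at hN1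
  rw [hcardQ1] at hQ1'
  set a := (Finset.univ.filter fun n : N => ¬ (n : G) ∈ Q2).card
  set b := (Finset.univ.filter fun x : Q => ¬ (x : G) ∈ Q1).card
  have hp1 : 0 < Nat.card Q := Nat.card_pos
  have hp2 : 0 < Nat.card N := Nat.card_pos
  have hp3 : 0 < Nat.card Q2 := Nat.card_pos
  have hQQ : Nat.card Q2 * Nat.card Q > 0 := Nat.mul_pos hp3 hp1
  -- `6 A = 3 |Q| (|N| + |Q2|)`, `6 A ≤ |N| (2 |Q| + 4 |Q1|)`
  have f1 : 6 * A = 3 * (Nat.card Q * Nat.card N) + 3 * (Nat.card Q2 * Nat.card Q) := by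
    have : 6 * A = 3 * (2 * A) := by ring
    rw [this, e1, ← hN1]; ring
  have f2 : 6 * A ≤ 2 * (Nat.card Q * Nat.card N) + 4 * (Nat.card Q1 * Nat.card N) := by
    have : 6 * A = 2 * (3 * A) := by ring
    rw [this]
    refine (Nat.mul_le_mul_left 2 e2).trans (le_of_eq ?_)
    rw [← hQ1']; ring
  have f3 : 4 * (Nat.card Q1 * Nat.card N) ≤ Nat.card Q * Nat.card N := by
    rw [← mul_assoc]
    exact Nat.mul_le_mul_right _ hQ1
  omega

omit [Finite G] in
theorem Loc2.half {C Z Q2 Q1 Q : Subgroup G} [Finite G] (k : Loc2 C Z Q2 Q1 Q) {y : G} (hy : y ∈ Q2) (hyZ : y ∉ Z) :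
    2 * Nat.card (Q ⊓ centralizer {y} : Subgroup G) = Nat.card Q := by
  have hex : ∃ g ∈ Q, g * y ≠ y * g := by
    by_contra hcon
    push Not at hcon
    exact hyZ (k.cent y (k.Q2_le_C hy) fun x hx => (hcon x hx).symm)
  obtain ⟨g, hg, hgy⟩ := hex
  have hne : ∀ x ∈ Q, x * y ≠ y * x → ⁅x, y⁆ = ⁅g, y⁆ := by
    intro x hx hxy
    have hz : ∀ x ∈ Q, ⁅x, y⁆ ∈ Z := fun x hx => by
      rw [← commutatorElement_inv]; exact Z.inv_mem (k.comm2 y hy x hx)
    refine k.Z_cases (hz x hx) (hz g hg) (fun h1 => hxy ?_) (fun h1 => hgy ?_)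
    · exact commutatorElement_eq_one_iff_mul_comm.1 h1
    · exact commutatorElement_eq_one_iff_mul_comm.1 h1
  have hi : ((Q ⊓ centralizer {y} : Subgroup G).subgroupOf Q).index = 2 := by
    rw [index_eq_two_iff]
    refine ⟨⟨g, hg⟩, fun b => ?_⟩
    have hmem : ∀ x : Q, x ∈ (Q ⊓ centralizer {y} : Subgroup G).subgroupOf Q ↔ (x : G) * y = y * x := by
      intro x
      rw [mem_subgroupOf, mem_inf, mem_centralizer_singleton_iff]
      exact ⟨fun h1 => h1.2, fun h1 => ⟨x.2, h1⟩⟩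
    rw [hmem, hmem]
    change Xor ((b : G) * g * y = y * (b * g)) ((b : G) * y = y * b)
    by_cases hb : (b : G) * y = y * b
    · right
      refine ⟨hb, fun h1 => hgy ?_⟩
      have h2 : (b : G) * (g * y) = b * (y * g) := by
        calc (b : G) * (g * y) = y * (b * g) := by rw [← mul_assoc]; exact h1
          _ = (b * y) * g := by rw [hb, mul_assoc]
          _ = b * (y * g) := by rw [mul_assoc]
      exact mul_left_cancel h2
    · left
      refine ⟨?_, hb⟩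
      have h1 := hne b b.2 hb
      have hginv : ⁅g, y⁆ ∈ Z := by
        rw [← commutatorElement_inv]; exact Z.inv_mem (k.comm2 y hy g hg)
      have hsq := k.sqZ hginv
      have e1 : (b : G) * y = ⁅g, y⁆ * y * b := by
        rw [← h1, commutatorElement_def]; group
      have e2 : g * y = ⁅g, y⁆ * y * g := by rw [commutatorElement_def]; group
      have e3 : (b : G) * ⁅g, y⁆ = ⁅g, y⁆ * b := k.cZ b (k.Q_le b.2) _ hginv
      calc (b : G) * g * y = b * (g * y) := by group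
        _ = (b * ⁅g, y⁆) * y * g := by rw [e2]; group
        _ = ⁅g, y⁆ * (b * y) * g := by rw [e3]; group
        _ = (⁅g, y⁆ * ⁅g, y⁆) * y * b * g := by rw [e1]; group
        _ = y * (b * g) := by rw [hsq]; group
  have h1 := relIndex_mul_relIndex ⊥ (Q ⊓ centralizer {y} : Subgroup G) Q bot_le inf_le_left
  rw [relIndex_bot_left, relIndex_bot_left] at h1
  have h2 : (Q ⊓ centralizer {y} : Subgroup G).relIndex Q = 2 := hi
  rw [h2] at h1
  rw [← h1, mul_comm]

namespace Sit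

variable {τ : G} {S : Sylow 2 G} {C Z Q2 Q1 Q : Subgroup G} (h : Sit τ S C Z Q2 Q1 Q) (k : Loc2 C Z Q2 Q1 Q)
include h

theorem Q_le_S : Q ≤ (S : Subgroup G) := by
  have hn : (S : Subgroup G) ≤ normalizer (Q : Set G) := by
    intro s hs
    rw [mem_normalizer_iff]
    intro x
    refine ⟨fun hx => h.nQ s (h.S_le hs) x hx, fun hx => ?_⟩
    have h1 := h.nQ s⁻¹ (inv_mem (h.S_le hs)) _ hx
    have e : s⁻¹ * (s * x * s⁻¹) * s⁻¹⁻¹ = x := by group
    rwa [e] at h1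
  have h1 : IsPGroup 2 ((S : Subgroup G) ⊔ Q : Subgroup G) :=
    IsPGroup.to_sup_of_normal_right' S.isPGroup' h.two hn
  have h2 : ((S : Subgroup G) ⊔ Q : Subgroup G) = S := S.3 h1 le_sup_left
  rw [← h2]
  exact le_sup_right

include k

/-- **`M ∩ Q` is not contained in `Q1`** -/
theorem not_small (hC : ∀ g, g * τ = τ * g → g ∈ C) (hO : Cfsg.oddCore G = ⊥) (h2 : Cfsg.pCore 2 G = ⊥)
    {M : Subgroup G} (hM : M.Normal) (hQM : Q2 ≤ M) : ¬ M ⊓ Q ≤ Q1 := by
  intro hD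
  have hfact : Fact (Nat.Prime 2) := ⟨Nat.prime_two⟩
  have hτM : τ ∈ M := hQM (h.Z_le h.τZ)
  have hnS : ¬ M ≤ (S : Subgroup G) := by
    intro h3
    have h4 := Cfsg.Agent.Lib.Cores.le_pCore hM (S.isPGroup'.to_le h3)
    rw [h2, le_bot_iff] at h4
    rw [h4, mem_bot] at hτM
    exact h.t1 hτM
  have hCM : C ⊓ M ≤ Q := by
    refine k.le_Q inf_le_left ?_ ?_
    · intro c hc x hx
      exact ⟨C.mul_mem (C.mul_mem hc hx.1) (C.inv_mem hc), hM.conj_mem x hx.2 c⟩
    · intro a ha x hx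
      refine hD (mem_inf.2 ⟨?_, Q.mul_mem (Q.inv_mem hx) (h.nQ a ha.1 x hx)⟩)
      have h3 := hM.conj_mem a ha.2 x⁻¹
      have e : x⁻¹ * (a * x * a⁻¹) = (x⁻¹ * a * x⁻¹⁻¹) * a⁻¹ := by group
      rw [e]
      exact M.mul_mem h3 (M.inv_mem ha.2)
  have hCM1 : ∀ x ∈ M, x * τ = τ * x → x ∈ M ⊓ Q := fun x hx hxτ => mem_inf.2 ⟨hx, hCM ⟨hC x hxτ, hx⟩⟩
  have hT : (S : Subgroup G) ⊓ M = M ⊓ Q := by
    apply le_antisymm
    · intro x hx
      exact hCM1 x hx.2 (h.cS x hx.1)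
    · intro x hx
      exact ⟨h.Q_le_S hx.2, hx.1⟩
  by_cases hex : ∃ x ∈ M ⊓ Q, x ∉ Q2
  · -- `T = Q1`
    obtain ⟨x, hx, hx2⟩ := hex
    apply hnS
    refine le_sylow hO S hM fun g hg hgT t ht => ?_
    rw [hT] at hgT ht
    have hsq : ∀ y ∈ M ⊓ Q, y ∉ Q2 → y * y = τ := by
      intro y hy hy2
      refine k.Z_cases (h.sq1 y (hD hy)) h.τZ (fun h3 => hy2 (h.sq1' y (hD hy) h3)) h.t1
    have hgx := hgT x hx
    have hgτ : g * τ * g⁻¹ = τ := by
      have h3 := hsq x hx hx2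
      have h4 : (g * x * g⁻¹) * (g * x * g⁻¹) = g * τ * g⁻¹ := by rw [← h3]; group
      have h5 : g * x * g⁻¹ ∉ Q2 := by
        intro h6
        have h7 := h.sq2 _ h6
        rw [h4] at h7
        apply h.t1
        have e : τ = g⁻¹ * (g * τ * g⁻¹) * g := by group
        rw [e, h7]; group
      rw [← h4]
      exact hsq _ hgx h5
    have hgD := hCM1 g hg (mul_inv_eq_iff_eq_mul.1 hgτ)
    exact k.abel (hD hgD) (hD ht)
  · -- `T = Q2`
    push Not at hex
    have hD2 : M ⊓ Q = Q2 := le_antisymm (fun x hx => hex x hx) (le_inf hQM h.Q2_le_Q)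
    let N : Subgroup G :=
      { carrier := {g | g ∈ M ∧ ∀ t ∈ Q2, g * t * g⁻¹ ∈ Q2}
        one_mem' := ⟨M.one_mem, fun t ht => by simpa using ht⟩
        mul_mem' := by
          rintro a b ⟨ha, ha'⟩ ⟨hb, hb'⟩
          refine ⟨M.mul_mem ha hb, fun t ht => ?_⟩
          have h3 := ha' _ (hb' t ht)
          have e : a * (b * t * b⁻¹) * a⁻¹ = a * b * t * (a * b)⁻¹ := by group
          rwa [e] at h3
        inv_mem' := by
          rintro a ⟨ha, ha'⟩
          refine ⟨M.inv_mem ha, fun t ht => ?_⟩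
          have hmap : Q2.map (MulAut.conj a).toMonoidHom = Q2 := by
            apply eq_of_le_of_card_ge
            · rintro _ ⟨t, ht, rfl⟩
              exact ha' t ht
            · rw [card_map_of_injective (MulAut.conj a).injective]
          rw [← hmap] at ht
          obtain ⟨s, hs, rfl⟩ := ht
          have e : a⁻¹ * ((MulAut.conj a).toMonoidHom s) * a⁻¹⁻¹ = s := by
            change a⁻¹ * (a * s * a⁻¹) * a⁻¹⁻¹ = s
            group
          rw [e]; exact hs }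
    have hQ2N : Q2 ≤ N := fun t ht => ⟨hQM ht, fun s hs => Q2.mul_mem (Q2.mul_mem ht hs) (Q2.inv_mem ht)⟩
    have hCN : ∀ x ∈ C, ∀ n ∈ N, x * n * x⁻¹ ∈ N := by
      rintro x hx n ⟨hn, hn'⟩
      refine ⟨hM.conj_mem n hn x, fun t ht => ?_⟩
      have h3 := h.nQ2 x⁻¹ (C.inv_mem hx) t ht
      have h4 := h.nQ2 x hx _ (hn' _ h3)
      have e : x * (n * (x⁻¹ * t * x⁻¹⁻¹) * n⁻¹) * x⁻¹ = x * n * x⁻¹ * t * (x * n * x⁻¹)⁻¹ := by group
      rwa [e] at h4
    have hcent : ∀ n ∈ N, n * τ = τ * n ↔ n ∈ Q2 := by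
      intro n hn
      refine ⟨fun h3 => ?_, fun h3 => (h.comm1 n (h.Q2_le h3) τ (h.Z_le h.τZ))⟩
      rw [← hD2]
      exact hCM1 n hn.1 h3
    have hτ2 : τ ∈ Q2 := h.Z_le h.τZ
    have hodd : Odd (Q2.relIndex N) := by
      rw [← Nat.not_even_iff_odd, even_iff_two_dvd]
      intro h3
      have h4 := Cfsg.Agent.Lib.SylowNormalInf.not_dvd_relIndex S M
      have h5 : Q2.relIndex M = (S : Subgroup G).relIndex M := by
        rw [← inf_relIndex_right (S : Subgroup G) M, hT, hD2]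
      rw [← h5] at h4
      exact h4 (h3.trans (Dvd.intro _ (relIndex_mul_relIndex Q2 N M hQ2N (fun x hx => hx.1))))
    refine count hQ2N hodd hcent (fun n hn t ht => hn.2 t ht) (fun x hx => hCN x (h.Q_le hx))
      (fun x hx => h.C_le x (h.Q_le hx)) (fun x hx t ht => h.nQ2 x (h.Q_le hx) t ht) ?_ ?_ ?_ h.Q1_le
    · -- the conjugates of `τ` generate `Q2`
      intro x hx hxn
      set E : Subgroup G := closure {y | ∃ n ∈ N, y = n * τ * n⁻¹} with hE
      have hE2 : E ≤ Q2 := by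
        rw [hE, closure_le]
        rintro _ ⟨n, hn, rfl⟩
        exact hn.2 τ hτ2
      have hEn : NB C E := by
        intro c hc y hy
        have key : E ≤ E.comap (MulAut.conj c).toMonoidHom := by
          rw [hE, closure_le]
          rintro _ ⟨n, hn, rfl⟩
          refine subset_closure ⟨c * n * c⁻¹, hCN c hc n hn, ?_⟩
          change c * (n * τ * n⁻¹) * c⁻¹ = _
          have h3 := h.C_le c hc
          have h4 : c⁻¹ * τ * c = τ := by rw [mul_assoc, ← h3]; group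
          calc c * (n * τ * n⁻¹) * c⁻¹ = c * n * (c⁻¹ * τ * c)⁻¹⁻¹ * n⁻¹ * c⁻¹ := by rw [h4, inv_inv]; group
            _ = c * n * c⁻¹ * τ * (c * n * c⁻¹)⁻¹ := by group
        exact key hy
      have hEZ : ¬ E ≤ Z := by
        intro h3
        apply hnS
        refine le_sylow hO S hM fun g hg hgT t ht => ?_
        rw [hT, hD2] at hgT ht
        have hgN : g ∈ N := ⟨hg, hgT⟩
        have h4 : g * τ * g⁻¹ ∈ Z := h3 (subset_closure ⟨g, hgN, rfl⟩)
        have h5 : g * τ * g⁻¹ = τ := by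
          refine k.Z_cases h4 h.τZ (fun h6 => h.t1 ?_) h.t1
          have e : τ = g⁻¹ * (g * τ * g⁻¹) * g := by group
          rw [e, h6]; group
        have h6 := (hcent g hgN).1 (mul_inv_eq_iff_eq_mul.1 h5)
        exact h.comm1 g (h.Q2_le h6) t ht
      have hQ2E : Q2 ≤ E := h.dich2 hE2 hEn hEZ
      refine h.cent2 x (h.Q_le hx) fun y hy => ?_
      refine closure_induction (p := fun y _ => x * y = y * x) ?_ (by rw [one_mul, mul_one]) ?_ ?_ (hQ2E hy)
      · rintro _ ⟨n, hn, rfl⟩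
        exact hxn n hn
      · intro a b _ _ h3 h4
        exact (Commute.mul_right (show Commute x a from h3) h4).eq
      · intro a _ h3
        exact (show Commute x a from h3).inv_right.eq
    · intro n hn hn2
      refine k.half (hn.2 τ hτ2) fun h3 => hn2 ?_
      have h5 : n * τ * n⁻¹ = τ := by
        refine k.Z_cases h3 h.τZ (fun h6 => h.t1 ?_) h.t1
        have e : τ = n⁻¹ * (n * τ * n⁻¹) * n := by group
        rw [e, h6]; group
      exact (hcent n hn).1 (mul_inv_eq_iff_eq_mul.1 h5)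
    · rw [k.cardQ1, k.cardQ]; norm_num

end Sit

end Cfsg.Agent.H312.Ree
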