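import Cfsg.Agent.H312.ReeTrans
import Cfsg.Agent.H762.AutPLB
import Cfsg.Agent.H762.CHyp

/-!
# The local structure of `C_q` (helper312, S3217)

* `loc_PL` : `Loc PL Z_4 Q2 Q1 Q` in `²F₄(q)`, every `q = 2^(2m+1)`;
* `exists_sylow_U` : `U` is a Sylow 2-subgroup.
-/

set_option autoImplicit false

namespace Cfsg.Agent.H312.Ree

open Cfsg.Agent.SplitTwo Cfsg.Agent.SplitTwo.ZS Cfsg.Agent.TitsThree.RankTwoZ Cfsg.Agent.SplitTwo.RootSysZ
open Cfsg.Agent.KFacts.TwF4 Cfsg.Agent.KFacts.TwF4.Arc Cfsg.Agent.KFacts.TwF4.Irr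
open Cfsg.Agent.KFacts.TwF4.Inv Cfsg.Agent.KFacts.TwF4.Layers Cfsg.Agent.CpAutTwF
open Subgroup
open scoped commutatorElement

universe u

section

variable {F : Type*} [Field F] {σ : F →+* F} {G : Type u} [Group G] (S : Full σ G)

theorem comm_of_rel {x y r : G} (h : x * y = y * x * r) : ⁅x⁻¹, y⁻¹⁆ = r := by
  have : r = (y * x)⁻¹ * (x * y) := by rw [h]; group
  rw [this, commutatorElement_def]; group

theorem sq_Q2 {x : G} (hx : x ∈ S.Q2) : x * x = 1 := by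
  obtain ⟨u, s, z, t, w, rfl⟩ := (mem_Q2 S).1 hx
  rw [q2_mul, char2 S, char2 S, char2 S, char2 S, char2 S, q2_zero]

/-- the elements of `Q1` -/
theorem form {x : G} (hx : x ∈ S.Q1) : ∃ p u, ∃ b ∈ S.Q2, x = S.e 2 p u * b := by
  have hn : S.XZ 4 ≤ normalizer (S.Q2 : Set G) :=
    (X_le_J (a := 0) (b := 8) (by norm_num) (by norm_num)).trans S.Q2_norm
  have h1 : (x : G) ∈ ((S.XZ 4 ⊔ S.Q2 : Subgroup G) : Set G) := hx
  rw [coe_mul_of_left_le_normalizer_right _ _ hn] at h1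
  obtain ⟨a, ha, b, hb, hab⟩ := Set.mem_mul.1 h1
  obtain ⟨p, u, rfl⟩ := (mem_X4 S).1 ha
  exact ⟨p, u, b, hb, hab.symm⟩

theorem e_Q1 (p u : F) : S.e 2 p u ∈ S.Q1 := mem_sup_left ((mem_X4 S).2 ⟨p, u, rfl⟩)

theorem comm_Q1 {x y : G} (hx : x ∈ S.Q1) (hy : y ∈ S.Q1) : ⁅x, y⁆ ∈ S.Zc 2 := by
  obtain ⟨p, u, b, hb, rfl⟩ := form S hx
  obtain ⟨q, v, c, hc, rfl⟩ := form S hy
  have h1 : ⁅S.e 2 p u * b, S.e 2 q v * c⁆ = ⁅S.e 2 p u, S.e 2 q v⁆ := by
    have b1 : b * S.e 2 q v = S.e 2 q v * b := (S.Q1_comm (e_Q1 S q v) hb).symm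
    have b2 : b * c = c * b := Irr.Q2_comm S hb hc
    have c1 : c * S.e 2 p u = S.e 2 p u * c := (S.Q1_comm (e_Q1 S p u) hc).symm
    have c2 : c * (S.e 2 p u)⁻¹ = (S.e 2 p u)⁻¹ * c := (show Commute c (S.e 2 p u) from c1).inv_right.eq
    have b3 : b * (S.e 2 q v * c) = (S.e 2 q v * c) * b := by rw [← mul_assoc, b1, mul_assoc, b2, mul_assoc]
    rw [commutatorElement_def, commutatorElement_def]
    calc S.e 2 p u * b * (S.e 2 q v * c) * (S.e 2 p u * b)⁻¹ * (S.e 2 q v * c)⁻¹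
        = S.e 2 p u * (b * (S.e 2 q v * c)) * b⁻¹ * (S.e 2 p u)⁻¹ * c⁻¹ * (S.e 2 q v)⁻¹ := by group
      _ = S.e 2 p u * S.e 2 q v * (c * (S.e 2 p u)⁻¹) * c⁻¹ * (S.e 2 q v)⁻¹ := by rw [b3]; group
      _ = S.e 2 p u * S.e 2 q v * (S.e 2 p u)⁻¹ * (S.e 2 q v)⁻¹ := by rw [c2]; group
  rw [h1, commutatorElement_def, e_inv, e_inv, S.e_mul, S.e_mul, S.e_mul]
  have e : p + q + p + q = 0 := by
    have : p + q + p + q = (p + p) + (q + q) := by ring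
    rw [this, char2 S, char2 S, add_zero]
  rw [e]
  exact ⟨_, rfl⟩

theorem sq_form {p u : F} {b : G} (hb : b ∈ S.Q2) : (S.e 2 p u * b) * (S.e 2 p u * b) = S.e 2 0 (p * σ p) := by
  have b1 : b * S.e 2 p u = S.e 2 p u * b := (S.Q1_comm (e_Q1 S p u) hb).symm
  calc (S.e 2 p u * b) * (S.e 2 p u * b) = S.e 2 p u * (b * S.e 2 p u) * b := by group
    _ = S.e 2 p u * S.e 2 p u * (b * b) := by rw [b1]; group
    _ = _ := by rw [sq_Q2 S hb, mul_one, S.e_mul, char2 S, char2 S, zero_add]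

theorem J07_of_n2 {x : G} (hx : S.n2⁻¹ * x * S.n2 ∈ J S.XZ 1 8) : x ∈ J S.XZ 0 7 := by
  have h : S.n2 * (S.n2⁻¹ * x * S.n2) * S.n2⁻¹ ∈ J S.XZ 0 7 := S.n2_refl.mem_J hx (by norm_num) (by norm_num)
  have e : S.n2 * (S.n2⁻¹ * x * S.n2) * S.n2⁻¹ = x := by group
  rwa [e] at h

/-- `O_2(C_q) = Q` (every `q`) -/
theorem O2_PL [Finite G] (hU : ∃ P : Sylow 2 G, (P : Subgroup G) = J S.XZ 1 8) {N : Subgroup G} (hN : N ≤ S.PL)
    (h2 : IsPGroup 2 N) (hn : ∀ g ∈ S.PL, ∀ x ∈ N, g * x * g⁻¹ ∈ N) : N ≤ S.Q := by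
  have hfact : Fact (Nat.Prime 2) := ⟨Nat.prime_two⟩
  obtain ⟨P, hP⟩ := hU
  have hNU : N ≤ J S.XZ 1 8 := by
    have h3 : IsPGroup 2 (J S.XZ 1 8 ⊔ N : Subgroup G) := by
      rw [← hP]
      exact Cfsg.Agent.KFacts.TwF4.Perf.two_sup P.isPGroup' h2
        fun a ha x hx => hn a (J_mono (a := 1) (b := 8) (by norm_num) le_rfl (by rwa [hP] at ha)) x hx
    have h4 : (J S.XZ 1 8 ⊔ N : Subgroup G) = P := P.3 h3 (by rw [hP]; exact le_sup_left)
    rw [← hP, ← h4]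
    exact le_sup_right
  intro x hx
  refine H762.AutPL.inter_Q S (hNU hx) (J07_of_n2 S (hNU ?_))
  have h1 := hn S.n2⁻¹ (inv_mem S.n2_mem) x hx
  rwa [inv_inv] at h1

/-- **the local structure of `C_q`** -/
theorem loc_PL [Finite F] [Finite G] (hR : S.R.p = 2)
    (hU : ∃ P : Sylow 2 G, (P : Subgroup G) = J S.XZ 1 8) :
    Loc S.PL (S.Zc 2) S.Q2 S.Q1 S.Q where
  Q_le := fun x hx => Irr.Q_PL S hx
  Q1_le := Irr.Q1_le_Q S
  Q2_le := Irr.Q2_le_Q1 S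
  Z_le := by
    intro x hx
    obtain ⟨u, rfl⟩ := hx
    exact S.q2_3 u
  nQ := fun c hc x hx => Cfsg.Agent.KFacts.TwF4.Perf.Q_norm S hc hx
  nQ1 := fun c hc x hx => Irr.Q1_norm S hc hx
  nQ2 := fun c hc x hx => Layers.Q2_norm' S hc hx
  cZ := fun c hc x hx => S.comm_PL hc hx
  sq2 := fun x hx => sq_Q2 S hx
  comm1 := fun x hx y hy => S.Q1_comm hx hy
  cent2 := by
    intro g _ hg
    rw [← S.centralizer_Q2, mem_centralizer_iff]
    exact fun y hy => (hg y hy).symm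
  cent := by
    intro g _ hg
    rw [← S.centralizer_Q, mem_centralizer_iff]
    exact fun y hy => (hg y hy).symm
  comm2 := by
    intro x hx y hy
    have h1 := H762.AutPL.comm_QQ2 S hy hx
    rw [← commutatorElement_inv, commutatorElement_def]
    exact inv_mem h1
  comm2' := by
    rintro _ ⟨u, rfl⟩
    have h := S.o_e2 1 u 1 0
    rw [mul_one] at h
    have h1 := comm_of_rel h
    change S.e 2 0 u ∈ _
    rw [show S.e 2 0 u = ⁅(S.o 1 u)⁻¹, (S.e 3 1 0)⁻¹⁆ from h1.symm]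
    exact commutator_mem_commutator (inv_mem (S.q2_2 u)) (inv_mem (Irr.e3_Q S 1 0))
  commQ := (Layers.comm_Q S).le
  comm11 := fun x hx y hy => comm_Q1 S hx hy
  sq1 := by
    intro x hx
    obtain ⟨p, u, b, hb, rfl⟩ := form S hx
    rw [sq_form S hb]
    exact ⟨_, rfl⟩
  sq1' := by
    intro x hx hxx
    obtain ⟨p, u, b, hb, rfl⟩ := form S hx
    rw [sq_form S hb] at hxx
    have h1 : p * σ p = 0 := (S.e_eq_one hxx).2
    have h2 : p = 0 := by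
      rcases mul_eq_zero.1 h1 with h3 | h3
      · exact h3
      · exact (map_eq_zero σ).1 h3
    rw [h2]
    exact mul_mem (S.q2_3 u) hb
  ne1 := by
    intro h1
    have h2 := sq_Q2 S (h1 (e_Q1 S 1 0))
    rw [S.e_mul, char2 S, char2 S, zero_add, map_one, one_mul] at h2
    exact one_ne_zero (S.e_eq_one h2).2
  sec := by
    intro x hx hxy
    obtain ⟨p, u, b, hb, rfl⟩ := form S hx
    have h1 := hxy (S.o 0 1) (Irr.o0_Q S 1)
    have h2 := H762.AutPL.comm_QQ2 S (Irr.o0_Q S 1) hb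
    have h := S.o_e2 0 1 p u
    rw [one_mul, show (0 : ZMod 8) + 2 = 2 by decide, show (0 : ZMod 8) + 1 = 1 by decide] at h
    -- modulo `Z` : `o a o⁻¹ = a e_1(p)`
    set o := S.o 0 1 with ho
    set a := S.e 2 p u with ha
    set c := S.e 1 0 p with hc
    have hbc : b * c = c * b := Irr.Q2_comm S hb (S.q2_1 p)
    have hca : c * a = a * c := (S.Q1_comm (e_Q1 S p u) (S.q2_1 p)).symm
    have h3 : ⁅a * b, o⁆⁻¹ = o * (a * b) * o⁻¹ * (a * b)⁻¹ := by rw [commutatorElement_inv, commutatorElement_def]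
    have hoc : o * c = c * o := by
      have := S.o_e1 0 1 0 p
      rwa [show (0 : ZMod 8) + 1 = 1 by decide] at this
    have h4 : o * (a * b) * o⁻¹ * (a * b)⁻¹ = c * (a * (o * b * o⁻¹ * b⁻¹) * a⁻¹) := by
      calc o * (a * b) * o⁻¹ * (a * b)⁻¹ = (o * a) * b * o⁻¹ * b⁻¹ * a⁻¹ := by group
        _ = a * (o * c) * b * o⁻¹ * b⁻¹ * a⁻¹ := by rw [h]; group
        _ = (a * c) * (o * b * o⁻¹ * b⁻¹) * a⁻¹ := by rw [hoc]; group
        _ = c * (a * (o * b * o⁻¹ * b⁻¹) * a⁻¹) := by rw [← hca]; group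
    have haP : a ∈ S.PL := mem_J ((mem_X4 S).2 ⟨p, u, rfl⟩) (by norm_num) (by norm_num)
    have h5 : a * (o * b * o⁻¹ * b⁻¹) * a⁻¹ = o * b * o⁻¹ * b⁻¹ := by
      rw [S.comm_PL haP h2, mul_inv_cancel_right]
    have h6 : c ∈ S.Zc 2 := by
      have h7 : c = ⁅a * b, o⁆⁻¹ * (o * b * o⁻¹ * b⁻¹)⁻¹ := by
        rw [h3, h4, h5, mul_inv_cancel_right]
      rw [h7]
      exact mul_mem (inv_mem h1) (inv_mem h2)
    have h7 : p = 0 := by
      have h8 : c ∈ S.XZ 4 := S.Zc_le 2 h6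
      have h9 : c ∈ S.XZ 2 := (mem_X2 S).2 ⟨0, p, rfl⟩
      have h10 := S.X_inf_near (i := 2) (j := 4) (by norm_num) (by norm_num) h9 h8
      exact (S.e_eq_one h10).2
    rw [ha, h7]
    exact mul_mem (S.q2_3 u) hb
  irr1 := by
    intro N h1 h2 hn hne
    exact irr_one S h1 h2 (fun g hg => hn g (mem_J hg (by norm_num) (by norm_num)))
      (fun g hg => hn g (mem_J hg (by norm_num) (by norm_num))) hne
  irr2 := by
    intro N h1 h2 hn hne
    exact irr_two S h1 h2 (fun g hg => hn g (mem_J hg (by norm_num) (by norm_num)))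
      (fun g hg => hn g (mem_J hg (by norm_num) (by norm_num))) hne
  two := isPGroup_J S.zsys8 (two_X S hR) 7 1 7 (by norm_num) (by norm_num)
  O2 := fun N h1 hn h2 => O2_PL S hU h1 h2 hn
  Z_ne := by
    intro h1
    have h2 : S.e 2 0 1 ∈ S.Zc 2 := ⟨1, rfl⟩
    rw [h1, mem_bot] at h2
    exact one_ne_zero (S.e_eq_one h2).2
  big := by
    rw [Card.card_Q2 S]
    have h1 : 1 < Nat.card F := Finite.one_lt_card
    have h2 : 2 ≤ Nat.card F := h1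
    calc 4 < 2 * (2 * (2 * (2 * 2))) := by norm_num
      _ ≤ _ := Nat.mul_le_mul h2 (Nat.mul_le_mul h2 (Nat.mul_le_mul h2 (Nat.mul_le_mul h2 h2)))

end

end Cfsg.Agent.H312.Ree
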