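import Mathlib

/-!
# The centralizer of a 2-central involution of `²F₄(q)`: abstract local part (helper312, S3217)

`Loc C Z Q2 Q1 Q` : the structure of `C ≅ C_q` used in the reduction (`Z = Z(C)`, `Q = O_2(C)`, `Q2 = [Q, Q]`,
`Q1 = C(Q2)`).

* `Loc.dich` : a normal subgroup of `C` inside `Q` lies in `Z` or contains `Q2`;
* `Loc.le_Z` : a normal subgroup `N` of `C` with `N ∩ Q ≤ Z` lies in `Z`;
* `Loc.elem` : a normal subgroup of `C` of exponent two lies in `Z` or is `Q2`.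
-/

set_option autoImplicit false

namespace Cfsg.Agent.H312.Ree

open Subgroup
open scoped commutatorElement

variable {G : Type*} [Group G]

/-- `N` is normalised by `C` -/
def NB (C N : Subgroup G) : Prop := ∀ c ∈ C, ∀ x ∈ N, c * x * c⁻¹ ∈ N

theorem NB.inf {C M N : Subgroup G} (h : NB C M) (h' : NB C N) : NB C (M ⊓ N) :=
  fun c hc x hx => ⟨h c hc x hx.1, h' c hc x hx.2⟩

theorem NB.sup {C M N : Subgroup G} (h : NB C M) (h' : NB C N) : NB C (M ⊔ N) := by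
  intro c hc x hx
  have key : M ⊔ N ≤ (M ⊔ N).comap (MulAut.conj c).toMonoidHom :=
    sup_le (fun y hy => mem_sup_left (h c hc y hy)) (fun y hy => mem_sup_right (h' c hc y hy))
  exact key hx

theorem NB.of_normal {C N : Subgroup G} (h : N.Normal) : NB C N := fun c _ x hx => h.conj_mem x hx c

theorem NB.mono {C D N : Subgroup G} (h : NB C N) (hD : D ≤ C) : NB D N := fun c hc => h c (hD hc)

/-- the local structure of `C` -/
structure Loc (C Z Q2 Q1 Q : Subgroup G) : Prop where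
  Q_le : Q ≤ C
  Q1_le : Q1 ≤ Q
  Q2_le : Q2 ≤ Q1
  Z_le : Z ≤ Q2
  nQ : NB C Q
  nQ1 : NB C Q1
  nQ2 : NB C Q2
  cZ : ∀ c ∈ C, ∀ x ∈ Z, c * x = x * c
  sq2 : ∀ x ∈ Q2, x * x = 1
  comm1 : ∀ x ∈ Q1, ∀ y ∈ Q2, x * y = y * x
  cent2 : ∀ g ∈ C, (∀ y ∈ Q2, g * y = y * g) → g ∈ Q1
  cent : ∀ g ∈ C, (∀ y ∈ Q, g * y = y * g) → g ∈ Z
  comm2 : ∀ x ∈ Q2, ∀ y ∈ Q, ⁅x, y⁆ ∈ Z
  comm2' : Z ≤ ⁅Q2, Q⁆
  commQ : ⁅Q, Q⁆ ≤ Q2
  comm11 : ∀ x ∈ Q1, ∀ y ∈ Q1, ⁅x, y⁆ ∈ Z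
  sq1 : ∀ x ∈ Q1, x * x ∈ Z
  sq1' : ∀ x ∈ Q1, x * x = 1 → x ∈ Q2
  ne1 : ¬ Q1 ≤ Q2
  sec : ∀ x ∈ Q1, (∀ y ∈ Q, ⁅x, y⁆ ∈ Z) → x ∈ Q2
  irr1 : ∀ N : Subgroup G, Z ≤ N → N ≤ Q2 → NB C N → ¬ N ≤ Z → N = Q2
  irr2 : ∀ N : Subgroup G, Q1 ≤ N → N ≤ Q → NB C N → ¬ N ≤ Q1 → N = Q
  two : IsPGroup 2 Q
  O2 : ∀ N : Subgroup G, N ≤ C → NB C N → IsPGroup 2 N → N ≤ Q
  Z_ne : Z ≠ ⊥
  big : 4 < Nat.card Q2

namespace Loc

variable {C Z Q2 Q1 Q : Subgroup G} (h : Loc C Z Q2 Q1 Q)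

include h

theorem Z_le_Q : Z ≤ Q := h.Z_le.trans (h.Q2_le.trans h.Q1_le)
theorem Z_le_C : Z ≤ C := h.Z_le_Q.trans h.Q_le
theorem Q2_le_Q : Q2 ≤ Q := h.Q2_le.trans h.Q1_le
theorem Q2_le_C : Q2 ≤ C := h.Q2_le_Q.trans h.Q_le
theorem Q1_le_C : Q1 ≤ C := h.Q1_le.trans h.Q_le

theorem nZ : NB C Z := by
  intro c hc x hx
  rw [h.cZ c hc x hx, mul_inv_cancel_right]
  exact hx

theorem sqZ {x : G} (hx : x ∈ Z) : x * x = 1 := h.sq2 x (h.Z_le hx)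

omit h in
theorem comm_mem_of_NB {D : Subgroup G} (hD : NB C D) {x y : G} (hx : x ∈ D) (hy : y ∈ C) : ⁅x, y⁆ ∈ D := by
  have e : ⁅x, y⁆ = x * (y * x⁻¹ * y⁻¹) := by rw [commutatorElement_def]; group
  rw [e]
  exact D.mul_mem hx (hD y hy _ (D.inv_mem hx))

theorem not_Q2_le : ¬ Q2 ≤ Z := by
  intro h2
  apply h.ne1
  intro x hx
  refine h.sec x hx fun y hy => h2 (h.commQ (commutator_mem_commutator (h.Q1_le hx) hy))

/-- the second centre of `Q` lies in `Q2` -/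
theorem second {D : Subgroup G} (hD : D ≤ Q) (hn : NB C D) (hc : ∀ x ∈ D, ∀ y ∈ Q, ⁅x, y⁆ ∈ Z) : D ≤ Q2 := by
  have hD1 : D ≤ Q1 := by
    by_contra hne
    have hN : D ⊔ Q1 = Q :=
      h.irr2 _ le_sup_right (sup_le hD h.Q1_le) (hn.sup h.nQ1) (fun h1 => hne (le_sup_left.trans h1))
    apply h.ne1
    intro x hx
    refine h.sec x hx fun y hy => ?_
    -- the elements of `Q` whose commutator with `x` is in `Z`
    let K : Subgroup G :=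
      { carrier := {y | y ∈ Q ∧ ⁅x, y⁆ ∈ Z}
        one_mem' := ⟨Q.one_mem, by rw [commutatorElement_one_right]; exact Z.one_mem⟩
        mul_mem' := by
          rintro a b ⟨ha, ha'⟩ ⟨hb, hb'⟩
          refine ⟨Q.mul_mem ha hb, ?_⟩
          have e : ⁅x, a * b⁆ = ⁅x, a⁆ * (a * ⁅x, b⁆ * a⁻¹) := by simp only [commutatorElement_def]; group
          rw [e]
          exact Z.mul_mem ha' (h.nZ a (h.Q_le ha) _ hb')
        inv_mem' := by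
          rintro a ⟨ha, ha'⟩
          refine ⟨Q.inv_mem ha, ?_⟩
          have e : ⁅x, a⁻¹⁆ = a⁻¹ * ⁅x, a⁆⁻¹ * a⁻¹⁻¹ := by simp only [commutatorElement_def]; group
          rw [e]
          exact h.nZ _ (C.inv_mem (h.Q_le ha)) _ (Z.inv_mem ha') }
    have hK : D ⊔ Q1 ≤ K := by
      refine sup_le (fun d hd => ⟨hD hd, ?_⟩) (fun d hd => ⟨h.Q1_le hd, h.comm11 x hx d hd⟩)
      rw [← commutatorElement_inv]
      exact Z.inv_mem (hc d hd x (h.Q1_le hx))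
    rw [hN] at hK
    exact (hK hy).2
  intro x hx
  exact h.sec x (hD1 hx) (hc x hx)

/-- a normal subgroup of `C` inside `Q2` -/
theorem dich2 {D : Subgroup G} (hD : D ≤ Q2) (hn : NB C D) (hne : ¬ D ≤ Z) : Q2 ≤ D := by
  have hN : D ⊔ Z = Q2 :=
    h.irr1 _ le_sup_right (sup_le hD h.Z_le) (hn.sup h.nZ) (fun h1 => hne (le_sup_left.trans h1))
  have hZ : Z ≤ D := by
    refine h.comm2'.trans ?_
    rw [commutator_le]
    intro x hx y hy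
    have key : D ⊔ Z ≤ Subgroup.closure {x | x ∈ C ∧ ⁅x, y⁆ ∈ D} := by
      refine sup_le (fun d hd => subset_closure ⟨h.Q2_le_C (hD hd), comm_mem_of_NB hn hd (h.Q_le hy)⟩)
        (fun z hz => subset_closure ⟨h.Z_le_C hz, ?_⟩)
      have e : ⁅z, y⁆ = 1 := by
        rw [commutatorElement_eq_one_iff_mul_comm]
        exact (h.cZ y (h.Q_le hy) z hz).symm
      rw [e]; exact D.one_mem
    rw [hN] at key
    have h2 : x ∈ C ∧ ⁅x, y⁆ ∈ D := by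
      refine Subgroup.closure_induction (p := fun x _ => x ∈ C ∧ ⁅x, y⁆ ∈ D) (fun a ha => ha) ⟨C.one_mem, ?_⟩
        (fun a b _ _ ha hb => ⟨C.mul_mem ha.1 hb.1, ?_⟩) (fun a _ ha => ⟨C.inv_mem ha.1, ?_⟩) (key hx)
      · rw [commutatorElement_one_left]; exact D.one_mem
      · have e : ⁅a * b, y⁆ = a * ⁅b, y⁆ * a⁻¹ * ⁅a, y⁆ := by simp only [commutatorElement_def]; group
        rw [e]
        exact D.mul_mem (hn a ha.1 _ hb.2) ha.2
      · have e : ⁅a⁻¹, y⁆ = a⁻¹ * ⁅a, y⁆⁻¹ * a⁻¹⁻¹ := by simp only [commutatorElement_def]; group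
        rw [e]
        exact hn _ (C.inv_mem ha.1) _ (D.inv_mem ha.2)
    exact h2.2
  rw [← hN]
  exact sup_le le_rfl hZ

/-- **a normal subgroup of `C` inside `Q` lies in `Z` or contains `Q2`** -/
theorem dich {D : Subgroup G} (hD : D ≤ Q) (hn : NB C D) : D ≤ Z ∨ Q2 ≤ D := by
  by_cases hc : ∀ x ∈ D, ∀ y ∈ Q, ⁅x, y⁆ ∈ Z
  · by_cases hz : D ≤ Z
    · exact Or.inl hz
    · exact Or.inr (h.dich2 (h.second hD hn hc) hn hz)
  · right
    push Not at hc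
    obtain ⟨x, hx, y, hy, hxy⟩ := hc
    have h1 : ⁅x, y⁆ ∈ D ⊓ Q2 :=
      ⟨comm_mem_of_NB hn hx (h.Q_le hy), h.commQ (commutator_mem_commutator (hD hx) hy)⟩
    exact (h.dich2 inf_le_right (hn.inf h.nQ2) (fun h2 => hxy (h2 h1))).trans inf_le_left

/-- **a normal subgroup `N` of `C` with `N ∩ Q ≤ Z` lies in `Z`** -/
theorem le_Z {N : Subgroup G} (hN : N ≤ C) (hn : NB C N) (hQ : N ⊓ Q ≤ Z) : N ≤ Z := by
  have hc : ∀ x ∈ N, ∀ y ∈ Q, ⁅x, y⁆ ∈ Z := by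
    intro x hx y hy
    refine hQ ⟨comm_mem_of_NB hn hx (h.Q_le hy), ?_⟩
    have e : ⁅x, y⁆ = x * y * x⁻¹ * y⁻¹ := commutatorElement_def x y
    rw [e]
    exact Q.mul_mem (h.nQ x (hN hx) y hy) (Q.inv_mem hy)
  have hsq : ∀ x ∈ N, x * x ∈ Z := by
    intro x hx
    refine h.cent _ (C.mul_mem (hN hx) (hN hx)) fun y hy => ?_
    have h1 := hc x hx y hy
    have h2 : x * ⁅x, y⁆ * x⁻¹ = ⁅x, y⁆ := by
      rw [h.cZ x (hN hx) _ h1, mul_inv_cancel_right]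
    have e : ⁅x * x, y⁆ = x * ⁅x, y⁆ * x⁻¹ * ⁅x, y⁆ := by simp only [commutatorElement_def]; group
    rw [h2, h.sqZ h1, commutatorElement_eq_one_iff_mul_comm] at e
    exact e
  have h2 : IsPGroup 2 N := by
    intro x
    refine ⟨2, Subtype.ext ?_⟩
    have h1 := h.sqZ (hsq x x.2)
    change (x : G) ^ 2 ^ 2 = 1
    rw [← h1, show 2 ^ 2 = 2 + 2 by norm_num, pow_add, pow_two]
  exact (le_inf le_rfl (h.O2 N hN hn h2)).trans hQ

/-- a nontrivial normal subgroup of `C` meets `Z` -/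
theorem meets {N : Subgroup G} (hN : N ≤ C) (hn : NB C N) (hne : N ≠ ⊥) : N ⊓ Z ≠ ⊥ := by
  rcases h.dich (D := N ⊓ Q) inf_le_right (hn.inf h.nQ) with h1 | h1
  · rw [inf_eq_left.2 (h.le_Z hN hn h1)]
    exact hne
  · rw [inf_eq_right.2 (h.Z_le.trans (h1.trans inf_le_left))]
    exact h.Z_ne

/-- normal subgroups of exponent two -/
theorem elem {A : Subgroup G} (hA : A ≤ C) (hn : NB C A) (h2 : ∀ x ∈ A, x * x = 1) : A ≤ Z ∨ A = Q2 := by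
  have hp : IsPGroup 2 A := by
    intro x
    refine ⟨1, Subtype.ext ?_⟩
    change (x : G) ^ 2 ^ 1 = 1
    rw [pow_one, pow_two]
    exact h2 x x.2
  have hc : ∀ x ∈ A, ∀ y ∈ A, x * y = y * x := by
    intro x hx y hy
    have e1 : x⁻¹ = x := inv_eq_of_mul_eq_one_left (h2 x hx)
    have e2 : y⁻¹ = y := inv_eq_of_mul_eq_one_left (h2 y hy)
    have e3 : (x * y)⁻¹ = x * y := inv_eq_of_mul_eq_one_left (h2 _ (A.mul_mem hx hy))
    rw [← e3, mul_inv_rev, e1, e2]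
  rcases h.dich (h.O2 A hA hn hp) hn with h1 | h1
  · exact Or.inl h1
  · refine Or.inr (le_antisymm (fun x hx => ?_) h1)
    exact h.sq1' x (h.cent2 x (hA hx) fun y hy => hc x hx y (h1 hy)) (h2 x hx)

end Loc

end Cfsg.Agent.H312.Ree
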