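import Cfsg.Agent.H312.ReeRho
import Cfsg.Agent.H312.ReeCase

/-!
# S3217, `q = 2`: passage to `G / O(G)` (helper312)

* `Inv.cent` : `C_{G/N}(τN)` is the image of `C_G(τ)` (`N` normal of odd order, `C_N(τ) = 1`);
* `Inv.inv` : `τ` inverts `N`;
* `tau_trick` : `O(G) = 1` if `G / O(G)` contains conjugates `a`, `b`, `ab` of `τ`.
-/

set_option autoImplicit false

namespace Cfsg.Agent.H312.Ree

open Subgroup
open scoped commutatorElement

section inv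

variable {G : Type*} [Group G] [Finite G] {τ : G} {N : Subgroup G}

/-- `τ` acts without fixed points on `N` -/
structure Inv (τ : G) (N : Subgroup G) : Prop where
  tt : τ * τ = 1
  n : N.Normal
  fpf : ∀ n ∈ N, n * τ = τ * n → n = 1

namespace Inv

variable (h : Inv τ N)
include h

theorem surj {m : G} (hm : m ∈ N) : ∃ n ∈ N, n⁻¹ * (τ * n * τ⁻¹) = m := by
  have hN := h.n
  let f : N → N := fun n => ⟨(n : G)⁻¹ * (τ * n * τ⁻¹), N.mul_mem (N.inv_mem n.2) (hN.conj_mem n n.2 τ)⟩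
  have hf : Function.Injective f := by
    intro a b hab
    have h1 : (a : G)⁻¹ * (τ * a * τ⁻¹) = (b : G)⁻¹ * (τ * b * τ⁻¹) := congrArg Subtype.val hab
    have h2 : (b : G) * (a : G)⁻¹ * τ = τ * ((b : G) * (a : G)⁻¹) := by
      calc (b : G) * (a : G)⁻¹ * τ = b * ((a : G)⁻¹ * (τ * a * τ⁻¹)) * τ * (a : G)⁻¹ := by group
        _ = b * ((b : G)⁻¹ * (τ * b * τ⁻¹)) * τ * (a : G)⁻¹ := by rw [h1]
        _ = τ * ((b : G) * (a : G)⁻¹) := by group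
    have h3 := h.fpf _ (N.mul_mem b.2 (N.inv_mem a.2)) h2
    exact Subtype.ext (mul_inv_eq_one.1 h3).symm
  obtain ⟨n, hn⟩ := Finite.surjective_of_injective hf ⟨m, hm⟩
  exact ⟨n, n.2, congrArg Subtype.val hn⟩

/-- `τ` inverts `N` -/
theorem inv {m : G} (hm : m ∈ N) : τ * m * τ⁻¹ = m⁻¹ := by
  obtain ⟨n, hn, rfl⟩ := h.surj hm
  have e : τ⁻¹ = τ := inv_eq_of_mul_eq_one_left h.tt
  calc τ * (n⁻¹ * (τ * n * τ⁻¹)) * τ⁻¹ = τ * n⁻¹ * τ * n * (τ⁻¹ * τ⁻¹) := by group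
    _ = τ * n⁻¹ * τ * n := by rw [e, h.tt, mul_one]
    _ = (n⁻¹ * (τ * n * τ⁻¹))⁻¹ := by rw [e, mul_inv_rev, mul_inv_rev, mul_inv_rev, inv_inv, e]; group

theorem comm {a b : G} (ha : a ∈ N) (hb : b ∈ N) : a * b = b * a := by
  have h1 := h.inv (N.mul_mem ha hb)
  have h2 : τ * (a * b) * τ⁻¹ = a⁻¹ * b⁻¹ := by
    rw [← h.inv ha, ← h.inv hb]; group
  rw [h2, mul_inv_rev] at h1
  have h3 := congrArg (fun x => x⁻¹) h1
  simp only [mul_inv_rev, inv_inv] at h3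
  exact h3.symm

/-- conjugates of `τ` invert `N` -/
theorem inv_conj {g m : G} (hm : m ∈ N) : (g * τ * g⁻¹) * m * (g * τ * g⁻¹)⁻¹ = m⁻¹ := by
  have hN := h.n
  have h1 : g⁻¹ * m * g ∈ N := by
    have := hN.conj_mem m hm g⁻¹
    rwa [inv_inv] at this
  calc (g * τ * g⁻¹) * m * (g * τ * g⁻¹)⁻¹ = g * (τ * (g⁻¹ * m * g) * τ⁻¹) * g⁻¹ := by group
    _ = m⁻¹ := by rw [h.inv h1]; group

/-- `C_{G/N}(τN)` -/
theorem cent {g : G} (hg : g * τ * g⁻¹ * τ⁻¹ ∈ N) : ∃ n ∈ N, (n * g) * τ = τ * (n * g) := by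
  obtain ⟨n, hn, h1⟩ := h.surj hg
  refine ⟨n, hn, ?_⟩
  calc (n * g) * τ = n * (g * τ * g⁻¹ * τ⁻¹) * τ * g := by group
    _ = n * (n⁻¹ * (τ * n * τ⁻¹)) * τ * g := by rw [← h1]
    _ = τ * (n * g) := by group

/-- **the trick** -/
theorem trick (hodd : Odd (Nat.card N)) {a b c : G} (hab : (a * τ * a⁻¹) * (b * τ * b⁻¹) * (c * τ * c⁻¹)⁻¹ ∈ N) :
    N = ⊥ := by
  rw [eq_bot_iff]
  intro x hx
  rw [mem_bot]
  set A := a * τ * a⁻¹ with hA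
  set B := b * τ * b⁻¹ with hB
  set D := c * τ * c⁻¹ with hD
  have h1 : (A * B) * x * (A * B)⁻¹ = x := by
    have h2 : B * x * B⁻¹ = x⁻¹ := h.inv_conj hx
    have h3 : A * x⁻¹ * A⁻¹ = x⁻¹⁻¹ := h.inv_conj (N.inv_mem hx)
    calc (A * B) * x * (A * B)⁻¹ = A * (B * x * B⁻¹) * A⁻¹ := by group
      _ = x := by rw [h2, h3, inv_inv]
  have h2 : (A * B) * x * (A * B)⁻¹ = x⁻¹ := by
    have h3 : D * x * D⁻¹ = x⁻¹ := h.inv_conj hx
    set m := A * B * D⁻¹ with hm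
    have e : A * B = m * D := by rw [hm]; group
    have h4 := h.comm hab (N.inv_mem hx)
    calc (A * B) * x * (A * B)⁻¹ = m * (D * x * D⁻¹) * m⁻¹ := by rw [e]; group
      _ = (m * x⁻¹) * m⁻¹ := by rw [h3]
      _ = x⁻¹ := by rw [h4]; group
  have h3 : x * x = 1 := by
    rw [h1] at h2
    nth_rewrite 1 [h2]
    rw [inv_mul_cancel]
  have h4 : orderOf (⟨x, hx⟩ : N) ∣ 2 := by
    apply orderOf_dvd_of_pow_eq_one
    rw [pow_two]
    exact Subtype.ext h3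
  have h5 := orderOf_dvd_natCard (⟨x, hx⟩ : N)
  have h6 : Nat.Coprime 2 (Nat.card N) := Nat.coprime_two_left.2 hodd
  have h7 : orderOf (⟨x, hx⟩ : N) = 1 := Nat.dvd_one.1 (h6.gcd_eq_one ▸ Nat.dvd_gcd h4 h5)
  exact congrArg Subtype.val (orderOf_eq_one_iff.1 h7)

end Inv

end inv

end Cfsg.Agent.H312.Ree
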