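import Cfsg.Agent.H312.ReeLoc
import Cfsg.Agent.H312.ReeBurn
import Cfsg.Agent.H316.RedSimple

/-!
# Groups with a 2-central involution centralizer of type `²F₄(q)`: the reduction (helper312, S3217)

`Sit τ S C Z Q2 Q1 Q` : `τ` is an involution in the centre of the Sylow 2-subgroup `S` of `G`, `C ⊴ C_G(τ)` of odd index,
`Loc C Z Q2 Q1 Q`, and `C` is perfect or `|Z| = 2`.

* `Sit.exists_E` : a nontrivial normal 2-subgroup gives a nontrivial normal subgroup of `G` inside `Z = Z(C)`;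
* `Sit.Q2_le_normal` : if `O(G) = O_2(G) = 1`, every nontrivial normal subgroup contains `Q2`;
* `Sit.exists_simple` : then `G` has a simple normal subgroup `M ≥ Q2` with trivial centralizer.
-/

set_option autoImplicit false

namespace Cfsg.Agent.H312.Ree

open Subgroup
open scoped commutatorElement
open Cfsg.Agent.Lib.MinNormalNonabelian (minSet map_conj_mem_minSet nonabelian_structure)

variable {G : Type*} [Group G] [Finite G]

/-- the situation -/
structure Sit (τ : G) (S : Sylow 2 G) (C Z Q2 Q1 Q : Subgroup G) : Prop extends Loc C Z Q2 Q1 Q where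
  tt : τ * τ = 1
  t1 : τ ≠ 1
  mem : τ ∈ (S : Subgroup G)
  cS : ∀ s ∈ (S : Subgroup G), s * τ = τ * s
  C_le : ∀ c ∈ C, c * τ = τ * c
  C_n : ∀ g, g * τ = τ * g → ∀ c ∈ C, g * c * g⁻¹ ∈ C
  C_odd : Odd (C.relIndex (centralizer ({τ} : Set G)))
  pc : ⁅C, C⁆ = C ∨ Nat.card Z = 2

namespace Sit

variable {τ : G} {S : Sylow 2 G} {C Z Q2 Q1 Q : Subgroup G} (h : Sit τ S C Z Q2 Q1 Q)

include h

omit [Finite G] in
/-- the 2-elements of `C_G(τ)` are in `C` -/
theorem mem_C {x : G} (hx : x * τ = τ * x) {k : ℕ} (hk : x ^ 2 ^ k = 1) : x ∈ C := by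
  set D : Subgroup G := centralizer ({τ} : Set G) with hD
  have hxD : x ∈ D := mem_centralizer_singleton_iff.2 hx
  have hn : (C.subgroupOf D).Normal := by
    constructor
    intro c hc g
    exact mem_subgroupOf.2 (h.C_n g (mem_centralizer_singleton_iff.1 g.2) c (mem_subgroupOf.1 hc))
  set y : D ⧸ C.subgroupOf D := QuotientGroup.mk ⟨x, hxD⟩ with hy
  have h1 : y ^ 2 ^ k = 1 := by
    rw [hy, ← QuotientGroup.mk_pow]
    have : (⟨x, hxD⟩ : D) ^ 2 ^ k = 1 := Subtype.ext hk
    rw [this, QuotientGroup.mk_one]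
  have h2 : y ^ C.relIndex D = 1 := by
    have : C.relIndex D = Nat.card (D ⧸ C.subgroupOf D) := rfl
    rw [this]; exact pow_card_eq_one'
  have h3 : Nat.Coprime (2 ^ k) (C.relIndex D) := Nat.Coprime.pow_left k (Nat.coprime_two_left.2 h.C_odd)
  have h4 : orderOf y ∣ 1 := by
    rw [← h3]
    exact Nat.dvd_gcd (orderOf_dvd_of_pow_eq_one h1) (orderOf_dvd_of_pow_eq_one h2)
  have h5 : y = 1 := orderOf_eq_one_iff.1 (Nat.dvd_one.1 h4)
  rw [hy, QuotientGroup.eq_one_iff] at h5
  exact mem_subgroupOf.1 h5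

theorem le_C {P : Subgroup G} (hP : ∀ x ∈ P, x * τ = τ * x) (h2 : IsPGroup 2 P) : P ≤ C := by
  intro x hx
  obtain ⟨k, hk⟩ := h2 ⟨x, hx⟩
  exact h.mem_C (hP x hx) (k := k) (congrArg Subtype.val hk)

theorem S_le : (S : Subgroup G) ≤ C := h.le_C h.cS S.isPGroup'

theorem τC : τ ∈ C := h.S_le h.mem

theorem τZ : τ ∈ Z := h.cent τ h.τC fun y hy => (h.C_le y (h.Q_le hy)).symm

/-- **a nontrivial normal 2-subgroup** -/
theorem exists_E {V : Subgroup G} (hV : V.Normal) (h2 : IsPGroup 2 V) (hne : V ≠ ⊥) :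
    ∃ E : Subgroup G, E ≠ ⊥ ∧ E.Normal ∧ E ≤ Z := by
  have hfact : Fact (Nat.Prime 2) := ⟨Nat.prime_two⟩
  have hVC : V ≤ C := (IsPGroup.le_sylow_of_normal h2 S).trans h.S_le
  -- the elements of order two of the centre
  let V0 : Subgroup G :=
    { carrier := {x | x ∈ V ∧ x * x = 1 ∧ ∀ y ∈ V, x * y = y * x}
      one_mem' := ⟨V.one_mem, one_mul 1, fun y _ => by rw [one_mul, mul_one]⟩
      mul_mem' := by
        rintro a b ⟨ha, ha2, hac⟩ ⟨hb, hb2, hbc⟩
        refine ⟨V.mul_mem ha hb, ?_, fun y hy => ?_⟩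
        · calc a * b * (a * b) = a * (b * a) * b := by group
            _ = a * (a * b) * b := by rw [hac b hb]
            _ = (a * a) * (b * b) := by group
            _ = 1 := by rw [ha2, hb2, one_mul]
        · rw [mul_assoc, hbc y hy, ← mul_assoc, hac y hy, mul_assoc]
      inv_mem' := by
        rintro a ⟨ha, ha2, hac⟩
        have e : a⁻¹ = a := inv_eq_of_mul_eq_one_left ha2
        rw [e]
        exact ⟨ha, ha2, hac⟩ }
  have hV0n : V0.Normal := by
    constructor
    rintro x ⟨hx, hx2, hxc⟩ g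
    refine ⟨hV.conj_mem x hx g, ?_, fun y hy => ?_⟩
    · calc g * x * g⁻¹ * (g * x * g⁻¹) = g * (x * x) * g⁻¹ := by group
        _ = 1 := by rw [hx2]; group
    · have h1 := hxc (g⁻¹ * y * g) (by
        have := hV.conj_mem y hy g⁻¹
        rwa [inv_inv] at this)
      calc g * x * g⁻¹ * y = g * (x * (g⁻¹ * y * g)) * g⁻¹ := by group
        _ = g * (g⁻¹ * y * g * x) * g⁻¹ := by rw [h1]
        _ = y * (g * x * g⁻¹) := by group
  have hV0ne : V0 ≠ ⊥ := by
    have hnt : Nontrivial V := (nontrivial_iff_ne_bot V).2 hne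
    have hcn : Nontrivial (center V) := h2.center_nontrivial
    have h3 : 2 ∣ Nat.card (center V) := by
      obtain ⟨n, hn⟩ := IsPGroup.iff_card.1 (h2.to_subgroup (center V))
      rcases Nat.eq_zero_or_pos n with rfl | hpos
      · rw [pow_zero] at hn
        have := Finite.one_lt_card_iff_nontrivial.2 hcn
        omega
      · rw [hn]; exact dvd_pow_self 2 hpos.ne'
    obtain ⟨x, hx⟩ := exists_prime_orderOf_dvd_card' 2 h3
    intro hb
    have hxm : ((x : V) : G) ∈ V0 := by
      refine ⟨(x : V).2, ?_, fun y hy => ?_⟩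
      · have h4 : x * x = 1 := by rw [← pow_two, ← hx, pow_orderOf_eq_one]
        exact congrArg (fun t : center V => ((t : V) : G)) h4
      · have h4 := mem_center_iff.1 x.2 ⟨y, hy⟩
        exact (congrArg Subtype.val h4).symm
    rw [hb, mem_bot] at hxm
    have h5 : x = 1 := Subtype.ext (Subtype.ext hxm)
    rw [h5, orderOf_one] at hx
    omega
  have hV0C : V0 ≤ C := fun x hx => hVC hx.1
  rcases h.elem hV0C (NB.of_normal hV0n) (fun x hx => hx.2.1) with h1 | h1
  · exact ⟨V0, hV0ne, hV0n, h1⟩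
  -- `Q2` is normal in `G`
  rw [h1] at hV0n
  -- `Q1` is normal in `G`
  have hQ1n : Q1.Normal := by
    constructor
    intro x hx g
    have hc : ∀ y ∈ Q2, g * x * g⁻¹ * y = y * (g * x * g⁻¹) := by
      intro y hy
      have h3 := h.comm1 x hx (g⁻¹ * y * g) (by
        have := hV0n.conj_mem y hy g⁻¹
        rwa [inv_inv] at this)
      calc g * x * g⁻¹ * y = g * (x * (g⁻¹ * y * g)) * g⁻¹ := by group
        _ = g * (g⁻¹ * y * g * x) * g⁻¹ := by rw [h3]
        _ = y * (g * x * g⁻¹) := by group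
    obtain ⟨k, hk⟩ := h.two ⟨x, h.Q1_le hx⟩
    have hk' : x ^ 2 ^ k = 1 := congrArg Subtype.val hk
    refine h.cent2 _ (h.mem_C (hc τ (h.Z_le h.τZ)) (k := k) ?_) hc
    rw [conj_pow, hk', mul_one, mul_inv_cancel]
  -- the squares of `Q1`
  refine ⟨closure {y | ∃ x ∈ Q1, y = x * x}, ?_, ?_, ?_⟩
  · intro hb
    apply h.ne1
    intro x hx
    refine h.sq1' x hx ?_
    have h3 : x * x ∈ closure {y | ∃ x ∈ Q1, y = x * x} := subset_closure ⟨x, hx, rfl⟩
    rwa [hb, mem_bot] at h3
  · constructor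
    intro n hn g
    have key : closure {y | ∃ x ∈ Q1, y = x * x} ≤
        (closure {y | ∃ x ∈ Q1, y = x * x}).comap (MulAut.conj g).toMonoidHom := by
      rw [closure_le]
      rintro _ ⟨x, hx, rfl⟩
      refine subset_closure ⟨g * x * g⁻¹, hQ1n.conj_mem x hx g, ?_⟩
      change g * (x * x) * g⁻¹ = _
      group
    exact key hn
  · rw [closure_le]
    rintro _ ⟨x, hx, rfl⟩
    exact h.sq1 x hx

/-- **every nontrivial normal subgroup contains `Q2`** -/
theorem Q2_le_normal (hO : Cfsg.oddCore G = ⊥) (h2 : Cfsg.pCore 2 G = ⊥) {N : Subgroup G} (hN : N.Normal) (hne : N ≠ ⊥) :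
    Q2 ≤ N := by
  have hfact : Fact (Nat.Prime 2) := ⟨Nat.prime_two⟩
  rcases h.dich (D := N ⊓ Q) inf_le_right ((NB.of_normal hN).inf h.nQ) with h1 | h1
  swap
  · exact h1.trans inf_le_left
  exfalso
  have hNC : N ⊓ C ≤ Z := by
    refine h.le_Z inf_le_right ((NB.of_normal hN).inf ?_) ?_
    · intro c hc x hx
      exact C.mul_mem (C.mul_mem hc hx) (C.inv_mem hc)
    · exact (inf_le_inf_right Q inf_le_left).trans h1
  have hTC : (S : Subgroup G) ⊓ N ≤ C := inf_le_left.trans h.S_le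
  have hTZ : (S : Subgroup G) ⊓ N ≤ Z := (le_inf inf_le_right hTC).trans hNC
  have hle : N ≤ (S : Subgroup G) := by
    refine le_sylow hO S hN fun x hx hxT => ?_
    rcases h.pc with hp | hp
    · refine central_of_perfect hp hN inf_le_right hTC (fun c hc t ht => h.cZ c hc t (hTZ ht))
        (fun t ht => h.sqZ (hTZ ht)) ?_ hx hxT
      rw [inf_relIndex_right]
      exact Cfsg.Agent.Lib.SylowNormalInf.not_dvd_relIndex S N
    · intro t ht
      by_cases ht1 : t = 1
      · rw [ht1, mul_one, one_mul]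
      · have h3 : x * t * x⁻¹ = t := by
          refine Cfsg.Agent.H316.Red.eq_of_card_le_two hp.le (hTZ (hxT t ht)) (hTZ ht) ?_ ht1
          intro h4
          apply ht1
          have h5 : t = x⁻¹ * (x * t * x⁻¹) * x := by group
          rw [h5, h4]; group
        rwa [mul_inv_eq_iff_eq_mul] at h3
  have h4 := Cfsg.Agent.Lib.Cores.le_pCore hN (S.isPGroup'.to_le hle)
  rw [h2, le_bot_iff] at h4
  exact hne h4

end Sit

end Cfsg.Agent.H312.Ree
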