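import Cfsg.Agent.H312.ReeAut

/-!
# S3217, `q = 2`: orders, `C = C_G(τ)` (helper312)

* `loc2_PL` : the orders of the layers of `C_2`;
* `rho_one` : `C = C_G(τ)`.
-/

set_option autoImplicit false

namespace Cfsg.Agent.H312.Ree

open Cfsg.Agent.SplitTwo Cfsg.Agent.SplitTwo.ZS Cfsg.Agent.TitsThree.RankTwoZ Cfsg.Agent.SplitTwo.RootSysZ
open Cfsg.Agent.KFacts.TwF4 Cfsg.Agent.KFacts.TwF4.Arc Cfsg.Agent.KFacts.TwF4.Irr
open Cfsg.Agent.KFacts.TwF4.Inv Cfsg.Agent.KFacts.TwF4.Layers Cfsg.Agent.CpAutTwF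
  Cfsg.Agent.H762.AutPLB Cfsg.Agent.H762
open Subgroup
open scoped Pointwise commutatorElement

universe u

section

variable {F : Type*} [Field F] {σ : F →+* F} {Γ : Type u} [Group Γ] (S' : Full σ Γ)

theorem card_Zc : Nat.card (S'.Zc 2) = Nat.card F := by
  symm
  refine Nat.card_congr (Equiv.ofBijective (fun u => (⟨S'.e 2 0 u, ⟨u, rfl⟩⟩ : S'.Zc 2)) ⟨?_, ?_⟩)
  · intro u v huv
    exact (S'.injE 2 _ _ _ _ (congrArg Subtype.val huv)).2
  · rintro ⟨_, u, rfl⟩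
    exact ⟨u, rfl⟩

theorem card_Q1 : Nat.card S'.Q1 = Nat.card F * Nat.card S'.Q2 := by
  rw [← Nat.card_prod]
  symm
  refine Nat.card_congr (Equiv.ofBijective (fun t : F × S'.Q2 => (⟨S'.e 2 t.1 0 * t.2,
    mul_mem (e_Q1 S' t.1 0) (Irr.Q2_le_Q1 S' t.2.2)⟩ : S'.Q1)) ⟨?_, ?_⟩)
  · rintro ⟨p, b⟩ ⟨p', b'⟩ h
    have h1 : S'.e 2 p 0 * (b : Γ) = S'.e 2 p' 0 * b' := congrArg Subtype.val h
    have h2 : S'.e 2 0 (p * σ p) = S'.e 2 0 (p' * σ p') := by
      rw [← sq_form S' b.2, h1, sq_form S' b'.2]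
    have h3 : p * σ p = p' * σ p' := (S'.injE 2 _ _ _ _ h2).2
    -- `e_2(p) ∈ e_2(p') Q2`
    have h4 : (S'.e 2 p' 0)⁻¹ * S'.e 2 p 0 ∈ S'.Q2 := by
      have e : (S'.e 2 p' 0)⁻¹ * S'.e 2 p 0 = b' * (b : Γ)⁻¹ := by
        rw [inv_mul_eq_iff_eq_mul, ← mul_assoc, ← h1, mul_inv_cancel_right]
      rw [e]
      exact mul_mem b'.2 (inv_mem b.2)
    rw [e_inv, S'.e_mul] at h4
    have h5 := sq_Q2 S' h4
    rw [S'.e_mul, char2 S', char2 S', zero_add] at h5
    have h6 : (p' + p) * σ (p' + p) = 0 := (S'.e_eq_one h5).2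
    have h7 : p' + p = 0 := by
      rcases mul_eq_zero.1 h6 with h8 | h8
      · exact h8
      · exact (map_eq_zero σ).1 h8
    have h8 : p = p' := by
      have h9 : p' + p' = 0 := char2 S' p'
      exact add_left_cancel (h7.trans h9.symm)
    subst h8
    have h9 : (b : Γ) = b' := mul_left_cancel h1
    rw [Subtype.ext h9]
  · rintro ⟨x, hx⟩
    obtain ⟨p, u, b, hb, rfl⟩ := form S' hx
    refine ⟨(p, ⟨S'.e 2 0 u * b, mul_mem (S'.q2_3 u) hb⟩), ?_⟩
    apply Subtype.ext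
    change S'.e 2 p 0 * (S'.e 2 0 u * b) = S'.e 2 p u * b
    rw [← mul_assoc, S'.e_mul, map_zero, mul_zero, add_zero, add_zero, zero_add]

variable {G : Type*} [Group G] [Finite G] {τ : G} {S : Sylow 2 G} {C : Subgroup G}

/-- the orders -/
theorem loc2_of [Finite F] [Finite Γ] (hR : S'.R.p = 2)
    (hU : ∃ P : Sylow 2 Γ, (P : Subgroup Γ) = J S'.XZ 1 8) (h01 : ∀ x : F, x = 0 ∨ x = 1) (e : ↥C ≃* ↥S'.PL) :
    Loc2 C (tr e (S'.Zc 2)) (tr e S'.Q2) (tr e S'.Q1) (tr e S'.Q) where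
  toLoc := (loc_PL S' hR hU).transport e
  cardZ := by
    rw [card_tr e ((loc_PL S' hR hU).Z_le_C), card_Zc, card_F h01]
  cardQ2 := by
    rw [card_tr e ((loc_PL S' hR hU).Q2_le_C), Card.card_Q2 S', card_F h01]
    norm_num
  cardQ1 := by
    rw [card_tr e ((loc_PL S' hR hU).Q1_le_C), card_Q1, Card.card_Q2 S', card_F h01]
    norm_num
  cardQ := by
    rw [card_tr e ((loc_PL S' hR hU).Q_le), PL.card_Q S', card_F h01]
  cardC := by
    rw [Nat.card_congr e.toEquiv, card_five h01, PL.card_U S', card_F h01]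

/-- **`C = C_G(τ)`** -/
theorem rho_one [Finite F] [Finite Γ] (hR : S'.R.p = 2) (hU : ∃ P : Sylow 2 Γ, (P : Subgroup Γ) = J S'.XZ 1 8)
    (h01 : ∀ x : F, x = 0 ∨ x = 1) (hτ : orderOf τ = 2)
    (hτS : τ ∈ (S : Subgroup G)) (hτc : ∀ s ∈ (S : Subgroup G), s * τ = τ * s)
    (hCle : C ≤ centralizer ({τ} : Set G)) (hCn : (C.subgroupOf (centralizer ({τ} : Set G))).Normal)
    (hodd : Odd (C.relIndex (centralizer ({τ} : Set G)))) (e : ↥C ≃* ↥S'.PL)
    (hO : Cfsg.oddCore ↥(centralizer ({τ} : Set G)) = ⊥) : centralizer ({τ} : Set G) ≤ C := by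
  have hfact : Fact (Nat.Prime 2) := ⟨Nat.prime_two⟩
  have h := sit_of S' hR hU hτ hτS hτc hCle hCn hodd e
  have k := loc2_of S' hR hU h01 e
  set H : Subgroup G := centralizer ({τ} : Set G) with hH
  have hHm : ∀ x, x ∈ H ↔ x * τ = τ * x := fun x => mem_centralizer_singleton_iff
  -- the centralizer of `C` in `H`
  set C' : Subgroup H := C.subgroupOf H with hC'
  have hcn : (centralizer (C' : Set H)).Normal := inferInstance
  have hSH : (S : Subgroup G) ≤ H := fun x hx => (hHm x).2 (hτc x hx)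
  have hD : centralizer (C' : Set H) ≤ ((S.subtype hSH : Sylow 2 H) : Subgroup H) := by
    refine le_sylow hO (S.subtype hSH) hcn fun x hx _ t ht => ?_
    have htS : (t : G) ∈ (S : Subgroup G) := ht.1
    have htc : t ∈ centralizer (C' : Set H) := ht.2
    -- `t ∈ Z`
    have htZ : (t : G) ∈ tr e (S'.Zc 2) := by
      refine h.cent t (h.S_le htS) fun y hy => ?_
      have hyC : y ∈ C := h.Q_le hy
      have h1 := mem_centralizer_iff.1 htc ⟨y, hCle hyC⟩ hyC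
      exact (congrArg Subtype.val h1).symm
    by_cases ht1 : t = 1
    · rw [ht1, mul_one, one_mul]
    · have h1 : (t : G) = τ := k.Z_cases htZ h.τZ (fun h2 => ht1 (Subtype.ext h2)) h.t1
      apply Subtype.ext
      change (x : G) * (t : G) = t * x
      rw [h1]
      exact (hHm x).1 x.2
  have hDC : ∀ x ∈ H, (∀ c ∈ C, x * c = c * x) → x ∈ C := by
    intro x hx hxc
    have h1 : (⟨x, hx⟩ : H) ∈ centralizer (C' : Set H) := by
      rw [mem_centralizer_iff]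
      intro c hc
      exact Subtype.ext (hxc c hc).symm
    exact h.S_le (hD h1)
  -- an element of `H`
  have hnH : H ≤ normalizer (C : Set G) := by
    intro g hg
    rw [mem_normalizer_iff]
    intro x
    refine ⟨fun hx => h.C_n g ((hHm g).1 hg) x hx, fun hx => ?_⟩
    have h1 := h.C_n g⁻¹ ((hHm g⁻¹).1 (inv_mem hg)) _ hx
    have e : g⁻¹ * (g * x * g⁻¹) * g⁻¹⁻¹ = x := by group
    rwa [e] at h1
  let act : ∀ x ∈ H, MulAut C := fun x hx => C.normalizerMonoidHom ⟨x, hnH hx⟩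
  have hact : ∀ x (hx : x ∈ H) (c : C), ((act x hx c : C) : G) = x * c * x⁻¹ := fun x hx c => rfl
  -- elements of `H` normalising `S`
  have hNS : ∀ b ∈ H, (∀ s ∈ (S : Subgroup G), b * s * b⁻¹ ∈ (S : Subgroup G)) → b ∈ C := by
    intro b hb hbS
    obtain ⟨j, m, hm, hj⟩ := Nat.exists_eq_two_pow_mul_odd (orderOf_pos b).ne'
    have hb2 : (b ^ m) ^ 2 ^ j = 1 := by rw [← pow_mul, mul_comm, ← hj, pow_orderOf_eq_one]
    have hb3 : (b ^ 2 ^ j) ^ m = 1 := by rw [← pow_mul, ← hj, pow_orderOf_eq_one]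
    have hbm : b ^ m ∈ C := h.mem_C ((hHm _).1 (H.pow_mem hb m)) hb2
    have hbj : b ^ 2 ^ j ∈ C := by
      have hbjH : b ^ 2 ^ j ∈ H := H.pow_mem hb _
      have hbjS : ∀ i : ℕ, ∀ s ∈ (S : Subgroup G), b ^ i * s * (b ^ i)⁻¹ ∈ (S : Subgroup G) := by
        intro i
        induction i with
        | zero => intro s hs; simpa using hs
        | succ i ih =>
          intro s hs
          have h1 := hbS _ (ih s hs)
          have e : b * (b ^ i * s * (b ^ i)⁻¹) * b⁻¹ = b ^ (i + 1) * s * (b ^ (i + 1))⁻¹ := by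
            rw [pow_succ']; group
          rwa [e] at h1
      have h1 : act _ hbjH = 1 := by
        refine aut_odd_of h01 hR e hm ?_ (P := S.subtype h.S_le) ?_
        · change (C.normalizerMonoidHom ⟨b ^ 2 ^ j, hnH hbjH⟩) ^ m = 1
          rw [← map_pow]
          have e1 : (⟨b ^ 2 ^ j, hnH hbjH⟩ : ↥(normalizer (C : Set G))) ^ m = 1 := Subtype.ext hb3
          rw [e1, map_one]
        · intro x hx
          exact hbjS _ x hx
      refine hDC _ hbjH fun c hc => ?_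
      have h2 := hact _ hbjH ⟨c, hc⟩
      rw [h1] at h2
      have h3 : c = b ^ 2 ^ j * c * (b ^ 2 ^ j)⁻¹ := h2
      rw [eq_mul_inv_iff_mul_eq] at h3
      exact h3.symm
    have hcop : Nat.Coprime (2 ^ j) m := Nat.Coprime.pow_left _ (Nat.coprime_two_left.2 hm)
    have h1 := Nat.gcd_eq_gcd_ab (2 ^ j) m
    rw [hcop.gcd_eq_one] at h1
    have h2 : b = (b ^ 2 ^ j) ^ (Nat.gcdA (2 ^ j) m) * (b ^ m) ^ (Nat.gcdB (2 ^ j) m) := by
      rw [← zpow_natCast b (2 ^ j), ← zpow_natCast b m, ← zpow_mul, ← zpow_mul, ← zpow_add, ← h1]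
      simp
    rw [h2]
    exact C.mul_mem (C.zpow_mem hbj _) (C.zpow_mem hbm _)
  intro x hx
  -- `x S x⁻¹` is a Sylow subgroup of `C`
  let P : Sylow 2 C := S.subtype h.S_le
  obtain ⟨c, hc⟩ := MulAction.exists_smul_eq C P (act x hx • P)
  have hP : ∀ y : C, y ∈ (P : Subgroup C) ↔ (y : G) ∈ (S : Subgroup G) := fun y => Iff.rfl
  have h1 : (c : G)⁻¹ * x ∈ C := by
    refine hNS _ (H.mul_mem (H.inv_mem (hCle c.2)) hx) fun s hs => ?_
    have hsC := h.S_le hs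
    have h2 : act x hx • (⟨s, hsC⟩ : C) ∈ ((act x hx • P : Sylow 2 C) : Subgroup C) := by
      rw [Sylow.pointwise_smul_def]
      exact Subgroup.smul_mem_pointwise_smul _ _ _ hs
    rw [← hc, Sylow.smul_def, Sylow.pointwise_smul_def, Subgroup.mem_pointwise_smul_iff_inv_smul_mem, ← map_inv] at h2
    have h3 : (c : G)⁻¹ * (x * s * x⁻¹) * (c : G)⁻¹⁻¹ ∈ (S : Subgroup G) := h2
    have e : (c : G)⁻¹ * (x * s * x⁻¹) * (c : G)⁻¹⁻¹ = (c : G)⁻¹ * x * s * ((c : G)⁻¹ * x)⁻¹ := by group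
    rwa [e] at h3
  have h2 := C.mul_mem c.2 h1
  rwa [mul_inv_cancel_left] at h2

end

end Cfsg.Agent.H312.Ree
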