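import Cfsg.Agent.H312.ReeConj

/-!
# `Sit` from the hypotheses of S3217 (helper312)

* `tr` : the subgroup of `C` corresponding to a subgroup of `PL`;
* `sit_of` : `Sit τ S C (tr Z) (tr Q2) (tr Q1) (tr Q)`.
-/

set_option autoImplicit false

namespace Cfsg.Agent.H312.Ree

open Cfsg.Agent.SplitTwo Cfsg.Agent.SplitTwo.ZS Cfsg.Agent.TitsThree.RankTwoZ Cfsg.Agent.SplitTwo.RootSysZ
open Cfsg.Agent.KFacts.TwF4 Cfsg.Agent.KFacts.TwF4.Arc Cfsg.Agent.KFacts.TwF4.Irr
open Cfsg.Agent.KFacts.TwF4.Inv Cfsg.Agent.KFacts.TwF4.Layers Cfsg.Agent.CpAutTwF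
open Subgroup
open scoped commutatorElement Pointwise

/-- the subgroup of `C` corresponding to a subgroup of `C'` -/
def tr {Γ G : Type*} [Group Γ] [Group G] {C' : Subgroup Γ} {C : Subgroup G} (e : ↥C ≃* ↥C') (A : Subgroup Γ) :
    Subgroup G := (A.subgroupOf C').map (C.subtype.comp e.symm.toMonoidHom)

section tr

variable {Γ G : Type*} [Group Γ] [Group G] {C' : Subgroup Γ} {C : Subgroup G} (e : ↥C ≃* ↥C')

theorem tr_inj : Function.Injective (C.subtype.comp e.symm.toMonoidHom) :=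
  C.subtype_injective.comp e.symm.injective

theorem card_tr {A : Subgroup Γ} (hA : A ≤ C') : Nat.card (tr e A) = Nat.card A := by
  rw [tr, card_map_of_injective (tr_inj e), Nat.card_congr (subgroupOfEquivOfLe hA).toEquiv]

theorem mem_tr {A : Subgroup Γ} {x : G} (hx : x ∈ C) : x ∈ tr e A ↔ (e ⟨x, hx⟩ : Γ) ∈ A := by
  constructor
  · rintro ⟨y, hy, hyx⟩
    have h1 : e.symm y = ⟨x, hx⟩ := Subtype.ext hyx
    rw [← h1, e.apply_symm_apply]
    exact hy
  · intro h
    refine ⟨e ⟨x, hx⟩, h, ?_⟩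
    change ((e.symm (e ⟨x, hx⟩) : C) : G) = x
    rw [e.symm_apply_apply]

include e in
theorem perfect_of_equiv (h : ⁅C', C'⁆ = C') : ⁅C, C⁆ = C := by
  have h1 : _root_.commutator ↥C' = ⊤ := by
    apply Subgroup.map_injective (subtype_injective C')
    rw [map_subtype_commutator, h, ← MonoidHom.range_eq_map, range_subtype]
  have h2 : _root_.commutator ↥C = ⊤ := by
    apply Subgroup.map_injective (f := e.toMonoidHom) e.injective
    unfold _root_.commutator
    rw [map_commutator, Subgroup.map_top_of_surjective _ e.surjective]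
    exact h1
  rw [← map_subtype_commutator, h2, ← MonoidHom.range_eq_map, range_subtype]

end tr

/-- `C ⊴ C_G(τ)` : conjugation -/
theorem conj_of_normal {G : Type*} [Group G] {C D : Subgroup G} (hle : C ≤ D) (hn : (C.subgroupOf D).Normal) {g c : G}
    (hg : g ∈ D) (hc : c ∈ C) : g * c * g⁻¹ ∈ C :=
  hn.conj_mem ⟨c, hle hc⟩ hc ⟨g, hg⟩

section

variable {F : Type*} [Field F] [Finite F] {σ : F →+* F} {Γ : Type*} [Group Γ] [Finite Γ] (S' : Full σ Γ)
  {G : Type*} [Group G] [Finite G] {τ : G} {S : Sylow 2 G} {C : Subgroup G}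

theorem sit_of (hR : S'.R.p = 2) (hU : ∃ P : Sylow 2 Γ, (P : Subgroup Γ) = J S'.XZ 1 8) (hτ : orderOf τ = 2)
    (hτS : τ ∈ (S : Subgroup G)) (hτc : ∀ s ∈ (S : Subgroup G), s * τ = τ * s)
    (hCle : C ≤ centralizer ({τ} : Set G)) (hCn : (C.subgroupOf (centralizer ({τ} : Set G))).Normal)
    (hodd : Odd (C.relIndex (centralizer ({τ} : Set G)))) (e : ↥C ≃* ↥S'.PL) :
    Sit τ S C (tr e (S'.Zc 2)) (tr e S'.Q2) (tr e S'.Q1) (tr e S'.Q) where
  toLoc := (loc_PL S' hR hU).transport e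
  tt := by rw [← pow_two, ← hτ, pow_orderOf_eq_one]
  t1 := by
    rintro rfl
    rw [orderOf_one] at hτ
    omega
  mem := hτS
  cS := hτc
  C_le := fun c hc => mem_centralizer_singleton_iff.1 (hCle hc)
  C_n := fun g hg c hc => conj_of_normal hCle hCn (mem_centralizer_singleton_iff.2 hg) hc
  C_odd := hodd
  pc := by
    by_cases hF : ∃ c : Fˣ, c ≠ 1
    · exact Or.inl (perfect_of_equiv e (Perf.PL_perfect S' hF))
    · right
      push Not at hF
      have h01 : ∀ x : F, x = 0 ∨ x = 1 := by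
        intro x
        by_cases hx : x = 0
        · exact Or.inl hx
        · exact Or.inr (congrArg Units.val (hF (Units.mk0 x hx)))
      have hle : S'.Zc 2 ≤ S'.PL := by
        rintro _ ⟨u, rfl⟩
        exact Irr.Q_PL S' (Layers.Q2_le_Q S' (S'.q2_3 u))
      rw [card_tr e hle, ← H762.AutPLB.card_F h01]
      symm
      refine Nat.card_congr (Equiv.ofBijective (fun u => (⟨S'.e 2 0 u, ⟨u, rfl⟩⟩ : S'.Zc 2)) ⟨?_, ?_⟩)
      · intro u v huv
        exact (S'.injE 2 _ _ _ _ (congrArg Subtype.val huv)).2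
      · rintro ⟨_, u, rfl⟩
        exact ⟨u, rfl⟩

end

end Cfsg.Agent.H312.Ree
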