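import Cfsg.Agent.H312.ReeLoc

/-!
# Transport of `Loc` along an isomorphism (helper312, S3217)

`Loc.transport` : `Loc` for a subgroup `C'` of `Γ` and an isomorphism `C ≃* C'`.
-/

set_option autoImplicit false

namespace Cfsg.Agent.H312.Ree

open Subgroup
open scoped commutatorElement

namespace Loc

variable {Γ : Type*} [Group Γ]

theorem map_mono_iff {G H : Type*} [Group G] [Group H] {f : G →* H} (hf : Function.Injective f) {A B : Subgroup G} :
    A.map f ≤ B.map f ↔ A ≤ B := map_le_map_iff_of_injective hf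

/-- inside `C` -/
theorem inside {C Z Q2 Q1 Q : Subgroup Γ} (h : Loc C Z Q2 Q1 Q) :
    Loc (⊤ : Subgroup C) (Z.subgroupOf C) (Q2.subgroupOf C) (Q1.subgroupOf C) (Q.subgroupOf C) where
  Q_le := le_top
  Q1_le := comap_mono h.Q1_le
  Q2_le := comap_mono h.Q2_le
  Z_le := comap_mono h.Z_le
  nQ := fun c _ x hx => h.nQ c c.2 x hx
  nQ1 := fun c _ x hx => h.nQ1 c c.2 x hx
  nQ2 := fun c _ x hx => h.nQ2 c c.2 x hx
  cZ := fun c _ x hx => Subtype.ext (h.cZ c c.2 x hx)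
  sq2 := fun x hx => Subtype.ext (h.sq2 x hx)
  comm1 := fun x hx y hy => Subtype.ext (h.comm1 x hx y hy)
  cent2 := fun g _ hg => h.cent2 g g.2 fun y hy => congrArg Subtype.val (hg ⟨y, h.Q2_le_C hy⟩ hy)
  cent := fun g _ hg => h.cent g g.2 fun y hy => congrArg Subtype.val (hg ⟨y, h.Q_le hy⟩ hy)
  comm2 := fun x hx y hy => h.comm2 x hx y hy
  comm2' := by
    have e : (⁅Q2.subgroupOf C, Q.subgroupOf C⁆).map C.subtype = ⁅Q2, Q⁆ := by
      rw [map_commutator, subgroupOf_map_subtype, subgroupOf_map_subtype, inf_eq_left.2 h.Q2_le_C,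
        inf_eq_left.2 h.Q_le]
    rw [← map_mono_iff C.subtype_injective, e, subgroupOf_map_subtype, inf_eq_left.2 h.Z_le_C]
    exact h.comm2'
  commQ := by
    rw [commutator_le]
    intro x hx y hy
    exact h.commQ (commutator_mem_commutator (H₁ := Q) (H₂ := Q) hx hy)
  comm11 := fun x hx y hy => h.comm11 x hx y hy
  sq1 := fun x hx => h.sq1 x hx
  sq1' := fun x hx hxx => h.sq1' x hx (congrArg Subtype.val hxx)
  ne1 := by
    intro h1
    apply h.ne1
    intro x hx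
    exact h1 (show (⟨x, h.Q1_le_C hx⟩ : C) ∈ Q1.subgroupOf C from hx)
  sec := fun x hx hxy => h.sec x hx fun y hy => hxy ⟨y, h.Q_le hy⟩ hy
  irr1 := by
    intro N h1 h2 hn hne
    have h3 : N.map C.subtype = Q2 := by
      refine h.irr1 _ ?_ ?_ ?_ ?_
      · intro x hx
        exact ⟨⟨x, h.Z_le_C hx⟩, h1 hx, rfl⟩
      · rintro _ ⟨x, hx, rfl⟩
        exact h2 hx
      · rintro c hc _ ⟨x, hx, rfl⟩
        exact ⟨⟨c, hc⟩ * x * ⟨c, hc⟩⁻¹, hn _ trivial x hx, rfl⟩
      · intro h4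
        exact hne fun x hx => h4 ⟨x, hx, rfl⟩
    apply Subgroup.map_injective C.subtype_injective
    rw [h3, subgroupOf_map_subtype, inf_eq_left.2 h.Q2_le_C]
  irr2 := by
    intro N h1 h2 hn hne
    have h3 : N.map C.subtype = Q := by
      refine h.irr2 _ ?_ ?_ ?_ ?_
      · intro x hx
        exact ⟨⟨x, h.Q1_le_C hx⟩, h1 hx, rfl⟩
      · rintro _ ⟨x, hx, rfl⟩
        exact h2 hx
      · rintro c hc _ ⟨x, hx, rfl⟩
        exact ⟨⟨c, hc⟩ * x * ⟨c, hc⟩⁻¹, hn _ trivial x hx, rfl⟩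
      · intro h4
        exact hne fun x hx => h4 ⟨x, hx, rfl⟩
    apply Subgroup.map_injective C.subtype_injective
    rw [h3, subgroupOf_map_subtype, inf_eq_left.2 h.Q_le]
  two := h.two.comap_subtype
  O2 := by
    intro N _ hn h2 x hx
    refine h.O2 (N.map C.subtype) (map_subtype_le N) ?_ (h2.map _) ⟨x, hx, rfl⟩
    rintro c hc _ ⟨x, hx, rfl⟩
    exact ⟨⟨c, hc⟩ * x * ⟨c, hc⟩⁻¹, hn _ trivial x hx, rfl⟩
  Z_ne := by
    intro h1
    apply h.Z_ne
    rw [eq_bot_iff]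
    intro x hx
    have h3 : (⟨x, h.Z_le_C hx⟩ : C) ∈ Z.subgroupOf C := hx
    rw [h1, mem_bot] at h3
    exact congrArg Subtype.val h3
  big := by
    rw [Nat.card_congr (subgroupOfEquivOfLe h.Q2_le_C).toEquiv]
    exact h.big

/-- the image -/
theorem image {H G : Type*} [Group H] [Group G] {Z Q2 Q1 Q : Subgroup H} (h : Loc ⊤ Z Q2 Q1 Q) (f : H →* G)
    (hf : Function.Injective f) : Loc f.range (Z.map f) (Q2.map f) (Q1.map f) (Q.map f) where
  Q_le := map_le_range f Q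
  Q1_le := map_mono h.Q1_le
  Q2_le := map_mono h.Q2_le
  Z_le := map_mono h.Z_le
  nQ := by
    rintro _ ⟨c, rfl⟩ _ ⟨x, hx, rfl⟩
    exact ⟨c * x * c⁻¹, h.nQ c trivial x hx, by rw [map_mul, map_mul, map_inv]⟩
  nQ1 := by
    rintro _ ⟨c, rfl⟩ _ ⟨x, hx, rfl⟩
    exact ⟨c * x * c⁻¹, h.nQ1 c trivial x hx, by rw [map_mul, map_mul, map_inv]⟩
  nQ2 := by
    rintro _ ⟨c, rfl⟩ _ ⟨x, hx, rfl⟩
    exact ⟨c * x * c⁻¹, h.nQ2 c trivial x hx, by rw [map_mul, map_mul, map_inv]⟩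
  cZ := by
    rintro _ ⟨c, rfl⟩ _ ⟨x, hx, rfl⟩
    rw [← map_mul, h.cZ c trivial x hx, map_mul]
  sq2 := by
    rintro _ ⟨x, hx, rfl⟩
    rw [← map_mul, h.sq2 x hx, map_one]
  comm1 := by
    rintro _ ⟨x, hx, rfl⟩ _ ⟨y, hy, rfl⟩
    rw [← map_mul, h.comm1 x hx y hy, map_mul]
  cent2 := by
    rintro _ ⟨g, rfl⟩ hg
    exact ⟨g, h.cent2 g trivial fun y hy => hf (by rw [map_mul, map_mul]; exact hg _ ⟨y, hy, rfl⟩), rfl⟩
  cent := by
    rintro _ ⟨g, rfl⟩ hg
    exact ⟨g, h.cent g trivial fun y hy => hf (by rw [map_mul, map_mul]; exact hg _ ⟨y, hy, rfl⟩), rfl⟩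
  comm2 := by
    rintro _ ⟨x, hx, rfl⟩ _ ⟨y, hy, rfl⟩
    exact ⟨⁅x, y⁆, h.comm2 x hx y hy, map_commutatorElement f x y⟩
  comm2' := by
    rw [← map_commutator]
    exact map_mono h.comm2'
  commQ := by
    rw [← map_commutator]
    exact map_mono h.commQ
  comm11 := by
    rintro _ ⟨x, hx, rfl⟩ _ ⟨y, hy, rfl⟩
    exact ⟨⁅x, y⁆, h.comm11 x hx y hy, map_commutatorElement f x y⟩
  sq1 := by
    rintro _ ⟨x, hx, rfl⟩
    exact ⟨x * x, h.sq1 x hx, map_mul f x x⟩
  sq1' := by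
    rintro _ ⟨x, hx, rfl⟩ hxx
    exact ⟨x, h.sq1' x hx (hf (by rw [map_mul, map_one]; exact hxx)), rfl⟩
  ne1 := fun h1 => h.ne1 ((map_mono_iff hf).1 h1)
  sec := by
    rintro _ ⟨x, hx, rfl⟩ hxy
    refine ⟨x, h.sec x hx fun y hy => ?_, rfl⟩
    obtain ⟨z, hz, h1⟩ := hxy (f y) ⟨y, hy, rfl⟩
    have h2 : z = ⁅x, y⁆ := hf (by rw [map_commutatorElement]; exact h1)
    rwa [← h2]
  irr1 := by
    intro N h1 h2 hn hne
    have e : (N.comap f).map f = N := map_comap_eq_self (h2.trans (map_le_range f _))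
    rw [← e]
    congr 1
    refine h.irr1 _ ?_ ?_ ?_ ?_
    · exact map_le_iff_le_comap.1 h1
    · rw [← e] at h2
      exact (map_mono_iff hf).1 h2
    · intro c _ x hx
      change f (c * x * c⁻¹) ∈ N
      rw [map_mul, map_mul, map_inv]
      exact hn (f c) ⟨c, rfl⟩ (f x) hx
    · intro h3
      apply hne
      rw [← e]
      exact map_mono h3
  irr2 := by
    intro N h1 h2 hn hne
    have e : (N.comap f).map f = N := map_comap_eq_self (h2.trans (map_le_range f _))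
    rw [← e]
    congr 1
    refine h.irr2 _ ?_ ?_ ?_ ?_
    · exact map_le_iff_le_comap.1 h1
    · rw [← e] at h2
      exact (map_mono_iff hf).1 h2
    · intro c _ x hx
      change f (c * x * c⁻¹) ∈ N
      rw [map_mul, map_mul, map_inv]
      exact hn (f c) ⟨c, rfl⟩ (f x) hx
    · intro h3
      apply hne
      rw [← e]
      exact map_mono h3
  two := h.two.map f
  O2 := by
    intro N h1 hn h2
    have e : (N.comap f).map f = N := map_comap_eq_self h1
    rw [← e]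
    apply map_mono
    refine h.O2 _ le_top ?_ (h2.comap_of_injective f hf)
    intro c _ x hx
    change f (c * x * c⁻¹) ∈ N
    rw [map_mul, map_mul, map_inv]
    exact hn (f c) ⟨c, rfl⟩ (f x) hx
  Z_ne := by
    intro h1
    exact h.Z_ne ((map_eq_bot_iff_of_injective _ hf).1 h1)
  big := by
    rw [card_map_of_injective hf]
    exact h.big

/-- **transport** -/
theorem transport {G : Type*} [Group G] {C' Z' Q2' Q1' Q' : Subgroup Γ} (h : Loc C' Z' Q2' Q1' Q') {C : Subgroup G}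
    (e : ↥C ≃* ↥C') : Loc C ((Z'.subgroupOf C').map (C.subtype.comp e.symm.toMonoidHom))
      ((Q2'.subgroupOf C').map (C.subtype.comp e.symm.toMonoidHom))
      ((Q1'.subgroupOf C').map (C.subtype.comp e.symm.toMonoidHom))
      ((Q'.subgroupOf C').map (C.subtype.comp e.symm.toMonoidHom)) := by
  have hf : Function.Injective (C.subtype.comp e.symm.toMonoidHom) :=
    C.subtype_injective.comp e.symm.injective
  have h1 := h.inside.image (C.subtype.comp e.symm.toMonoidHom) hf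
  have h2 : (C.subtype.comp e.symm.toMonoidHom).range = C := by
    ext x
    constructor
    · rintro ⟨y, rfl⟩
      exact (e.symm y).2
    · intro hx
      refine ⟨e ⟨x, hx⟩, ?_⟩
      change ((e.symm (e ⟨x, hx⟩) : C) : G) = x
      rw [e.symm_apply_apply]
  rwa [h2] at h1

end Loc

end Cfsg.Agent.H312.Ree
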